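import Mathlib

/-!
# Automorphisms of groups with a split (B,N)-pair: abstract normalisation

`Mp θ K K'` says that the automorphism `θ` maps the subgroup `K` onto `K'`.
-/

set_option autoImplicit false

namespace Cfsg.Agent.Lib.Helper45.AutAbs

variable {G : Type*} [Group G]

/-- `θ` maps `K` onto `K'` -/
def Mp (θ : G ≃* G) (K K' : Subgroup G) : Prop := ∀ g, θ g ∈ K' ↔ g ∈ K

/-- conjugation by `g` -/
def cj (g : G) : G ≃* G := MulAut.conj g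

@[simp] theorem cj_apply (g h : G) : cj g h = g * h * g⁻¹ := rfl

@[simp] theorem cj_symm_apply (g h : G) : (cj g).symm h = g⁻¹ * h * g := rfl

namespace Mp

variable {θ θ' : G ≃* G} {K K' K'' L L' : Subgroup G}

theorem refl (K : Subgroup G) : Mp (MulEquiv.refl G) K K := fun _ => Iff.rfl

theorem symm (h : Mp θ K K') : Mp θ.symm K' K := fun g => by
  have := h (θ.symm g)
  rw [MulEquiv.apply_symm_apply] at this
  exact this.symm

theorem trans (h : Mp θ K K') (h' : Mp θ' K' K'') : Mp (θ.trans θ') K K'' :=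
  fun g => (h' _).trans (h g)

theorem inf (h : Mp θ K K') (h' : Mp θ L L') : Mp θ (K ⊓ L) (K' ⊓ L') := fun g => by
  rw [Subgroup.mem_inf, Subgroup.mem_inf, h g, h' g]

theorem unique (h : Mp θ K K') (h' : Mp θ K K'') : K' = K'' := by
  ext g
  have h1 := h (θ.symm g)
  have h2 := h' (θ.symm g)
  rw [MulEquiv.apply_symm_apply] at h1 h2
  rw [h1, h2]

theorem unique_left (h : Mp θ K K') (h' : Mp θ L K') : K = L := by
  ext g
  rw [← h g, ← h' g]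

theorem exists_preimage (h : Mp θ K K') {g : G} (hg : g ∈ K') : ∃ k ∈ K, θ k = g :=
  ⟨θ.symm g, (h _).1 (by rwa [MulEquiv.apply_symm_apply]), MulEquiv.apply_symm_apply _ _⟩

theorem mem (h : Mp θ K K') {g : G} (hg : g ∈ K) : θ g ∈ K' := (h g).2 hg

end Mp

theorem mp_cj_inv {g : G} {K K' : Subgroup G} (h : Mp (cj g) K K') : Mp (cj g⁻¹) K' K := fun x => by
  have := h (g⁻¹ * x * g)
  simp only [cj_apply] at this ⊢
  rw [inv_inv, ← this]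
  have e : g * (g⁻¹ * x * g) * g⁻¹ = x := by group
  rw [e]

/-- conjugating an `Mp` statement -/
theorem mp_conj {θ : G ≃* G} {K K' L L' : Subgroup G} {n : G} (h : Mp θ K K')
    (hn : Mp (cj n) K L) (hn' : Mp (cj (θ n)) K' L') : Mp θ L L' := fun g => by
  have h1 := hn (n⁻¹ * g * n)
  have h2 := hn' ((θ n)⁻¹ * θ g * θ n)
  have h3 := h (n⁻¹ * g * n)
  simp only [cj_apply] at h1 h2
  have e1 : n * (n⁻¹ * g * n) * n⁻¹ = g := by group
  have e2 : θ n * ((θ n)⁻¹ * θ g * θ n) * (θ n)⁻¹ = θ g := by group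
  rw [e1] at h1
  rw [e2] at h2
  rw [h1, h2, ← h3]
  simp only [map_mul, map_inv]

/-! ### Step A: normalisation -/

theorem normalize {U V B N : Subgroup G} {n0 : G}
    (hSyl : ∀ θ : G ≃* G, ∃ g : G, Mp (θ.trans (cj g)) U U)
    (hBU : ∀ b ∈ B, Mp (cj b) U U)
    (bruhat : ∀ g : G, ∃ b ∈ B, ∃ n ∈ N, ∃ b' ∈ B, g = b * n * b')
    (hn0 : Mp (cj n0) U V) (hUV : ∀ g, g ∈ U → g ∈ V → g = 1)
    (hopp : ∀ n ∈ N, (∀ u ∈ U, n * u * n⁻¹ ∈ U → u = 1) → Mp (cj n) U V)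
    (θ : G ≃* G) : ∃ g : G, Mp (θ.trans (cj g)) U U ∧ Mp (θ.trans (cj g)) V V := by
  obtain ⟨g₁, h1⟩ := hSyl θ
  set θ₁ := θ.trans (cj g₁) with hθ₁
  obtain ⟨b, hb, n, hn, b', hb', hm⟩ := bruhat (θ₁ n0)
  -- `v ∈ V ↔ m⁻¹ θ₁(v) m ∈ U`
  have hV : ∀ v, v ∈ V ↔ (θ₁ n0)⁻¹ * θ₁ v * θ₁ n0 ∈ U := by
    intro v
    have e1 := hn0 (n0⁻¹ * v * n0)
    simp only [cj_apply] at e1
    have e2 : n0 * (n0⁻¹ * v * n0) * n0⁻¹ = v := by group
    rw [e2] at e1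
    rw [e1, ← h1 (n0⁻¹ * v * n0)]
    simp only [map_mul, map_inv]
  have hn' : Mp (cj n) U V := by
    apply hopp n hn
    intro u hu hnu
    have hu1 : b'⁻¹ * u * b' ∈ U := by
      have := (hBU b'⁻¹ (inv_mem hb') u).2 hu
      simpa using this
    have hmu : θ₁ n0 * (b'⁻¹ * u * b') * (θ₁ n0)⁻¹ ∈ U := by
      have := (hBU b hb (n * u * n⁻¹)).2 hnu
      simp only [cj_apply] at this
      have e : θ₁ n0 * (b'⁻¹ * u * b') * (θ₁ n0)⁻¹ = b * (n * u * n⁻¹) * b⁻¹ := by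
        rw [hm]; group
      rw [e]; exact this
    set y := θ₁.symm (θ₁ n0 * (b'⁻¹ * u * b') * (θ₁ n0)⁻¹) with hy
    have hy1 : θ₁ y = θ₁ n0 * (b'⁻¹ * u * b') * (θ₁ n0)⁻¹ := MulEquiv.apply_symm_apply _ _
    have hyU : y ∈ U := (h1 y).1 (by rw [hy1]; exact hmu)
    have hyV : y ∈ V := by
      rw [hV, hy1]
      have e : (θ₁ n0)⁻¹ * (θ₁ n0 * (b'⁻¹ * u * b') * (θ₁ n0)⁻¹) * θ₁ n0 = b'⁻¹ * u * b' := by group
      rw [e]; exact hu1
    have hy0 := hUV y hyU hyV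
    rw [hy0, map_one] at hy1
    have e3 : b'⁻¹ * u * b' = 1 := by
      have : b'⁻¹ * u * b' = (θ₁ n0)⁻¹ * (θ₁ n0 * (b'⁻¹ * u * b') * (θ₁ n0)⁻¹) * θ₁ n0 := by group
      rw [this, ← hy1]; group
    have : u = b' * (b'⁻¹ * u * b') * b'⁻¹ := by group
    rw [this, e3]; group
  refine ⟨b⁻¹ * g₁, ?_, ?_⟩
  · intro u
    have e : (θ.trans (cj (b⁻¹ * g₁))) u = cj b⁻¹ (θ₁ u) := by
      simp only [hθ₁, MulEquiv.trans_apply, cj_apply]; group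
    rw [e, hBU b⁻¹ (inv_mem hb), h1]
  · intro v
    have e : (θ.trans (cj (b⁻¹ * g₁))) v = b⁻¹ * θ₁ v * b := by
      simp only [hθ₁, MulEquiv.trans_apply, cj_apply]; group
    rw [e, hV v, hm]
    have e1 := hn' (n⁻¹ * (b⁻¹ * θ₁ v * b) * n)
    simp only [cj_apply] at e1
    have e2 : n * (n⁻¹ * (b⁻¹ * θ₁ v * b) * n) * n⁻¹ = b⁻¹ * θ₁ v * b := by group
    rw [e2] at e1
    rw [e1]
    have e3 := hBU b'⁻¹ (inv_mem hb') (n⁻¹ * (b⁻¹ * θ₁ v * b) * n)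
    simp only [cj_apply] at e3
    rw [← e3]
    have e4 : b'⁻¹ * (n⁻¹ * (b⁻¹ * θ₁ v * b) * n) * b'⁻¹⁻¹ = (b * n * b')⁻¹ * θ₁ v * (b * n * b') := by
      group
    rw [e4]

/-! ### Step B: the minimal parabolic subgroups are permuted -/

theorem perm_parabolic {I : Type*} {B : Subgroup G} {P : I → Subgroup G} {nn : I → G}
    (hBP : ∀ i, B ≤ P i) (hnP : ∀ i, nn i ∈ P i) (hnB : ∀ i, nn i ∉ B)
    (hP : ∀ i, ∀ g ∈ P i, g ∈ B ∨ ∃ b ∈ B, ∃ b' ∈ B, g = b * nn i * b')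
    (hover : ∀ Q : Subgroup G, B ≤ Q → ¬ Q ≤ B → ∃ j, nn j ∈ Q)
    {θ : G ≃* G} (hθ : Mp θ B B) (i : I) : ∃ j, Mp θ (P i) (P j) := by
  have hPmin : ∀ i (Q : Subgroup G), B ≤ Q → nn i ∈ Q → P i ≤ Q := by
    intro i Q hQ hn g hg
    rcases hP i g hg with h | ⟨b, hb, b', hb', rfl⟩
    · exact hQ h
    · exact mul_mem (mul_mem (hQ hb) hn) (hQ hb')
  let Q : Subgroup G := (P i).comap θ.symm.toMonoidHom
  have hQ : ∀ g, g ∈ Q ↔ θ.symm g ∈ P i := fun g => Iff.rfl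
  have hBQ : B ≤ Q := fun g hg => (hQ g).2 (hBP i (hθ.symm.mem hg))
  have hQB : ¬ Q ≤ B := by
    intro h
    have : θ (nn i) ∈ B := h ((hQ _).2 (by rw [MulEquiv.symm_apply_apply]; exact hnP i))
    exact hnB i ((hθ _).1 this)
  obtain ⟨j, hj⟩ := hover Q hBQ hQB
  have hPjQ : P j ≤ Q := hPmin j Q hBQ hj
  let Q' : Subgroup G := (P j).comap θ.toMonoidHom
  have hQ' : ∀ g, g ∈ Q' ↔ θ g ∈ P j := fun g => Iff.rfl
  have hQ'P : Q' ≤ P i := fun g hg => by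
    have := (hQ _).1 (hPjQ ((hQ' g).1 hg))
    rwa [MulEquiv.symm_apply_apply] at this
  have hBQ' : B ≤ Q' := fun g hg => (hQ' g).2 (hBP j (hθ.mem hg))
  have hmem : θ.symm (nn j) ∈ Q' := (hQ' _).2 (by rw [MulEquiv.apply_symm_apply]; exact hnP j)
  have hni : nn i ∈ Q' := by
    rcases hP i _ (hQ'P hmem) with h | ⟨b, hb, b', hb', e⟩
    · exact absurd ((hθ.symm _).1 h) (hnB j)
    · have : nn i = b⁻¹ * θ.symm (nn j) * b'⁻¹ := by rw [e]; group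
      rw [this]
      exact mul_mem (mul_mem (inv_mem (hBQ' hb)) hmem) (inv_mem (hBQ' hb'))
  have hPQ' : P i ≤ Q' := hPmin i Q' hBQ' hni
  exact ⟨j, fun g => ⟨fun h => hQ'P h, fun h => hPQ' h⟩⟩

end Cfsg.Agent.Lib.Helper45.AutAbs
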