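import Cfsg.Agent.Lib.Helper45.AutAbs

/-!
# Automorphisms of groups with a split (B,N)-pair: root subgroups and rank one analysis
-/

set_option autoImplicit false

namespace Cfsg.Agent.Lib.Helper45.AutAbs

variable {G : Type*} [Group G] {F : Type*} [Field F] {I R : Type*}

theorem mp_cj_map {θ : G ≃* G} {K K' L L' : Subgroup G} {n : G} (h : Mp θ K K') (h' : Mp θ L L')
    (hn : Mp (cj n) K L) : Mp (cj (θ n)) K' L' := fun g => by
  have h1 := h' (n * θ.symm g * n⁻¹)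
  have h2 := hn (θ.symm g)
  have h3 := h (θ.symm g)
  simp only [cj_apply, map_mul, map_inv, MulEquiv.apply_symm_apply] at h1 h2 h3 ⊢
  rw [h1, h2, h3]

/-- `n_r(c)` -/
def nE (x : R → F → G) (neg : R → R) (r : R) (c : F) : G := x r c * x (neg r) (-c⁻¹) * x r c

/-- `h_r(c)` -/
def hE (x : R → F → G) (neg : R → R) (r : R) (c : F) : G := nE x neg r c * nE x neg r (-1)

/-! ### the rank one lemma -/

theorem rank_one {xp xm : F → G} {V B : Subgroup G} (hp : ∀ t u, xp (t + u) = xp t * xp u)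
    (hxpB : ∀ t, xp t ∈ B) (hBV : ∀ g, g ∈ B → g ∈ V → g = 1)
    (hm0 : xm 0 = 1)
    (hpinj : ∀ t, xp t = 1 → t = 0)
    (hconj : ∀ t, t ≠ 0 → ∀ s, ∃ s', (xp t * xm (-t⁻¹) * xp t) * xp s' * (xp t * xm (-t⁻¹) * xp t)⁻¹ = xm s)
    (hVB : ∀ t, t ≠ 0 → ∀ v ∈ V, ∀ b ∈ B, xp t * xm (-t⁻¹) * xp t ≠ v * b)
    {a b : F} (h : ∀ s, (xp a * xm b * xp a) * xp s * (xp a * xm b * xp a)⁻¹ ∈ V) :
    b ≠ 0 ∧ a = -b⁻¹ := by
  have hp0 : xp 0 = 1 := by
    have := hp 0 0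
    rw [add_zero] at this
    exact (mul_eq_left.1 this.symm)
  have hpneg : ∀ t, xp (-t) = (xp t)⁻¹ := by
    intro t
    rw [eq_inv_iff_mul_eq_one, ← hp, neg_add_cancel, hp0]
  have hb : b ≠ 0 := by
    rintro rfl
    have h1 := h 1
    rw [hm0, mul_one, ← hp, ← hp, ← hpneg, ← hp] at h1
    have h2 := hBV _ (hxpB _) h1
    have h3 := hpinj _ h2
    have : (1 : F) = 0 := by
      have e : a + a + 1 + -(a + a) = 1 := by ring
      rw [e] at h3; exact h3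
    exact one_ne_zero this
  refine ⟨hb, ?_⟩
  by_contra hne
  have he : a + b⁻¹ ≠ 0 := fun h0 => hne (eq_neg_of_add_eq_zero_left h0)
  set e := a + b⁻¹ with hedef
  set n' := xp (-b⁻¹) * xm (-(-b⁻¹)⁻¹) * xp (-b⁻¹) with hn'
  have hbb : -(-b⁻¹)⁻¹ = b := by
    rw [inv_neg, inv_inv, neg_neg]
  have hy : xp a * xm b * xp a = xp e * n' * xp e := by
    rw [hn', hbb, hedef, hp, hpneg]
    have hc : xp b⁻¹ * xp a = xp a * xp b⁻¹ := by rw [← hp, ← hp, add_comm]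
    calc xp a * xm b * xp a = xp a * xm b * ((xp b⁻¹)⁻¹ * (xp b⁻¹ * xp a)) := by group
      _ = xp a * xm b * ((xp b⁻¹)⁻¹ * (xp a * xp b⁻¹)) := by rw [hc]
      _ = _ := by group
  obtain ⟨s', hs'⟩ := hconj (-b⁻¹) (neg_ne_zero.2 (inv_ne_zero hb)) (-e⁻¹)
  rw [← hn'] at hs'
  have h1 := h s'
  rw [hy] at h1
  have hc : xp e * xp s' * (xp e)⁻¹ = xp s' := by
    rw [← hpneg, ← hp, ← hp]
    congr 1; ring
  have h2 : xp e * n' * xp e * xp s' * (xp e * n' * xp e)⁻¹ = xp e * xm (-e⁻¹) * (xp e)⁻¹ := by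
    rw [← hs']
    calc xp e * n' * xp e * xp s' * (xp e * n' * xp e)⁻¹
        = xp e * n' * (xp e * xp s' * (xp e)⁻¹) * n'⁻¹ * (xp e)⁻¹ := by group
      _ = _ := by rw [hc]; group
  rw [h2] at h1
  apply hVB e he _ h1 (xp e * xp e) (mul_mem (hxpB _) (hxpB _))
  group

/-! ### the system of axioms -/

structure Sys (x : R → F → G) (X : R → Subgroup G) (IsR : R → Prop) (neg : R → R) (sim : I → R)
    (refl : I → R → R) (U V B N : Subgroup G) (P : I → Subgroup G) (n0 : G) (ι : I → I) : Prop where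
  x_add : ∀ r t u, x r (t + u) = x r t * x r u
  x_inj : ∀ r, IsR r → ∀ t, x r t = 1 → t = 0
  mem_X : ∀ r g, g ∈ X r ↔ ∃ t, g = x r t
  sim_R : ∀ i, IsR (sim i)
  neg_R : ∀ r, IsR r → IsR (neg r)
  refl_R : ∀ i r, IsR r → IsR (refl i r)
  refl_sim : ∀ i, refl i (sim i) = neg (sim i)
  Xp_le : ∀ i, X (sim i) ≤ U
  Xm_le : ∀ i, X (neg (sim i)) ≤ V
  U_le : U ≤ B
  BV : ∀ g, g ∈ B → g ∈ V → g = 1
  hSyl : ∀ θ : G ≃* G, ∃ g : G, Mp (θ.trans (cj g)) U U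
  hBU : ∀ b ∈ B, Mp (cj b) U U
  hNU : ∀ g, Mp (cj g) U U → g ∈ B
  bruhat : ∀ g : G, ∃ b ∈ B, ∃ n ∈ N, ∃ b' ∈ B, g = b * n * b'
  hn0 : Mp (cj n0) U V
  hn0' : Mp (cj n0) V U
  hopp : ∀ n ∈ N, (∀ u ∈ U, n * u * n⁻¹ ∈ U → u = 1) → Mp (cj n) U V
  hBP : ∀ i, B ≤ P i
  hnP : ∀ i, nE x neg (sim i) 1 ∈ P i
  hP : ∀ i, ∀ g ∈ P i, g ∈ B ∨ ∃ b ∈ B, ∃ b' ∈ B, g = b * nE x neg (sim i) 1 * b'
  hover : ∀ Q : Subgroup G, B ≤ Q → ¬ Q ≤ B → ∃ j, nE x neg (sim j) 1 ∈ Q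
  hPV : ∀ i, P i ⊓ V = X (neg (sim i))
  hn0X : ∀ i, Mp (cj n0) (X (neg (sim i))) (X (sim (ι i)))
  ι_surj : Function.Surjective ι
  comm_pm : ∀ i j, i ≠ j → ∀ t u, x (sim i) t * x (neg (sim j)) u = x (neg (sim j)) u * x (sim i) t
  ncomm_pm : ∀ i, x (sim i) 1 * x (neg (sim i)) 1 ≠ x (neg (sim i)) 1 * x (sim i) 1
  acts : ∀ j c, c ≠ 0 → ∀ r, IsR r → Mp (cj (nE x neg (sim j) c)) (X r) (X (refl j r))
  hVB : ∀ j c, c ≠ 0 → ∀ v ∈ V, ∀ b ∈ B, nE x neg (sim j) c ≠ v * b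

namespace Sys

variable {x : R → F → G} {X : R → Subgroup G} {IsR : R → Prop} {neg : R → R} {sim : I → R}
  {refl : I → R → R} {U V B N : Subgroup G} {P : I → Subgroup G} {n0 : G} {ι : I → I}
  (S : Sys x X IsR neg sim refl U V B N P n0 ι)
include S

theorem x_zero (r : R) : x r 0 = 1 := by
  have := S.x_add r 0 0
  rw [add_zero] at this
  exact (mul_eq_left.1 this.symm)

theorem x_neg (r : R) (t : F) : x r (-t) = (x r t)⁻¹ := by
  rw [eq_inv_iff_mul_eq_one, ← S.x_add, neg_add_cancel, S.x_zero]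

theorem x_injective {r : R} (hr : IsR r) {t u : F} (h : x r t = x r u) : t = u := by
  have : x r (t + -u) = 1 := by rw [S.x_add, S.x_neg, h, mul_inv_cancel]
  have := S.x_inj r hr _ this
  exact eq_neg_of_add_eq_zero_left this |>.trans (neg_neg u)

theorem x_mem (r : R) (t : F) : x r t ∈ X r := (S.mem_X r _).2 ⟨t, rfl⟩

theorem hnB (i : I) : nE x neg (sim i) 1 ∉ B := fun h =>
  S.hVB i 1 one_ne_zero 1 (one_mem _) _ h (one_mul _).symm

theorem mp_B {θ : G ≃* G} (hU : Mp θ U U) : Mp θ B B := by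
  intro b
  constructor
  · intro hb
    have h1 := mp_cj_map hU.symm hU.symm (S.hBU _ hb)
    rw [MulEquiv.symm_apply_apply] at h1
    exact S.hNU _ h1
  · intro hb
    exact S.hNU _ (mp_cj_map hU hU (S.hBU _ hb))

/-- the negative fundamental root subgroups are permuted -/
theorem exists_neg {θ : G ≃* G} (hU : Mp θ U U) (hV : Mp θ V V) (i : I) :
    ∃ j, Mp θ (X (neg (sim i))) (X (neg (sim j))) := by
  obtain ⟨j, hj⟩ := perm_parabolic S.hBP S.hnP S.hnB S.hP S.hover (S.mp_B hU) i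
  refine ⟨j, ?_⟩
  rw [← S.hPV i, ← S.hPV j]
  exact hj.inf hV

/-- the positive fundamental root subgroups are permuted -/
theorem exists_pos {θ : G ≃* G} (hU : Mp θ U U) (hV : Mp θ V V) (i : I) :
    ∃ j, Mp θ (X (sim i)) (X (sim j)) := by
  obtain ⟨k, rfl⟩ := S.ι_surj i
  have hU' : Mp ((cj n0).trans (θ.trans (cj n0⁻¹))) U U :=
    S.hn0.trans (hV.trans (mp_cj_inv S.hn0))
  have hV' : Mp ((cj n0).trans (θ.trans (cj n0⁻¹))) V V :=
    S.hn0'.trans (hU.trans (mp_cj_inv S.hn0'))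
  obtain ⟨j, hj⟩ := S.exists_neg hU' hV' k
  refine ⟨ι j, fun g => ?_⟩
  have h1 := S.hn0X j (n0⁻¹ * θ g * n0)
  have h2 := hj (n0⁻¹ * g * n0)
  have h3 := S.hn0X k (n0⁻¹ * g * n0)
  simp only [cj_apply, MulEquiv.trans_apply] at h1 h2 h3
  have e1 : n0 * (n0⁻¹ * θ g * n0) * n0⁻¹ = θ g := by group
  have e2 : n0 * (n0⁻¹ * g * n0) * n0⁻¹ = g := by group
  rw [e1] at h1
  rw [e2] at h2 h3
  rw [inv_inv] at h2
  rw [h1, h2, h3]

theorem eq_of_comm {i j : I} (h : ∀ a ∈ X (sim i), ∀ b ∈ X (neg (sim j)), a * b = b * a)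
    (hij : X (neg (sim j)) = X (neg (sim i))) : False :=
  S.ncomm_pm i (h _ (S.x_mem _ _) _ (hij ▸ S.x_mem _ _))

theorem comm_of_ne {i j : I} (hij : i ≠ j) : ∀ a ∈ X (sim i), ∀ b ∈ X (neg (sim j)), a * b = b * a := by
  intro a ha b hb
  obtain ⟨t, rfl⟩ := (S.mem_X _ _).1 ha
  obtain ⟨u, rfl⟩ := (S.mem_X _ _).1 hb
  exact S.comm_pm i j hij t u

theorem Xneg_inj {i j : I} (h : X (neg (sim i)) = X (neg (sim j))) : i = j := by
  by_contra hij
  exact S.eq_of_comm (S.comm_of_ne hij) h.symm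

/-- an automorphism fixing `U` and `V` permutes the fundamental root subgroups -/
theorem exists_perm {θ : G ≃* G} (hU : Mp θ U U) (hV : Mp θ V V) :
    ∃ ρ : Equiv.Perm I, ∀ i, Mp θ (X (sim i)) (X (sim (ρ i))) ∧
      Mp θ (X (neg (sim i))) (X (neg (sim (ρ i)))) := by
  choose ρ₁ h₁ using S.exists_neg hU hV
  choose ρ₂ h₂ using S.exists_pos hU hV
  choose ρ' h' using S.exists_neg hU.symm hV.symm
  have h12 : ∀ i, ρ₂ i = ρ₁ i := by
    intro i
    by_contra hne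
    apply S.eq_of_comm (i := i) (j := i) _ rfl
    intro a ha b hb
    have := S.comm_of_ne hne _ ((h₂ i).mem ha) _ ((h₁ i).mem hb)
    rw [← map_mul, ← map_mul] at this
    exact θ.injective this
  have hinj : Function.Injective ρ₁ := by
    intro i j hij
    have h1 := h₁ i
    rw [hij] at h1
    exact S.Xneg_inj (h1.unique_left (h₁ j))
  have hsurj : Function.Surjective ρ₁ := by
    intro i
    refine ⟨ρ' i, ?_⟩
    have h1 : Mp θ (X (neg (sim (ρ' i)))) (X (neg (sim i))) := by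
      have := (h' i).symm
      rwa [MulEquiv.symm_symm] at this
    exact S.Xneg_inj ((h₁ (ρ' i)).unique h1)
  refine ⟨Equiv.ofBijective ρ₁ ⟨hinj, hsurj⟩, fun i => ⟨?_, h₁ i⟩⟩
  have := h₂ i
  rw [h12] at this
  exact this

/-- every automorphism is, up to an inner one, as in `exists_perm` -/
theorem exists_normal (θ : G ≃* G) : ∃ (g : G) (ρ : Equiv.Perm I),
    ∀ i, Mp (θ.trans (cj g)) (X (sim i)) (X (sim (ρ i))) ∧
      Mp (θ.trans (cj g)) (X (neg (sim i))) (X (neg (sim (ρ i)))) := by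
  obtain ⟨g, hU, hV⟩ := normalize S.hSyl S.hBU S.bruhat S.hn0
    (fun g hg hg' => S.BV g (S.U_le hg) hg') S.hopp θ
  obtain ⟨ρ, hρ⟩ := S.exists_perm hU hV
  exact ⟨g, ρ, hρ⟩

theorem exists_fun {θ : G ≃* G} {r s : R} (h : Mp θ (X r) (X s)) :
    ∃ f : F → F, ∀ t, θ (x r t) = x s (f t) := by
  have : ∀ t, ∃ u, θ (x r t) = x s u := fun t => (S.mem_X _ _).1 (h.mem (S.x_mem r t))
  choose f hf using this
  exact ⟨f, hf⟩

theorem fun_add {θ : G ≃* G} {r s : R} (hs : IsR s) {f : F → F} (hf : ∀ t, θ (x r t) = x s (f t))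
    (t u : F) : f (t + u) = f t + f u := by
  apply S.x_injective hs
  rw [← hf, S.x_add, map_mul, hf, hf, S.x_add]

theorem fun_zero {θ : G ≃* G} {r s : R} (hs : IsR s) {f : F → F} (hf : ∀ t, θ (x r t) = x s (f t)) :
    f 0 = 0 := by
  apply S.x_injective hs
  rw [← hf, S.x_zero, map_one, S.x_zero]

theorem fun_neg {θ : G ≃* G} {r s : R} (hs : IsR s) {f : F → F} (hf : ∀ t, θ (x r t) = x s (f t))
    (t : F) : f (-t) = - f t := by
  apply S.x_injective hs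
  rw [← hf, S.x_neg, map_inv, hf, S.x_neg]

theorem fun_inj {θ : G ≃* G} {r s : R} (hr : IsR r) {f : F → F} (hf : ∀ t, θ (x r t) = x s (f t)) :
    Function.Injective f := by
  intro t u h
  apply S.x_injective hr
  apply θ.injective
  rw [hf, hf, h]

theorem fun_surj {θ : G ≃* G} {r s : R} (hs : IsR s) (h : Mp θ (X r) (X s)) {f : F → F}
    (hf : ∀ t, θ (x r t) = x s (f t)) : Function.Surjective f := by
  intro u
  obtain ⟨k, hk, e⟩ := h.exists_preimage (S.x_mem s u)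
  obtain ⟨t, rfl⟩ := (S.mem_X _ _).1 hk
  exact ⟨t, S.x_injective hs (by rw [← hf, e])⟩

/-- the rank one analysis -/
theorem map_nE {θ : G ≃* G} {i j : I} (hp : Mp θ (X (sim i)) (X (sim j)))
    (hm : Mp θ (X (neg (sim i))) (X (neg (sim j)))) {f g : F → F}
    (hf : ∀ t, θ (x (sim i) t) = x (sim j) (f t))
    (hg : ∀ t, θ (x (neg (sim i)) t) = x (neg (sim j)) (g t)) {t : F} (ht : t ≠ 0) :
    f t ≠ 0 ∧ g (-t⁻¹) = -(f t)⁻¹ ∧ θ (nE x neg (sim i) t) = nE x neg (sim j) (f t) := by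
  have hθn : θ (nE x neg (sim i) t) = x (sim j) (f t) * x (neg (sim j)) (g (-t⁻¹)) * x (sim j) (f t) := by
    rw [nE, map_mul, map_mul, hf, hg]
  have key : g (-t⁻¹) ≠ 0 ∧ f t = -(g (-t⁻¹))⁻¹ := by
    apply rank_one (xp := x (sim j)) (xm := x (neg (sim j))) (V := V) (B := B) (S.x_add _)
      (fun t => S.U_le (S.Xp_le j (S.x_mem _ _))) S.BV (S.x_zero _) (S.x_inj _ (S.sim_R j))
    · intro c hc s
      have h1 := S.acts j c hc (sim j) (S.sim_R j)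
      rw [S.refl_sim] at h1
      obtain ⟨k, hk, e⟩ := h1.exists_preimage (S.x_mem (neg (sim j)) s)
      obtain ⟨s', rfl⟩ := (S.mem_X _ _).1 hk
      exact ⟨s', e⟩
    · exact S.hVB j
    · intro s
      rw [← hθn]
      obtain ⟨k, hk, e⟩ := hp.exists_preimage (S.x_mem (sim j) s)
      rw [← e, ← map_mul, ← map_inv, ← map_mul]
      apply S.Xm_le j
      apply hm.mem
      have h1 := S.acts i t ht (sim i) (S.sim_R i)
      rw [S.refl_sim] at h1
      exact h1.mem hk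
  obtain ⟨k1, k2⟩ := key
  have h1 : g (-t⁻¹) = -(f t)⁻¹ := by
    rw [k2, inv_neg, inv_inv, neg_neg]
  have h2 : f t ≠ 0 := by
    rw [k2]
    exact neg_ne_zero.2 (inv_ne_zero k1)
  refine ⟨h2, h1, ?_⟩
  rw [hθn, h1, nE]

/-- Lemma W: the action on all root subgroups -/
theorem mp_word {θ : G ≃* G} {ρ : I → I}
    (hρ : ∀ i, Mp θ (X (sim i)) (X (sim (ρ i))) ∧ Mp θ (X (neg (sim i))) (X (neg (sim (ρ i)))))
    (i : I) (w : List I) :
    IsR (w.foldr refl (sim i)) ∧ IsR ((w.map ρ).foldr refl (sim (ρ i))) ∧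
    Mp θ (X (w.foldr refl (sim i))) (X ((w.map ρ).foldr refl (sim (ρ i)))) := by
  induction w with
  | nil => exact ⟨S.sim_R _, S.sim_R _, (hρ i).1⟩
  | cons k w ih =>
    obtain ⟨h1, h2, h3⟩ := ih
    refine ⟨S.refl_R _ _ h1, S.refl_R _ _ h2, ?_⟩
    obtain ⟨f, hf⟩ := S.exists_fun (hρ k).1
    obtain ⟨g, hg⟩ := S.exists_fun (hρ k).2
    obtain ⟨c1, -, c3⟩ := S.map_nE (hρ k).1 (hρ k).2 hf hg one_ne_zero
    simp only [List.map_cons, List.foldr_cons]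
    apply mp_conj h3 (S.acts k 1 one_ne_zero _ h1)
    rw [c3]
    exact S.acts (ρ k) _ c1 _ h2

end Sys

end Cfsg.Agent.Lib.Helper45.AutAbs
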