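import Cfsg.Agent.Lib.Helper45.AutAbs2

/-!
# Automorphisms fixing the fundamental root subgroups are field automorphisms (abstract)
-/

set_option autoImplicit false

namespace Cfsg.Agent.Lib.Helper45.AutAbs

variable {G : Type*} [Group G] {F : Type*} [Field F] {I R : Type*}

namespace Sys

variable {x : R → F → G} {X : R → Subgroup G} {IsR : R → Prop} {neg : R → R} {sim : I → R}
  {refl : I → R → R} {U V B N : Subgroup G} {P : I → Subgroup G} {n0 : G} {ι : I → I}
  (S : Sys x X IsR neg sim refl U V B N P n0 ι)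
include S

theorem exists_field {A : I → I → ℤ}
    (n_conj : ∀ i, ∃ ε : F, (ε = 1 ∨ ε = -1) ∧ ∀ t,
      nE x neg (sim i) 1 * x (sim i) t * (nE x neg (sim i) 1)⁻¹ = x (neg (sim i)) (ε * t))
    (h_conj : ∀ i j c, c ≠ 0 → ∀ u,
      hE x neg (sim i) c * x (sim j) u * (hE x neg (sim i) c)⁻¹ = x (sim j) (c ^ A i j * u))
    (conn : ∀ Rel : I → I → Prop, (∀ i, Rel i i) → (∀ i j, Rel i j → Rel j i) →
      (∀ i j k, Rel i j → Rel j k → Rel i k) → (∀ i j, A i j = -1 → Rel i j) → ∀ i j, Rel i j)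
    (exA : ∃ i j, A i j = -1)
    {θ : G ≃* G}
    (hθ : ∀ i, Mp θ (X (sim i)) (X (sim i)) ∧ Mp θ (X (neg (sim i))) (X (neg (sim i))))
    (h1 : ∀ i, θ (x (sim i) 1) = x (sim i) 1) :
    ∃ σ : F ≃+* F, ∀ i t, θ (x (sim i) t) = x (sim i) (σ t) ∧
      θ (x (neg (sim i)) t) = x (neg (sim i)) (σ t) := by
  choose f hf using fun i => S.exists_fun (hθ i).1
  choose g hg using fun i => S.exists_fun (hθ i).2
  have hR := S.sim_R
  have hR' := fun i => S.neg_R _ (S.sim_R i)
  have f1 : ∀ i, f i 1 = 1 := fun i => S.x_injective (hR i) (by rw [← hf, h1])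
  have fadd := fun i => S.fun_add (hR i) (hf i)
  have fneg := fun i => S.fun_neg (hR i) (hf i)
  have fzero := fun i => S.fun_zero (hR i) (hf i)
  have gneg := fun i => S.fun_neg (hR' i) (hg i)
  have key := fun i (t : F) (ht : t ≠ 0) => S.map_nE (hθ i).1 (hθ i).2 (hf i) (hg i) ht
  have hn1 : ∀ i, θ (nE x neg (sim i) 1) = nE x neg (sim i) 1 := by
    intro i
    rw [(key i 1 one_ne_zero).2.2, f1]
  have hnm1 : ∀ i, θ (nE x neg (sim i) (-1)) = nE x neg (sim i) (-1) := by
    intro i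
    rw [(key i (-1) (neg_ne_zero.2 one_ne_zero)).2.2, fneg, f1]
  have hh : ∀ i c, c ≠ 0 → θ (hE x neg (sim i) c) = hE x neg (sim i) (f i c) := by
    intro i c hc
    rw [hE, map_mul, (key i c hc).2.2, hnm1, hE]
  -- `g = f`
  have hgf : ∀ i t, g i t = f i t := by
    intro i t
    obtain ⟨ε, hε, hc⟩ := n_conj i
    have e1 := congrArg θ (hc t)
    rw [map_mul, map_mul, map_inv, hn1, hf, hg, hc] at e1
    have e2 := S.x_injective (hR' i) e1
    rcases hε with rfl | rfl
    · simpa using e2.symm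
    · rw [neg_one_mul, neg_one_mul, gneg] at e2
      exact (neg_injective e2).symm
  -- inverses
  have finv : ∀ i t, t ≠ 0 → f i t⁻¹ = (f i t)⁻¹ := by
    intro i t ht
    have := (key i t ht).2.1
    rw [hgf, fneg] at this
    exact neg_injective this
  -- the torus action
  have hact : ∀ i j, A i j = -1 → ∀ c, c ≠ 0 → ∀ u, f j (c⁻¹ * u) = (f i c)⁻¹ * f j u := by
    intro i j hA c hc u
    have e1 := congrArg θ (h_conj i j c hc u)
    rw [map_mul, map_mul, map_inv, hh i c hc, hf, hf, h_conj i j _ (key i c hc).1, hA, zpow_neg_one,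
      zpow_neg_one] at e1
    exact (S.x_injective (hR j) e1).symm
  have heq : ∀ i j, A i j = -1 → f i = f j := by
    intro i j hA
    funext c
    by_cases hc : c = 0
    · rw [hc, fzero, fzero]
    · have := hact i j hA c⁻¹ (inv_ne_zero hc) 1
      rw [inv_inv, mul_one, f1, mul_one, finv i c hc, inv_inv] at this
      exact this.symm
  have hall : ∀ i j, f i = f j :=
    conn (fun i j => f i = f j) (fun _ => rfl) (fun _ _ h => h.symm) (fun _ _ _ h h' => h.trans h') heq
  obtain ⟨i0, j0, hA0⟩ := exA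
  have fmul : ∀ c u, f j0 (c * u) = f j0 c * f j0 u := by
    intro c u
    by_cases hc : c = 0
    · rw [hc, zero_mul, fzero, zero_mul]
    · have := hact i0 j0 hA0 c⁻¹ (inv_ne_zero hc) u
      rw [inv_inv, finv i0 c hc, inv_inv, heq i0 j0 hA0] at this
      exact this
  let φ : F →+* F :=
    { toFun := f j0
      map_one' := f1 j0
      map_mul' := fmul
      map_zero' := fzero j0
      map_add' := fadd j0 }
  have hbij : Function.Bijective φ :=
    ⟨S.fun_inj (hR j0) (hf j0), S.fun_surj (hR j0) (hθ j0).1 (hf j0)⟩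
  refine ⟨RingEquiv.ofBijective φ hbij, fun i t => ?_⟩
  have e : (RingEquiv.ofBijective φ hbij) t = f j0 t := rfl
  rw [e, hf, hg, hgf, hall i j0]
  exact ⟨rfl, rfl⟩

end Sys

end Cfsg.Agent.Lib.Helper45.AutAbs
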