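import Cfsg.Agent.Lib.Helper45.AutLong
import Cfsg.Agent.Lib.Helper45.TwistChev3
import Cfsg.Agent.Lib.Helper45.ChevOrder

/-!
# Facts on Chevalley groups used for the determination of the automorphisms (GL level)
-/

set_option autoImplicit false

namespace Cfsg.Agent.Lib.Helper45

open Cfsg.Lie Matrix Cfsg.Agent.Lib.Helper23 Cfsg.Agent.Lib.Helper22 Cfsg.Agent.Lib.Helper8

variable {D : ChevalleyDatum} {F : Type*} [Field F]

/-- `m K m⁻¹ = K'` -/
def CMp {A : Type*} [Group A] (m : A) (K K' : Subgroup A) : Prop := ∀ y, m * y * m⁻¹ ∈ K' ↔ y ∈ K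

theorem cmp_of_le {A : Type*} [Group A] {m : A} {K K' : Subgroup A} (h : ∀ y ∈ K, m * y * m⁻¹ ∈ K')
    (h' : ∀ y ∈ K', m⁻¹ * y * m ∈ K) : CMp m K K' := fun y =>
  ⟨fun hy => by
    have := h' _ hy
    have e : m⁻¹ * (m * y * m⁻¹) * m = y := by group
    rwa [e] at this, h y⟩

theorem cmp_of_map {A : Type*} [Group A] {m : A} {K K' : Subgroup A}
    (h : K.map (MulAut.conj m).toMonoidHom = K') : CMp m K K' := by
  subst h
  apply cmp_of_le
  · intro y hy
    exact ⟨y, hy, rfl⟩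
  · rintro _ ⟨y, hy, rfl⟩
    have e : m⁻¹ * (MulAut.conj m).toMonoidHom y * m = y := by
      show m⁻¹ * (m * y * m⁻¹) * m = y
      group
    rwa [e]

theorem conj_closure_le {A : Type*} [Group A] {S : Set A} {K : Subgroup A} (m : A)
    (h : ∀ s ∈ S, m * s * m⁻¹ ∈ K) : ∀ y ∈ Subgroup.closure S, m * y * m⁻¹ ∈ K := by
  have : Subgroup.closure S ≤ K.comap (MulAut.conj m).toMonoidHom := by
    rw [Subgroup.closure_le]
    intro s hs
    exact h s hs
  intro y hy
  exact this hy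

theorem Acts.cmp {m : GL D.Idx F} {π : ℕ → ℕ} (h : Acts D F m π) {r : ℕ} (hr : r < D.nroots) :
    CMp m (D.rootSubgroup F r) (D.rootSubgroup F (π r)) := cmp_of_map (h r hr)

section
variable (b : Bundle D F)
include b

theorem Acts.pos_to_neg {m : GL D.Idx F} {π : ℕ → ℕ} (h : Acts D F m π)
    (hπ : ∀ r, D.IsPosRoot r → D.IsNegRoot (π r)) : ∀ y ∈ D.posUnipotent F, m * y * m⁻¹ ∈ D.negUnipotent F := by
  rw [b.hA.posUnipotent_eq]
  apply conj_closure_le
  rintro _ ⟨r, t, hr, rfl⟩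
  obtain ⟨t', e⟩ := h.conj b hr.1 t
  rw [e]
  exact b.hA.X_mem_neg (hπ r hr) _

theorem Acts.neg_to_pos {m : GL D.Idx F} {π : ℕ → ℕ} (h : Acts D F m π)
    (hπ : ∀ r, D.IsNegRoot r → D.IsPosRoot (π r)) : ∀ y ∈ D.negUnipotent F, m * y * m⁻¹ ∈ D.posUnipotent F := by
  rw [b.hA.negUnipotent_eq]
  apply conj_closure_le
  rintro _ ⟨r, t, hr, rfl⟩
  obtain ⟨t', e⟩ := h.conj b hr.1 t
  rw [e]
  exact b.hA.X_mem_pos (hπ r hr) _

/-- combinatorics of a word making all positive roots negative -/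
theorem word_opp {w : List ℕ} (hw : ∀ i ∈ w, i < D.rank)
    (h : ∀ r, D.IsPosRoot r → D.IsNegRoot (wact D w r)) :
    (∀ r, D.IsNegRoot r → D.IsPosRoot (wact D w r)) ∧
    (∀ r, D.IsNegRoot r → D.IsPosRoot (wact D w.reverse r)) ∧
    (∀ r, D.IsPosRoot r → D.IsNegRoot (wact D w.reverse r)) := by
  have hw' : ∀ i ∈ w.reverse, i < D.rank := fun i hi => hw i (List.mem_reverse.1 hi)
  have h1 : ∀ r, D.IsNegRoot r → D.IsPosRoot (wact D w r) := by
    intro r hr
    have h2 := h _ (b.hR.pos_of_neg hr)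
    rw [b.hR.wact_neg hw hr.1] at h2
    have h3 := b.hR.pos_of_neg h2
    rwa [b.hR.neg_neg (b.hR.wact_lt hw hr.1)] at h3
  have hback : ∀ s < D.nroots, wact D w (wact D w.reverse s) = s := by
    intro s hs
    have := b.hR.wact_reverse hw' hs
    rwa [List.reverse_reverse] at this
  refine ⟨h1, fun s hs => ?_, fun s hs => ?_⟩
  · rcases b.hR.pos_or_neg (b.hR.wact_lt hw' hs.1) with h2 | h2
    · exact h2
    · have h3 := h1 _ h2
      rw [hback s hs.1] at h3
      exact absurd hs (b.hR.not_neg_of_pos h3)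
  · rcases b.hR.pos_or_neg (b.hR.wact_lt hw' hs.1) with h2 | h2
    · have h3 := h _ h2
      rw [hback s hs.1] at h3
      exact absurd h3 (b.hR.not_neg_of_pos hs)
    · exact h2

theorem acts_nform {w : List ℕ} (hw : ∀ i ∈ w, i < D.rank) {h : GL D.Idx F}
    (hh : h ∈ D.diagonalSubgroup F) : Acts D F (b.hA.nword w * h) (wact D w) :=
  ((acts_nword b hw).mul (acts_diag b hh) (fun _ hr => hr)).congr fun _ _ => rfl

theorem acts_nform_inv {w : List ℕ} (hw : ∀ i ∈ w, i < D.rank) {h : GL D.Idx F}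
    (hh : h ∈ D.diagonalSubgroup F) : Acts D F (b.hA.nword w * h)⁻¹ (wact D w.reverse) := by
  rw [_root_.mul_inv_rev]
  have hw' : ∀ i ∈ w.reverse, i < D.rank := fun i hi => hw i (List.mem_reverse.1 hi)
  exact ((acts_diag b (inv_mem hh)).mul (acts_nword_inv b hw)
    (fun _ hr => b.hR.wact_lt hw' hr)).congr fun _ _ => rfl

theorem cmp_opp {w : List ℕ} (hw : ∀ i ∈ w, i < D.rank) {h : GL D.Idx F}
    (hh : h ∈ D.diagonalSubgroup F) (hopp : ∀ r, D.IsPosRoot r → D.IsNegRoot (wact D w r)) :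
    CMp (b.hA.nword w * h) (D.posUnipotent F) (D.negUnipotent F) ∧
    CMp (b.hA.nword w * h) (D.negUnipotent F) (D.posUnipotent F) := by
  obtain ⟨h1, h2, h3⟩ := word_opp b hw hopp
  constructor
  · apply cmp_of_le ((acts_nform b hw hh).pos_to_neg b hopp)
    intro y hy
    have := (acts_nform_inv b hw hh).neg_to_pos b h2 y hy
    rwa [inv_inv] at this
  · apply cmp_of_le ((acts_nform b hw hh).neg_to_pos b h1)
    intro y hy
    have := (acts_nform_inv b hw hh).pos_to_neg b h3 y hy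
    rwa [inv_inv] at this

/-- an element of `N` with `n U n⁻¹ ∩ U = 1` conjugates `U` onto `V` -/
theorem cmp_of_trivial {n : GL D.Idx F} (hn : n ∈ D.monomialSubgroup F)
    (h : ∀ u ∈ D.posUnipotent F, n * u * n⁻¹ ∈ D.posUnipotent F → u = 1) :
    CMp n (D.posUnipotent F) (D.negUnipotent F) := by
  obtain ⟨w, h', hw, hh', rfl⟩ := b.hA.mono_nform b.hR b.hN hn
  refine (cmp_opp b hw hh' fun r hr => ?_).1
  rcases b.hR.pos_or_neg (b.hR.wact_lt hw hr.1) with h2 | h2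
  · exfalso
    obtain ⟨t', e⟩ := (acts_nform b hw hh').conj b hr.1 1
    have h3 := h _ (b.hA.X_mem_pos hr 1) (by rw [e]; exact b.hA.X_mem_pos h2 _)
    exact one_ne_zero (b.hA.X_eq_one b.hTri hr.1 h3)
  · exact h2

theorem borel_cmp {x : GL D.Idx F} (hx : x ∈ D.borelSubgroup F) :
    CMp x (D.posUnipotent F) (D.posUnipotent F) := fun y =>
  (Subgroup.mem_normalizer_iff.1 (b.hA.borel_le_normalizer_pos b.hT hx) y).symm

end

/-- `N_G(U) = B` -/
theorem mem_borel_of_cmp (hD : D ∈ [chevG2, chevB2, chevD4, chevF4, chevE6, chevE7, chevE8])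
    {g : GL D.Idx F} (hg : g ∈ D.group F) (h : ∀ y ∈ D.posUnipotent F, g * y * g⁻¹ ∈ D.posUnipotent F) :
    g ∈ D.borelSubgroup F := by
  have b := bundle_of_mem F hD
  obtain ⟨x, hx, n, hn, u, hu, rfl⟩ := (s1100_of_mem F hD).1 g hg
  have huB : u ∈ D.borelSubgroup F := AddFact.pos_le_borel (Umin_le_pos b.hA n hu)
  have hnU : ∀ y ∈ D.posUnipotent F, n * y * n⁻¹ ∈ D.posUnipotent F := by
    intro y hy
    have h1 : u⁻¹ * y * u ∈ D.posUnipotent F := by
      have := (borel_cmp b (inv_mem huB) y).2 hy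
      rwa [inv_inv] at this
    have h2 := h _ h1
    have h3 := (borel_cmp b (inv_mem hx) _).2 h2
    have e : x⁻¹ * (x * n * u * (u⁻¹ * y * u) * (x * n * u)⁻¹) * x⁻¹⁻¹ = n * y * n⁻¹ := by group
    rwa [e] at h3
  have hnH : n ∈ D.diagonalSubgroup F := by
    obtain ⟨w, h', hw, hh', rfl⟩ := b.hA.mono_nform b.hR b.hN hn
    refine b.hA.mem_diag_of_conj_pos b.hR b.hN b.hT b.hTri _ w h' rfl hw hh' fun r hr t => ?_
    exact AddFact.pos_le_borel (hnU _ (b.hA.X_mem_pos hr t))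
  exact mul_mem (mul_mem hx (AddFact.diag_le_borel hnH)) huB

end Cfsg.Agent.Lib.Helper45
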