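import Cfsg.Agent.Lib.Helper45.AutChev
import Cfsg.Agent.Lib.Helper23.ChevPar

/-!
# Facts on Chevalley groups used for the determination of the automorphisms, II
-/

set_option autoImplicit false

namespace Cfsg.Agent.Lib.Helper45

open Cfsg.Lie Matrix Cfsg.Agent.Lib.Helper23 Cfsg.Agent.Lib.Helper22 Cfsg.Agent.Lib.Helper8

variable {D : ChevalleyDatum} {F : Type*} [Field F]

theorem acts_nG (b : Bundle D F) {j : ℕ} (hj : j < D.rank) {c : F} (hc : c ≠ 0) :
    Acts D F (b.hA.nG (D.simple j) c) (D.reflectRoot j) := by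
  rw [AddFact.nG_eq_hG_mul]
  have h1 : Acts D F (b.hA.nword [j]) (wact D [j]) := acts_nword b (by simpa using hj)
  have e : b.hA.nword [j] = b.hA.nG (D.simple j) 1 := by
    simp [AddFact.nword, AddFact.nn]
  rw [e] at h1
  exact ((acts_diag b (b.hA.hG_mem_diag (b.hR.simple_lt hj) hc)).mul h1
    (fun r hr => b.hR.wact_lt (by simpa using hj) hr)).congr fun _ _ => rfl

theorem nG_not_mem_borel (b : Bundle D F) {j : ℕ} (hj : j < D.rank) {c : F} (hc : c ≠ 0) :
    b.hA.nG (D.simple j) c ∉ D.borelSubgroup F := by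
  apply (acts_nG b hj hc).not_mem_borel b (b.hR.simple_pos hj)
  rw [RootFacts.refl_simple]
  exact b.hR.neg_of_pos (b.hR.simple_pos hj)

/-- `N ∩ V B ⊆ H` -/
theorem mono_VB (hD : D ∈ [chevG2, chevB2, chevD4, chevF4, chevE6, chevE7, chevE8])
    {n v x : GL D.Idx F} (hn : n ∈ D.monomialSubgroup F) (hv : v ∈ D.negUnipotent F)
    (hx : x ∈ D.borelSubgroup F) (e : n = v * x) : n ∈ D.diagonalSubgroup F := by
  have b := bundle_of_mem F hD
  have hS := sharpBN_of_mem F hD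
  obtain ⟨w, hw, hopp⟩ := b.hL
  have h0 := (cmp_opp b hw (one_mem _) (fun r hr => hopp r hr.1 hr)).1
  rw [mul_one] at h0
  set n0 := b.hA.nword w with hn0
  have hn0N : n0 ∈ D.monomialSubgroup F := b.hA.nword_mem_mono b.hR hw
  have hu : n0⁻¹ * v * n0 ∈ D.posUnipotent F := by
    rw [← h0]
    have e1 : n0 * (n0⁻¹ * v * n0) * n0⁻¹ = v := by group
    rwa [e1]
  have := hS.disj (n := n0⁻¹) (n' := n0⁻¹ * n) (inv_mem hn0N) (mul_mem (inv_mem hn0N) hn)
    ⟨n0⁻¹ * v * n0, AddFact.pos_le_borel hu, x, hx, by rw [e]; group⟩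
  rwa [inv_inv, mul_inv_cancel_left] at this

theorem nG_ne_VB (hD : D ∈ [chevG2, chevB2, chevD4, chevF4, chevE6, chevE7, chevE8])
    (hA : AddFact D F) {j : ℕ} (hj : j < D.rank) {c : F} (hc : c ≠ 0) {v x : GL D.Idx F}
    (hv : v ∈ D.negUnipotent F) (hx : x ∈ D.borelSubgroup F) : hA.nG (D.simple j) c ≠ v * x := by
  have b := bundle_of_mem F hD
  intro e
  exact nG_not_mem_borel b hj hc (AddFact.diag_le_borel
    (mono_VB hD (b.hA.nG_mem_mono (b.hR.simple_lt hj) hc) hv hx e))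

/-- `x_{-p}(t⁻¹) = x_p(t) n_p(-t) x_p(t)` -/
theorem X_neg_inv (hA : AddFact D F) (r : ℕ) (t : F) :
    hA.X (D.neg r) t⁻¹ = hA.X r t * hA.nG r (-t) * hA.X r t := by
  have e : -(-t)⁻¹ = t⁻¹ := by rw [inv_neg, neg_neg]
  rw [AddFact.nG, e, ← hA.X_inv]
  group

/-- `(B ∪ B n_i B) ∩ V = X_{-p_i}` -/
theorem par_inf_neg (hD : D ∈ [chevG2, chevB2, chevD4, chevF4, chevE6, chevE7, chevE8])
    (hA : AddFact D F) {i : ℕ} (hi : i < D.rank) {g : GL D.Idx F} (hV : g ∈ D.negUnipotent F)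
    (hg : g ∈ D.borelSubgroup F ∨ ∃ x ∈ D.borelSubgroup F, ∃ y ∈ D.borelSubgroup F, g = x * hA.nn i * y) :
    g ∈ D.rootSubgroup F (D.neg (D.simple i)) := by
  have b := bundle_of_mem F hD
  have hBV : ∀ z, z ∈ D.borelSubgroup F → z ∈ D.negUnipotent F → z = 1 := by
    intro z h1 h2
    have : z ∈ D.borelSubgroup F ⊓ D.negUnipotent F := ⟨h1, h2⟩
    rwa [b.hTri.BV, Subgroup.mem_bot] at this
  rcases hg with hg | hg
  · rw [hBV g hg hV]; exact one_mem _
  · have hg' := (mem_dc_nn_iff hA b.hR b.hN b.hT b.hC hi g).1 (DoubleCoset.mem_doubleCoset.2 hg)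
    obtain ⟨t, y, hy, rfl⟩ := hg'
    by_cases ht : t = 0
    · exfalso
      subst ht
      rw [hA.X_zero, one_mul] at hV
      exact nG_ne_VB hD hA hi one_ne_zero hV (inv_mem hy) (by
        show hA.nn i = _
        group)
    · have hh : (hA.nG (D.simple i) (-t))⁻¹ * hA.nn i ∈ D.diagonalSubgroup F := by
        rw [AddFact.nG_eq_hG_mul, _root_.mul_inv_rev]
        have := hA.nn_inv_conj_diag b.hR b.hN hi
          (inv_mem (hA.hG_mem_diag (b.hR.simple_lt hi) (neg_ne_zero.2 ht)))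
        exact this
      have e : hA.X (D.simple i) t * hA.nn i * y = hA.X (D.neg (D.simple i)) t⁻¹ *
          ((hA.X (D.simple i) t)⁻¹ * ((hA.nG (D.simple i) (-t))⁻¹ * hA.nn i) * y) := by
        rw [X_neg_inv]; group
      have hz : (hA.X (D.simple i) t)⁻¹ * ((hA.nG (D.simple i) (-t))⁻¹ * hA.nn i) * y ∈
          D.borelSubgroup F :=
        mul_mem (mul_mem (inv_mem (AddFact.pos_le_borel (hA.X_mem_pos (b.hR.simple_pos hi) t)))
          (AddFact.diag_le_borel hh)) hy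
      have hXV := hA.X_mem_neg (b.hR.neg_of_pos (b.hR.simple_pos hi)) t⁻¹
      have hzV : (hA.X (D.simple i) t)⁻¹ * ((hA.nG (D.simple i) (-t))⁻¹ * hA.nn i) * y ∈
          D.negUnipotent F := by
        have := mul_mem (inv_mem hXV) hV
        rwa [e, inv_mul_cancel_left] at this
      rw [e, hBV _ hz hzV, mul_one]
      exact hA.X_mem_rootSubgroup _ _

theorem X_neg_mem_par (b : Bundle D F) {i : ℕ} (hi : i < D.rank) (s : F) :
    b.hA.X (D.neg (D.simple i)) s ∈ D.borelSubgroup F ∨ ∃ x ∈ D.borelSubgroup F,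
      ∃ y ∈ D.borelSubgroup F, b.hA.X (D.neg (D.simple i)) s = x * b.hA.nn i * y := by
  by_cases hs : s = 0
  · left
    rw [hs, b.hA.X_zero]; exact one_mem _
  · right
    have hX := fun t => AddFact.pos_le_borel (b.hA.X_mem_pos (b.hR.simple_pos hi) t)
    refine ⟨b.hA.X (D.simple i) s⁻¹ * b.hA.hG (D.simple i) (-s⁻¹), mul_mem (hX _)
      (AddFact.diag_le_borel (b.hA.hG_mem_diag (b.hR.simple_lt hi)
        (neg_ne_zero.2 (inv_ne_zero hs)))), b.hA.X (D.simple i) s⁻¹, hX _, ?_⟩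
    have := X_neg_inv b.hA (D.simple i) s⁻¹
    rw [inv_inv] at this
    rw [this, AddFact.nG_eq_hG_mul]
    simp only [AddFact.nn, mul_assoc]

end Cfsg.Agent.Lib.Helper45
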