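import Cfsg.Agent.Lib.Helper45.AutChev2
import Cfsg.Agent.Lib.Helper45.AutAbs3
import Cfsg.Agent.Lib.Helper8.BNPar

/-!
# The abstract system of `AutAbs2` for the Chevalley groups
-/

set_option autoImplicit false

namespace Cfsg.Agent.Lib.Helper45

open Cfsg.Lie Matrix Cfsg.Agent.Lib.Helper23 Cfsg.Agent.Lib.Helper22 Cfsg.Agent.Lib.Helper8
open AutAbs
open scoped Pointwise

/-- Sylow's theorem in the form used for the normalisation -/
theorem mp_of_sylow {G : Type*} [Group G] [Finite G] {p : ℕ} [Fact p.Prime] (P : Sylow p G)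
    (θ : G ≃* G) : ∃ g : G, Mp (θ.trans (cj g)) (P : Subgroup G) (P : Subgroup G) := by
  let θ' : MulAut G := θ
  obtain ⟨g, hg⟩ := MulAction.exists_smul_eq G (θ' • P) P
  refine ⟨g, fun y => ?_⟩
  have h1 : (P : Subgroup G) = MulAut.conj g • (θ' • (P : Subgroup G)) := by
    conv_lhs => rw [← hg]
    rfl
  have e : (θ.trans (cj g)) y = MulAut.conj g • (θ' • y) := rfl
  rw [e]
  conv_lhs => rw [h1]
  rw [Subgroup.smul_mem_pointwise_smul_iff, Subgroup.smul_mem_pointwise_smul_iff]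

variable {D : ChevalleyDatum} {F : Type*} [Field F]

/-- root elements in the group -/
def xG (hA : AddFact D F) (r : ℕ) (t : F) : ↥(D.group F) := ⟨hA.X r t, hA.X_mem_group r t⟩

/-- subgroups of the group -/
def sG (K : Subgroup (GL D.Idx F)) : Subgroup ↥(D.group F) := K.subgroupOf (D.group F)

theorem mem_sG {K : Subgroup (GL D.Idx F)} {g : ↥(D.group F)} : g ∈ sG K ↔ (g : GL D.Idx F) ∈ K :=
  Subgroup.mem_subgroupOf

theorem mp_of_cmp {m : ↥(D.group F)} {K K' : Subgroup (GL D.Idx F)} (h : CMp (m : GL D.Idx F) K K') :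
    Mp (cj m) (sG K) (sG K') := fun g => by
  rw [mem_sG, mem_sG]; exact h g

theorem coe_nE (hA : AddFact D F) (r : ℕ) (c : F) :
    ((nE (xG hA) D.neg r c : ↥(D.group F)) : GL D.Idx F) = hA.nG r c := rfl

theorem coe_hE (hA : AddFact D F) (r : ℕ) (c : F) :
    ((hE (xG hA) D.neg r c : ↥(D.group F)) : GL D.Idx F) = hA.hG r c := rfl

theorem sys_of_mem (hD : D ∈ [chevG2, chevB2, chevD4, chevF4, chevE6, chevE7, chevE8])
    (hA : AddFact D F)
    (hSyl : ∀ θ : ↥(D.group F) ≃* ↥(D.group F), ∃ g, Mp (θ.trans (cj g)) (sG (D.posUnipotent F))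
      (sG (D.posUnipotent F)))
    (hc1 : ∀ i j : Fin D.rank, i ≠ j → ∀ t u : F,
      D.x F (D.simple i) t * D.x F (D.neg (D.simple j)) u =
        D.x F (D.neg (D.simple j)) u * D.x F (D.simple i) t)
    (hc2 : ∀ i : Fin D.rank, D.x F (D.simple i) 1 * D.x F (D.neg (D.simple i)) 1 ≠
        D.x F (D.neg (D.simple i)) 1 * D.x F (D.simple i) 1) :
    ∃ (P : Fin D.rank → Subgroup ↥(D.group F)) (n0 : ↥(D.group F)) (ι : Fin D.rank → Fin D.rank),
      Sys (xG hA) (fun r => sG (D.rootSubgroup F r)) (fun r => r < D.nroots) D.neg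
        (fun i : Fin D.rank => D.simple i) (fun (i : Fin D.rank) r => D.reflectRoot i r)
        (sG (D.posUnipotent F)) (sG (D.negUnipotent F)) (sG (D.borelSubgroup F))
        (sG (D.monomialSubgroup F)) P n0 ι := by
  have b := bundle_of_mem F hD
  obtain ⟨w, hw, hopp, hsim, hinj⟩ := longWord2_of_mem hD
  obtain ⟨PP, hPB, hPN, hPS⟩ := b.hA.exists_bnPair b.hR b.hN b.hT b.hTri b.hC
  choose Pm hPm using fun i : Fin D.rank => hA.exists_minimal_parabolic b.hR b.hN b.hT b.hC i.2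
  have hPm' : ∀ (i : Fin D.rank) (g : GL D.Idx F), g ∈ Pm i ↔ g ∈ D.borelSubgroup F ∨
      ∃ x ∈ D.borelSubgroup F, ∃ y ∈ D.borelSubgroup F, g = x * hA.nn i * y := by
    intro i g
    rw [← SetLike.mem_coe, hPm i, Set.mem_union, DoubleCoset.mem_doubleCoset]
    rfl
  choose ι0 hι0 hι1 using hsim
  let ι : Fin D.rank → Fin D.rank := fun i => ⟨ι0 i i.2, hι0 i i.2⟩
  have hn0 := cmp_opp b hw (one_mem _) (fun r hr => hopp r hr.1 hr)
  rw [mul_one] at hn0
  have hBV : ∀ z, z ∈ D.borelSubgroup F → z ∈ D.negUnipotent F → z = 1 := by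
    intro z h1 h2
    have : z ∈ D.borelSubgroup F ⊓ D.negUnipotent F := ⟨h1, h2⟩
    rwa [b.hTri.BV, Subgroup.mem_bot] at this
  refine ⟨fun i => sG (Pm i), ⟨hA.nword w, hA.mono_le_group (hA.nword_mem_mono b.hR hw)⟩, ι, ?_⟩
  exact
  { x_add := fun r t u => Subtype.ext (hA.X_add r t u)
    x_inj := fun r hr t h => hA.X_eq_one b.hTri hr (congrArg Subtype.val h)
    mem_X := fun r g => by
      rw [mem_sG, hA.mem_rootSubgroup_iff]
      exact ⟨fun ⟨t, h⟩ => ⟨t, Subtype.ext h⟩, fun ⟨t, h⟩ => ⟨t, congrArg Subtype.val h⟩⟩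
    sim_R := fun i => b.hR.simple_lt i.2
    neg_R := fun r hr => b.hR.neg_lt hr
    refl_R := fun i r hr => b.hR.refl_lt i.2 hr
    refl_sim := fun i => RootFacts.refl_simple _
    Xp_le := fun i g hg => by
      rw [mem_sG] at hg ⊢
      obtain ⟨t, e⟩ := (hA.mem_rootSubgroup_iff _ _).1 hg
      rw [e]; exact hA.X_mem_pos (b.hR.simple_pos i.2) t
    Xm_le := fun i g hg => by
      rw [mem_sG] at hg ⊢
      obtain ⟨t, e⟩ := (hA.mem_rootSubgroup_iff _ _).1 hg
      rw [e]; exact hA.X_mem_neg (b.hR.neg_of_pos (b.hR.simple_pos i.2)) t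
    U_le := fun g hg => by
      rw [mem_sG] at hg ⊢
      exact AddFact.pos_le_borel hg
    BV := fun g h1 h2 => Subtype.ext (hBV g (mem_sG.1 h1) (mem_sG.1 h2))
    hSyl := hSyl
    hBU := fun x hx => mp_of_cmp (borel_cmp b (mem_sG.1 hx))
    hNU := fun g hg => by
      rw [mem_sG]
      apply mem_borel_of_cmp hD g.2
      intro y hy
      exact mem_sG.1 ((hg ⟨y, hA.pos_le_group hy⟩).2 (mem_sG.2 hy))
    bruhat := fun g => by
      obtain ⟨x, hx, n, hn, u, hu, e⟩ := (s1100_of_mem F hD).1 g g.2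
      have huB : u ∈ D.borelSubgroup F := AddFact.pos_le_borel (Umin_le_pos hA n hu)
      exact ⟨⟨x, hA.borel_le_group hx⟩, mem_sG.2 hx, ⟨n, hA.mono_le_group hn⟩, mem_sG.2 hn,
        ⟨u, hA.borel_le_group huB⟩, mem_sG.2 huB, Subtype.ext e⟩
    hn0 := mp_of_cmp hn0.1
    hn0' := mp_of_cmp hn0.2
    hopp := fun n hn h => by
      apply mp_of_cmp
      apply cmp_of_trivial b (mem_sG.1 hn)
      intro u hu hu'
      exact congrArg Subtype.val (h ⟨u, hA.pos_le_group hu⟩ (mem_sG.2 hu) (mem_sG.2 hu'))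
    hBP := fun i g hg => by
      rw [mem_sG] at hg ⊢
      exact (hPm' i g).2 (Or.inl hg)
    hnP := fun i => by
      rw [mem_sG, coe_nE]
      exact (hPm' i _).2 (Or.inr ⟨1, one_mem _, 1, one_mem _, by simp [AddFact.nn]⟩)
    hP := fun i g hg => by
      rcases (hPm' i g).1 (mem_sG.1 hg) with h | ⟨x, hx, y, hy, e⟩
      · exact Or.inl (mem_sG.2 h)
      · exact Or.inr ⟨⟨x, hA.borel_le_group hx⟩, mem_sG.2 hx, ⟨y, hA.borel_le_group hy⟩, mem_sG.2 hy,
          Subtype.ext e⟩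
    hover := fun Q hBQ hQB => by
      by_contra hno
      apply hQB
      have hBQ' : PP.B ≤ Q := by rw [hPB]; exact hBQ
      have h1 := eq_parabolic_of_le (P := PP) hBQ'
      have h2 : PP.S ∩ (Q : Set ↥(D.group F)) = ∅ := by
        rw [Set.eq_empty_iff_forall_notMem]
        rintro s ⟨hs, hsQ⟩
        rw [hPS] at hs
        obtain ⟨i, hi, e⟩ := hs
        apply hno
        refine ⟨⟨i, hi⟩, ?_⟩
        have : s = nE (xG hA) D.neg (D.simple i) 1 := Subtype.ext ((hA.eq_nG_iff _ _ _).1 e)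
        rw [← this]; exact hsQ
      rw [h2] at h1
      rw [h1, Cfsg.BNPair.parabolic, Subgroup.closure_empty, sup_bot_eq, hPB]
      exact le_refl _
    hPV := fun i => by
      ext g
      rw [Subgroup.mem_inf, mem_sG, mem_sG, mem_sG]
      constructor
      · rintro ⟨h1, h2⟩
        exact par_inf_neg hD hA i.2 h2 ((hPm' i g).1 h1)
      · intro h
        obtain ⟨t, e⟩ := (hA.mem_rootSubgroup_iff _ _).1 h
        rw [e]
        exact ⟨(hPm' i _).2 (X_neg_mem_par b i.2 t),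
          hA.X_mem_neg (b.hR.neg_of_pos (b.hR.simple_pos i.2)) t⟩
    hn0X := fun i => by
      apply mp_of_cmp
      have := (acts_nword b hw).cmp (b.hR.neg_lt (b.hR.simple_lt i.2))
      rw [hι1 i i.2] at this
      exact this
    ι_surj := by
      apply Finite.surjective_of_injective
      intro i j hij
      have h1 : ι0 i i.2 = ι0 j j.2 := congrArg Fin.val hij
      have h2 : wact D w (D.neg (D.simple i)) = wact D w (D.neg (D.simple j)) := by
        rw [hι1 i i.2, hι1 j j.2, h1]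
      have h3 := congrArg (wact D w.reverse) h2
      rw [b.hR.wact_reverse hw (b.hR.neg_lt (b.hR.simple_lt i.2)),
        b.hR.wact_reverse hw (b.hR.neg_lt (b.hR.simple_lt j.2))] at h3
      have h4 := congrArg D.neg h3
      rw [b.hR.neg_neg (b.hR.simple_lt i.2), b.hR.neg_neg (b.hR.simple_lt j.2)] at h4
      exact Fin.ext (hinj i i.2 j j.2 h4)
    comm_pm := fun i j hij t u => by
      apply Subtype.ext
      apply Units.ext
      show ((hA.X _ _ * hA.X _ _ : GL D.Idx F) : Matrix D.Idx D.Idx F) =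
        ((hA.X _ _ * hA.X _ _ : GL D.Idx F) : Matrix D.Idx D.Idx F)
      simp only [Units.val_mul, AddFact.coe_X]
      exact hc1 i j hij t u
    ncomm_pm := fun i h => by
      apply hc2 i
      have h1 := congrArg (fun g : ↥(D.group F) => ((g : GL D.Idx F) : Matrix D.Idx D.Idx F)) h
      have h2 : ((hA.X (D.simple i) 1 * hA.X (D.neg (D.simple i)) 1 : GL D.Idx F) : Matrix D.Idx D.Idx F) =
        ((hA.X (D.neg (D.simple i)) 1 * hA.X (D.simple i) 1 : GL D.Idx F) : Matrix D.Idx D.Idx F) := h1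
      simpa only [Units.val_mul, AddFact.coe_X] using h2
    acts := fun j c hc r hr => mp_of_cmp ((acts_nG b j.2 hc).cmp hr)
    hVB := fun j c hc v hv x hx e =>
      nG_ne_VB hD hA j.2 hc (mem_sG.1 hv) (mem_sG.1 hx) (congrArg Subtype.val e) }

end Cfsg.Agent.Lib.Helper45
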