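import Cfsg.Agent.Lib.Helper23.ChevAll

/-!
# The longest word maps the negatives of the fundamental roots onto the fundamental roots
-/

set_option autoImplicit false
set_option maxRecDepth 1000000
set_option maxHeartbeats 0

namespace Cfsg.Agent.Lib.Helper45

open Cfsg.Lie Cfsg.Agent.Lib.Helper22 Cfsg.Agent.Lib.Helper23

/-- a word sending all positive roots to negative roots and permuting `± fundamental roots` -/
def LongWord2 (D : ChevalleyDatum) : Prop :=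
  ∃ w : List ℕ, (∀ i ∈ w, i < D.rank) ∧ (∀ r < D.nroots, D.IsPosRoot r → D.IsNegRoot (wact D w r)) ∧
    (∀ i < D.rank, ∃ j < D.rank, wact D w (D.neg (D.simple i)) = D.simple j) ∧
    (∀ i < D.rank, ∀ j < D.rank, D.simple i = D.simple j → i = j)

theorem longWord2_of_fast {T : Tb} {NT SI : ℕ} {D : ChevalleyDatum} (V : T.Valid D)
    (W : NValid T NT SI D) (Fa : NFacts T NT SI D)
    (Fr : FastRoot T NT SI D) (w : List ℕ) (h1 : ∀ i ∈ w, i < T.l)
    (h2 : ∀ r < T.n, T.n ≤ 2 * r → 2 * wactT T.n NT w r < T.n)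
    (h3 : ∀ i < T.l, ∃ j < T.l, wactT T.n NT w (T.n - 1 - sLook SI i) = sLook SI j)
    (h4 : ∀ i < T.l, ∀ j < T.l, sLook SI i = sLook SI j → i = j) : LongWord2 D := by
  refine ⟨w, fun i hi => V.hl ▸ h1 i hi, fun r hr hp => ?_, fun i hi => ?_, fun i hi j hj h => ?_⟩
  · have hr' : r < T.n := V.hn ▸ hr
    obtain ⟨e1, e2⟩ := wactT_lt_and_eq Fa h1 hr'
    have e3 : wact D w r = wactT T.n NT w r := e2
    rw [e3, (Fr.half _ e1).2]
    exact h2 r hr' ((Fr.half r hr').1.1 hp)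
  · have hi' : i < T.l := V.hl ▸ hi
    obtain ⟨s1, s2⟩ := W.hs i hi'
    obtain ⟨j, hj, e⟩ := h3 i hi'
    refine ⟨j, V.hl ▸ hj, ?_⟩
    have hlt : T.n - 1 - sLook SI i < T.n := by omega
    obtain ⟨e1, e2⟩ := wactT_lt_and_eq Fa h1 hlt
    have e3 : wact D w (T.n - 1 - sLook SI i) = wactT T.n NT w (T.n - 1 - sLook SI i) := e2
    have hneg : D.neg (sLook SI i) = T.n - 1 - sLook SI i := V.neg_eq s2
    rw [s1, hneg, e3, e, (W.hs j hj).1]
  · have hi' : i < T.l := V.hl ▸ hi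
    have hj' : j < T.l := V.hl ▸ hj
    rw [(W.hs i hi').1, (W.hs j hj').1] at h
    exact h4 i hi' j hj' h

theorem longWord2G2 : LongWord2 chevG2 :=
  longWord2_of_fast tbG2_valid ntG2_valid ntG2_facts ntG2_fast [0, 1, 0, 1, 0, 1]
    (by decide +kernel) (by decide +kernel) (by decide +kernel) (by decide +kernel)

theorem longWord2B2 : LongWord2 chevB2 :=
  longWord2_of_fast tbB2_valid ntB2_valid ntB2_facts ntB2_fast [0, 1, 0, 1]
    (by decide +kernel) (by decide +kernel) (by decide +kernel) (by decide +kernel)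

theorem longWord2D4 : LongWord2 chevD4 :=
  longWord2_of_fast tbD4_valid ntD4_valid ntD4_facts ntD4_fast [0, 1, 0, 2, 1, 0, 3, 1, 0, 2, 1, 3]
    (by decide +kernel) (by decide +kernel) (by decide +kernel) (by decide +kernel)

theorem longWord2F4 : LongWord2 chevF4 :=
  longWord2_of_fast tbF4_valid ntF4_valid ntF4_facts ntF4_fast [0, 1, 0, 2, 1, 0, 2, 1, 2, 3, 2, 1, 0, 2, 1, 2, 3, 2, 1, 0, 2, 1, 2, 3]
    (by decide +kernel) (by decide +kernel) (by decide +kernel) (by decide +kernel)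

theorem longWord2E6 : LongWord2 chevE6 :=
  longWord2_of_fast tbE6_valid ntE6_valid ntE6_facts ntE6_fast [0, 1, 2, 0, 3, 1, 2, 0, 3, 2, 4, 3, 1, 2, 0, 3, 2, 4, 3, 1, 5, 4, 3, 1, 2, 0, 3, 2, 4, 3, 1, 5, 4, 3, 2, 0]
    (by decide +kernel) (by decide +kernel) (by decide +kernel) (by decide +kernel)

theorem longWord2E7 : LongWord2 chevE7 :=
  longWord2_of_fast tbE7_valid ntE7_valid ntE7_facts ntE7_fast [0, 1, 2, 0, 3, 1, 2, 0, 3, 2, 4, 3, 1, 2, 0, 3, 2, 4, 3, 1, 5, 4, 3, 1, 2, 0, 3, 2, 4, 3, 1, 5, 4, 3, 2, 0, 6, 5, 4, 3, 1, 2, 0, 3, 2, 4, 3, 1, 5, 4, 3, 2, 0, 6, 5, 4, 3, 1, 2, 3, 4, 5, 6]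
    (by decide +kernel) (by decide +kernel) (by decide +kernel) (by decide +kernel)

theorem longWord2E8 : LongWord2 chevE8 :=
  longWord2_of_fast tbE8_valid ntE8_valid ntE8_facts ntE8_fast [0, 1, 2, 0, 3, 1, 2, 0, 3, 2, 4, 3, 1, 2, 0, 3, 2, 4, 3, 1, 5, 4, 3, 1, 2, 0, 3, 2, 4, 3, 1, 5, 4, 3, 2, 0, 6, 5, 4, 3, 1, 2, 0, 3, 2, 4, 3, 1, 5, 4, 3, 2, 0, 6, 5, 4, 3, 1, 2, 3, 4, 5, 6, 7, 6, 5, 4, 3, 1, 2, 0, 3, 2, 4, 3, 1, 5, 4, 3, 2, 0, 6, 5, 4, 3, 1, 2, 3, 4, 5, 6, 7, 6, 5, 4, 3, 1, 2, 0, 3, 2, 4, 3, 1, 5, 4, 3, 2, 0, 6, 5, 4, 3, 1, 2, 3, 4, 5, 6, 7]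
    (by decide +kernel) (by decide +kernel) (by decide +kernel) (by decide +kernel)

theorem longWord2_of_mem {D : ChevalleyDatum}
    (hD : D ∈ [chevG2, chevB2, chevD4, chevF4, chevE6, chevE7, chevE8]) : LongWord2 D := by
  simp only [List.mem_cons, List.not_mem_nil, or_false] at hD
  rcases hD with rfl | rfl | rfl | rfl | rfl | rfl | rfl
  · exact longWord2G2
  · exact longWord2B2
  · exact longWord2D4
  · exact longWord2F4
  · exact longWord2E6
  · exact longWord2E7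
  · exact longWord2E8

end Cfsg.Agent.Lib.Helper45
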