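import Cfsg.Agent.Lib.Helper45.AutInst
import Cfsg.Agent.Lib.Helper22.GenSimple
import Cfsg.Agent.Lib.Helper23.ChevAll2
import Cfsg.Prelude.Def_ChevAutomorphisms
import Cfsg.Agent.S1080
import Cfsg.Agent.S2157

/-!
# Steinberg's theorem on the automorphisms of the finite Chevalley groups, from the rungs
-/

set_option autoImplicit false

namespace Cfsg.Agent.Lib.Helper45

open Cfsg.Lie Matrix Cfsg.Agent.Lib.Helper23 Cfsg.Agent.Lib.Helper22 Cfsg.Agent.Lib.Helper8
open AutAbs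

namespace AutAbs.Sys

variable {G : Type*} [Group G] {F : Type*} [Field F] {I R : Type*}
  {x : R → F → G} {X : R → Subgroup G} {IsR : R → Prop} {neg : R → R} {sim : I → R}
  {refl : I → R → R} {U V B N : Subgroup G} {P : I → Subgroup G} {n0 : G} {ι : I → I}
  (S : Sys x X IsR neg sim refl U V B N P n0 ι)
include S

theorem comm_of_mp {θ : G ≃* G} {r s r' s' : R} (h : Mp θ (X r) (X r')) (h' : Mp θ (X s) (X s'))
    (hc : ∀ t u, x r t * x s u = x s u * x r t) (t u : F) : x r' t * x s' u = x s' u * x r' t := by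
  obtain ⟨a, ha, ea⟩ := h.exists_preimage (S.x_mem r' t)
  obtain ⟨c, hc', ec⟩ := h'.exists_preimage (S.x_mem s' u)
  obtain ⟨t', rfl⟩ := (S.mem_X _ _).1 ha
  obtain ⟨u', rfl⟩ := (S.mem_X _ _).1 hc'
  rw [← ea, ← ec, ← map_mul, ← map_mul, hc]

theorem mp_of_fun {θ : G ≃* G} {r s : R} {φ : F → F} (hφ : Function.Surjective φ)
    (h : ∀ t, θ (x r t) = x s (φ t)) : Mp θ (X r) (X s) := by
  intro g
  constructor
  · intro hg
    obtain ⟨u, e⟩ := (S.mem_X _ _).1 hg
    obtain ⟨t, rfl⟩ := hφ u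
    rw [← h] at e
    rw [θ.injective e]
    exact S.x_mem _ _
  · intro hg
    obtain ⟨t, rfl⟩ := (S.mem_X _ _).1 hg
    rw [h]
    exact S.x_mem _ _

end AutAbs.Sys

variable {D : ChevalleyDatum} {F : Type*} [Field F]

theorem coe_xG (hA : AddFact D F) (r : ℕ) (t : F) :
    (((xG hA r t : ↥(D.group F)) : GL D.Idx F) : Matrix D.Idx D.Idx F) = D.x F r t := hA.coe_X r t

theorem eq_xG_iff (hA : AddFact D F) (g : ↥(D.group F)) (r : ℕ) (t : F) :
    ((g : GL D.Idx F) : Matrix D.Idx D.Idx F) = D.x F r t ↔ g = xG hA r t :=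
  ⟨fun h => Subtype.ext (Units.ext (by rw [h, coe_xG])), fun h => by rw [h, coe_xG]⟩

theorem xG_comm_iff (hA : AddFact D F) (r s : ℕ) (t u : F) :
    xG hA r t * xG hA s u = xG hA s u * xG hA r t ↔
      D.x F r t * D.x F s u = D.x F s u * D.x F r t := by
  constructor
  · intro h
    have h1 := congrArg (fun g : ↥(D.group F) => ((g : GL D.Idx F) : Matrix D.Idx D.Idx F)) h
    have h2 : ((hA.X r t * hA.X s u : GL D.Idx F) : Matrix D.Idx D.Idx F) =
        ((hA.X s u * hA.X r t : GL D.Idx F) : Matrix D.Idx D.Idx F) := h1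
    simpa only [Units.val_mul, AddFact.coe_X] using h2
  · intro h
    apply Subtype.ext
    apply Units.ext
    show ((hA.X _ _ * hA.X _ _ : GL D.Idx F) : Matrix D.Idx D.Idx F) =
      ((hA.X _ _ * hA.X _ _ : GL D.Idx F) : Matrix D.Idx D.Idx F)
    simp only [Units.val_mul, AddFact.coe_X]
    exact h

theorem pow_graphExp_surj [Finite F] (i j : ℕ) :
    Function.Surjective fun t : F => t ^ D.graphExp (ringChar F) i j := by
  unfold ChevalleyDatum.graphExp
  split_ifs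
  · have : Fact (ringChar F).Prime := ⟨CharP.char_is_prime F (ringChar F)⟩
    exact surjective_frobenius F (ringChar F)
  · intro t; exact ⟨t, pow_one t⟩

/-- the statement of S2156 from the rungs -/
theorem steinberg_of_rungs [Finite F]
    (hD : D ∈ [chevG2, chevB2, chevD4, chevF4, chevE6, chevE7, chevE8])
    (hSyl : ∀ θ : ↥(D.group F) ≃* ↥(D.group F), ∃ g, Mp (θ.trans (cj g)) (sG (D.posUnipotent F))
      (sG (D.posUnipotent F)))
    (hC1 : ∀ i j : Fin D.rank, i ≠ j → D.bonds i j = 0 → ∀ t u : F,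
      D.x F (D.simple i) t * D.x F (D.simple j) u = D.x F (D.simple j) u * D.x F (D.simple i) t)
    (hC2 : ∀ i j : Fin D.rank, i ≠ j → D.bonds i j ≠ 0 →
      D.x F (D.simple i) 1 * D.x F (D.simple j) 1 ≠ D.x F (D.simple j) 1 * D.x F (D.simple i) 1)
    (hC3 : ∀ i j : Fin D.rank, i ≠ j → ∀ t u : F,
      D.x F (D.simple i) t * D.x F (D.neg (D.simple j)) u =
        D.x F (D.neg (D.simple j)) u * D.x F (D.simple i) t)
    (hC4 : ∀ i : Fin D.rank, D.x F (D.simple i) 1 * D.x F (D.neg (D.simple i)) 1 ≠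
        D.x F (D.neg (D.simple i)) 1 * D.x F (D.simple i) 1)
    (hE1 : ∀ π : Equiv.Perm (Fin D.rank),
      (∀ i j : Fin D.rank, i ≠ j → (D.bonds (π i) (π j) = 0 ↔ D.bonds i j = 0)) →
      D.IsDiagramSymmetry π)
    (hE2 : ∀ π : Equiv.Perm (Fin D.rank), D.IsDiagramSymmetry π →
      ¬ ((∀ i : Fin D.rank, D.isLong (D.simple (π i)) = D.isLong (D.simple i)) ∨
        (D = chevG2 ∧ ringChar F = 3) ∨ ((D = chevB2 ∨ D = chevF4) ∧ ringChar F = 2)) →
      ∃ (i : Fin D.rank) (w : List (Fin D.rank)),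
        (∀ t u : F, D.x F (D.simple i) t * D.x F (wact D (w.map fun k => k.val) (D.simple i)) u =
          D.x F (wact D (w.map fun k => k.val) (D.simple i)) u * D.x F (D.simple i) t) ∧
        D.x F (D.simple (π i)) 1 * D.x F (wact D (w.map fun k => (π k).val) (D.simple (π i))) 1 ≠
          D.x F (wact D (w.map fun k => (π k).val) (D.simple (π i))) 1 * D.x F (D.simple (π i)) 1)
    (hE3 : ∀ Rel : Fin D.rank → Fin D.rank → Prop, (∀ i, Rel i i) → (∀ i j, Rel i j → Rel j i) →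
      (∀ i j k, Rel i j → Rel j k → Rel i k) →
      (∀ i j : Fin D.rank, D.cartan i (D.simple j) = -1 → Rel i j) → ∀ i j, Rel i j)
    (hE4 : ∃ i j : Fin D.rank, D.cartan i (D.simple j) = -1)
    (hGr : ∀ π : Equiv.Perm (Fin D.rank), D.IsDiagramSymmetry π →
      ((∀ i : Fin D.rank, D.isLong (D.simple (π i)) = D.isLong (D.simple i)) ∨
        (D = chevG2 ∧ ringChar F = 3) ∨ ((D = chevB2 ∨ D = chevF4) ∧ ringChar F = 2)) →
      ∃ φ : ↥(D.group F) ≃* ↥(D.group F), ∀ (g : ↥(D.group F)) (i : Fin D.rank) (t : F),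
        (((g : GL D.Idx F) : Matrix D.Idx D.Idx F) = D.x F (D.simple i) t →
          ((φ g : GL D.Idx F) : Matrix D.Idx D.Idx F) =
            D.x F (D.simple (π i)) (t ^ D.graphExp (ringChar F) i (π i))) ∧
        (((g : GL D.Idx F) : Matrix D.Idx D.Idx F) = D.x F (D.neg (D.simple i)) t →
          ((φ g : GL D.Idx F) : Matrix D.Idx D.Idx F) =
            D.x F (D.neg (D.simple (π i))) (t ^ D.graphExp (ringChar F) i (π i))))
    (hDg : ∀ c : Fin D.rank → Fˣ,
      ∃ (χ : ℕ → Fˣ) (d : ↥(D.group F) ≃* ↥(D.group F)), D.IsRootCharacter χ ∧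
        (∀ i : Fin D.rank, χ (D.simple i) = c i) ∧
        ∀ g : ↥(D.group F), ((d g : GL D.Idx F) : Matrix D.Idx D.Idx F) =
          D.charDiag F χ * ((g : GL D.Idx F) : Matrix D.Idx D.Idx F) *
            D.charDiag F (fun r => (χ r)⁻¹))
    (θ : ↥(D.group F) ≃* ↥(D.group F)) :
    ∃ (x : ↥(D.group F)) (d g f : ↥(D.group F) ≃* ↥(D.group F)),
      D.IsDiagonalAut d ∧ D.IsGraphAut g ∧ D.IsFieldAut f ∧
        ∀ y : ↥(D.group F), θ y = x * d (g (f y)) * x⁻¹ := by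
  have b := bundle_of_mem F hD
  have hA := b.hA
  obtain ⟨P, n0, ι, S⟩ := sys_of_mem hD hA hSyl hC3 hC4
  obtain ⟨g₀, ρ, hρ⟩ := S.exists_normal θ
  set θ' := θ.trans (cj g₀) with hθ'
  -- `ρ` is a symmetry of the diagram
  have hsym : D.IsDiagramSymmetry ρ := by
    apply hE1
    intro i j hij
    have hij' : ρ i ≠ ρ j := fun h => hij (ρ.injective h)
    constructor
    · intro h0
      by_contra h1
      apply hC2 i j hij h1
      rw [← xG_comm_iff hA]
      exact S.comm_of_mp (hρ i).1.symm (hρ j).1.symm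
        (fun t u => (xG_comm_iff hA _ _ _ _).2 (hC1 _ _ hij' h0 t u)) 1 1
    · intro h0
      by_contra h1
      apply hC2 _ _ hij' h1
      rw [← xG_comm_iff hA]
      exact S.comm_of_mp (hρ i).1 (hρ j).1
        (fun t u => (xG_comm_iff hA _ _ _ _).2 (hC1 _ _ hij h0 t u)) 1 1
  -- `ρ` is realisable
  have hlen : (∀ i : Fin D.rank, D.isLong (D.simple (ρ i)) = D.isLong (D.simple i)) ∨
      (D = chevG2 ∧ ringChar F = 3) ∨ ((D = chevB2 ∨ D = chevF4) ∧ ringChar F = 2) := by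
    by_contra hno
    obtain ⟨i, w, h1, h2⟩ := hE2 ρ hsym hno
    apply h2
    rw [← xG_comm_iff hA]
    have h3 := (S.mp_word hρ i w).2.2
    have e1 : wact D (w.map fun k => k.val) (D.simple i) =
        w.foldr (fun (i : Fin D.rank) r => D.reflectRoot i r) (D.simple i) := by
      simp only [wact, List.foldr_map]
    have e2 : wact D (w.map fun k => (ρ k).val) (D.simple (ρ i)) =
        (w.map ρ).foldr (fun (i : Fin D.rank) r => D.reflectRoot i r) (D.simple (ρ i)) := by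
      simp only [wact, List.foldr_map]
    rw [e2]
    apply S.comm_of_mp (hρ i).1 h3
    intro t u
    rw [← e1]
    exact (xG_comm_iff hA _ _ _ _).2 (h1 t u)
  obtain ⟨γ, hγ⟩ := hGr ρ hsym hlen
  have hγ1 : ∀ (i : Fin D.rank) (t : F), γ (xG hA (D.simple i) t) =
      xG hA (D.simple (ρ i)) (t ^ D.graphExp (ringChar F) i (ρ i)) := fun i t =>
    (eq_xG_iff hA _ _ _).1 ((hγ _ i t).1 (coe_xG hA _ _))
  have hγ2 : ∀ (i : Fin D.rank) (t : F), γ (xG hA (D.neg (D.simple i)) t) =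
      xG hA (D.neg (D.simple (ρ i))) (t ^ D.graphExp (ringChar F) i (ρ i)) := fun i t =>
    (eq_xG_iff hA _ _ _).1 ((hγ _ i t).2 (coe_xG hA _ _))
  choose f hf using fun i => S.exists_fun (hρ i).1
  have hf1 : ∀ i, f i 1 ≠ 0 := by
    intro i h0
    have h1 := hf i 1
    rw [h0, S.x_zero] at h1
    have h2 : xG hA (D.simple i) 1 = 1 := θ'.injective (by rw [h1, map_one])
    exact one_ne_zero (S.x_inj _ (S.sim_R i) _ h2)
  obtain ⟨χ, d, hχ, hχc, hd⟩ := hDg fun k => Units.mk0 (f (ρ.symm k) 1) (hf1 _)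
  have hd1 : ∀ r < D.nroots, ∀ t : F, d (xG hA r t) = xG hA r ((χ r : F) * t) := by
    intro r hr t
    rw [← eq_xG_iff, hd, coe_xG]
    exact Cfsg.Agent.S2157.result D hD χ hχ r hr t
  have hdmp : ∀ r < D.nroots, Mp d (sG (D.rootSubgroup F r)) (sG (D.rootSubgroup F r)) := by
    intro r hr
    apply S.mp_of_fun (φ := fun t => (χ r : F) * t) _ (hd1 r hr)
    intro u
    exact ⟨(χ r : F)⁻¹ * u, by simp⟩
  have hγmp1 : ∀ i : Fin D.rank, Mp γ (sG (D.rootSubgroup F (D.simple i)))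
      (sG (D.rootSubgroup F (D.simple (ρ i)))) := fun i =>
    S.mp_of_fun (pow_graphExp_surj _ _) (hγ1 i)
  have hγmp2 : ∀ i : Fin D.rank, Mp γ (sG (D.rootSubgroup F (D.neg (D.simple i))))
      (sG (D.rootSubgroup F (D.neg (D.simple (ρ i))))) := fun i =>
    S.mp_of_fun (pow_graphExp_surj _ _) (hγ2 i)
  set θ₃ := (θ'.trans d.symm).trans γ.symm with hθ₃
  have h3mp : ∀ i : Fin D.rank, Mp θ₃ (sG (D.rootSubgroup F (D.simple i)))
      (sG (D.rootSubgroup F (D.simple i))) ∧ Mp θ₃ (sG (D.rootSubgroup F (D.neg (D.simple i))))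
      (sG (D.rootSubgroup F (D.neg (D.simple i)))) := fun i =>
    ⟨((hρ i).1.trans (hdmp _ (S.sim_R _)).symm).trans (hγmp1 i).symm,
     ((hρ i).2.trans (hdmp _ (S.neg_R _ (S.sim_R _))).symm).trans (hγmp2 i).symm⟩
  have h31 : ∀ i : Fin D.rank, θ₃ (xG hA (D.simple i) 1) = xG hA (D.simple i) 1 := by
    intro i
    show γ.symm (d.symm (θ' (xG hA (D.simple i) 1))) = _
    rw [MulEquiv.symm_apply_eq, MulEquiv.symm_apply_eq, hγ1, one_pow, hd1 _ (S.sim_R (ρ i)), hχc,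
      mul_one, hf]
    simp
  obtain ⟨σ, hσ⟩ := S.exists_field (A := fun i j : Fin D.rank => D.cartan i (D.simple j))
    (fun i => by
      obtain ⟨ε, h1, -, h3⟩ := hA.nn_conj b.hR b.hN i.2
      refine ⟨ε (D.simple i), h1 _ (b.hR.simple_lt i.2), fun t => ?_⟩
      apply Subtype.ext
      have := h3 _ (b.hR.simple_lt i.2) t
      rw [RootFacts.refl_simple] at this
      exact this)
    (fun i j c hc u => by
      apply Subtype.ext
      exact (hA.hexp_simple (torS_of_mem F hD) i.2 c hc).2.2 _ (b.hR.simple_lt j.2) u)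
    hE3 hE4 h3mp h31
  obtain ⟨α, hα⟩ := Cfsg.Agent.S1080.result D hD σ
  have hα1 : ∀ r < D.nroots, ∀ t : F, α (xG hA r t) = xG hA r (σ t) := fun r hr t =>
    (eq_xG_iff hA _ _ _).1 (hα _ r t hr (coe_xG hA _ _))
  have hθα : θ₃.toMonoidHom = α.toMonoidHom := by
    apply hom_ext_GS hA b.hR b.hN
    · intro i hi t
      exact ((hσ ⟨i, hi⟩ t).1).trans (hα1 _ (b.hR.simple_lt hi) t).symm
    · intro i hi t
      exact ((hσ ⟨i, hi⟩ t).2).trans (hα1 _ (b.hR.neg_lt (b.hR.simple_lt hi)) t).symm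
  refine ⟨g₀⁻¹, d, γ, α, ⟨χ, hχ, hd⟩, ⟨ρ, hsym, hγ⟩, ⟨σ, hα⟩, fun y => ?_⟩
  have h1 : α y = θ₃ y := (DFunLike.congr_fun hθα y).symm
  have h2 : d (γ (θ₃ y)) = θ' y := by
    show d (γ (γ.symm (d.symm (θ' y)))) = θ' y
    rw [MulEquiv.apply_symm_apply, MulEquiv.apply_symm_apply]
  rw [h1, h2]
  show θ y = g₀⁻¹ * (g₀ * θ y * g₀⁻¹) * g₀⁻¹⁻¹
  group

end Cfsg.Agent.Lib.Helper45
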