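import Cfsg.Agent.Lib.Helper45.AutMain
import Cfsg.Agent.Lib.Helper22.AutC
import Cfsg.Agent.S2326

/-!
# Automorphisms permuting the fundamental root subgroups preserve `U` and `V`
-/

set_option autoImplicit false

namespace Cfsg.Agent.Lib.Helper45

open Cfsg.Lie Matrix Cfsg.Agent.Lib.Helper23 Cfsg.Agent.Lib.Helper22 Cfsg.Agent.Lib.Helper8
open AutAbs

variable {D : ChevalleyDatum} {F : Type*} [Field F]

theorem hSyl_of_mem [Finite F] (hD : D ∈ [chevG2, chevB2, chevD4, chevF4, chevE6, chevE7, chevE8])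
    (θ : ↥(D.group F) ≃* ↥(D.group F)) :
    ∃ g, Mp (θ.trans (cj g)) (sG (D.posUnipotent F)) (sG (D.posUnipotent F)) := by
  have : Fintype F := Fintype.ofFinite F
  have : Fact (ringChar F).Prime := ⟨CharP.char_is_prime F (ringChar F)⟩
  obtain ⟨P, hP⟩ := Cfsg.Agent.S2326.result (F := F) (ringChar F) D hD
  have := mp_of_sylow P θ
  rw [hP] at this
  exact this

/-- the abstract system, without hypotheses -/
theorem sys_of_mem' [Finite F] (hD : D ∈ [chevG2, chevB2, chevD4, chevF4, chevE6, chevE7, chevE8])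
    (hA : AddFact D F) :
    ∃ (P : Fin D.rank → Subgroup ↥(D.group F)) (n0 : ↥(D.group F)) (ι : Fin D.rank → Fin D.rank),
      Sys (xG hA) (fun r => sG (D.rootSubgroup F r)) (fun r => r < D.nroots) D.neg
        (fun i : Fin D.rank => D.simple i) (fun (i : Fin D.rank) r => D.reflectRoot i r)
        (sG (D.posUnipotent F)) (sG (D.negUnipotent F)) (sG (D.borelSubgroup F))
        (sG (D.monomialSubgroup F)) P n0 ι :=
  sys_of_mem hD hA (hSyl_of_mem hD) (simple_comm D hD).2.2.1 (simple_comm D hD).2.2.2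

/-- distinct root subgroups are distinct -/
theorem X_eq_X (hD : D ∈ [chevG2, chevB2, chevD4, chevF4, chevE6, chevE7, chevE8]) (hA : AddFact D F)
    {r s : ℕ} (hr : r < D.nroots) (hs : s < D.nroots) {a c : F} (ha : a ≠ 0)
    (h : hA.X r a = hA.X s c) : r = s := by
  have b := bundle_of_mem F hD
  by_contra hrs
  have hUV : ∀ z, z ∈ D.posUnipotent F → z ∈ D.negUnipotent F → z = 1 := by
    intro z h1 h2
    have : z ∈ D.borelSubgroup F ⊓ D.negUnipotent F := ⟨AddFact.pos_le_borel h1, h2⟩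
    rwa [b.hTri.BV, Subgroup.mem_bot] at this
  rcases b.hR.pos_or_neg hr with pr | nr <;> rcases b.hR.pos_or_neg hs with ps | ns
  · exact ha (X_eq_X_pos hD hA pr ps hrs h)
  · exact ha (hA.X_eq_one b.hTri hr (hUV _ (hA.X_mem_pos pr a) (h ▸ hA.X_mem_neg ns c)))
  · exact ha (hA.X_eq_one b.hTri hr (hUV _ (h ▸ hA.X_mem_pos ps c) (hA.X_mem_neg nr a)))
  · obtain ⟨w, hw, hopp⟩ := b.hL
    obtain ⟨h1, -, -⟩ := word_opp b hw (fun r hr => hopp r hr.1 hr)
    obtain ⟨ε, hε, e1, -⟩ := hA.nword_conj b.hR b.hN hw hr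
    obtain ⟨η, -, e2, -⟩ := hA.nword_conj b.hR b.hN hw hs
    have e3 : hA.X (wact D w r) (ε * a) = hA.X (wact D w s) (η * c) := by
      rw [← e1, ← e2, h]
    have hne : wact D w r ≠ wact D w s := by
      intro e
      have := congrArg (wact D w.reverse) e
      rw [b.hR.wact_reverse hw hr, b.hR.wact_reverse hw hs] at this
      exact hrs this
    have := X_eq_X_pos hD hA (h1 r nr) (h1 s ns) hne e3
    rcases hε with rfl | rfl
    · exact ha (by simpa using this)
    · exact ha (by simpa using this)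

theorem sG_root_inj (hD : D ∈ [chevG2, chevB2, chevD4, chevF4, chevE6, chevE7, chevE8])
    {r s : ℕ} (hr : r < D.nroots) (hs : s < D.nroots)
    (h : sG (D.rootSubgroup F r) = sG (D.rootSubgroup F s)) : r = s := by
  have hA := (bundle_of_mem F hD).hA
  have h1 : xG hA r 1 ∈ sG (D.rootSubgroup F s) := by
    rw [← h, mem_sG]; exact hA.X_mem_rootSubgroup _ _
  obtain ⟨c, e⟩ := (hA.mem_rootSubgroup_iff _ _).1 (mem_sG.1 h1)
  exact X_eq_X hD hA hr hs one_ne_zero e

theorem refl_pos_iff (hR : RootFacts D) {k r : ℕ} (hk : k < D.rank) (hr : r < D.nroots)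
    (h1 : r ≠ D.simple k) (h2 : r ≠ D.neg (D.simple k)) :
    D.IsPosRoot (D.reflectRoot k r) ↔ D.IsPosRoot r := by
  constructor
  · intro h
    rcases hR.pos_or_neg hr with h3 | h3
    · exact h3
    · exact absurd (hR.refl_neg_root hk h3 h2) (hR.not_neg_of_pos h)
  · intro h
    exact hR.refl_pos hk h h1

section
variable [Finite F] (hD : D ∈ [chevG2, chevB2, chevD4, chevF4, chevE6, chevE7, chevE8])
  {θ : ↥(D.group F) ≃* ↥(D.group F)} {ρ : Fin D.rank → Fin D.rank}
  (hρ : ∀ i : Fin D.rank, Mp θ (sG (D.rootSubgroup F (D.simple i))) (sG (D.rootSubgroup F (D.simple (ρ i)))) ∧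
    Mp θ (sG (D.rootSubgroup F (D.neg (D.simple i)))) (sG (D.rootSubgroup F (D.neg (D.simple (ρ i))))))
include hD hρ

/-- the image of every root subgroup, with the sign of the root preserved -/
theorem mp_word_sign (i : Fin D.rank) (w : List (Fin D.rank)) :
    w.foldr (fun (i : Fin D.rank) r => D.reflectRoot i r) (D.simple i) < D.nroots ∧
    (w.map ρ).foldr (fun (i : Fin D.rank) r => D.reflectRoot i r) (D.simple (ρ i)) < D.nroots ∧
    Mp θ (sG (D.rootSubgroup F (w.foldr (fun (i : Fin D.rank) r => D.reflectRoot i r) (D.simple i))))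
      (sG (D.rootSubgroup F ((w.map ρ).foldr (fun (i : Fin D.rank) r => D.reflectRoot i r)
        (D.simple (ρ i))))) ∧
    (D.IsPosRoot (w.foldr (fun (i : Fin D.rank) r => D.reflectRoot i r) (D.simple i)) ↔
      D.IsPosRoot ((w.map ρ).foldr (fun (i : Fin D.rank) r => D.reflectRoot i r) (D.simple (ρ i)))) := by
  have b := bundle_of_mem F hD
  obtain ⟨P, n0, ι, S⟩ := sys_of_mem' hD b.hA
  obtain ⟨m1, m2, m3⟩ := S.mp_word hρ i w
  refine ⟨m1, m2, m3, ?_⟩
  clear m1 m2 m3
  induction w with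
  | nil => exact ⟨fun _ => b.hR.simple_pos (ρ i).2, fun _ => b.hR.simple_pos i.2⟩
  | cons k w ih =>
    obtain ⟨h1, h2, h3⟩ := S.mp_word hρ i w
    simp only [List.map_cons, List.foldr_cons]
    set r₁ := w.foldr (fun (i : Fin D.rank) r => D.reflectRoot i r) (D.simple i) with hr₁
    set r₂ := (w.map ρ).foldr (fun (i : Fin D.rank) r => D.reflectRoot i r) (D.simple (ρ i)) with hr₂
    have hnp : ∀ j : Fin D.rank, ¬ D.IsPosRoot (D.neg (D.simple j)) := fun j h =>
      b.hR.not_neg_of_pos h (b.hR.neg_of_pos (b.hR.simple_pos j.2))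
    by_cases e1 : r₁ = D.simple k
    · have e1' : r₂ = D.simple (ρ k) := by
        rw [e1] at h3
        exact sG_root_inj hD h2 (b.hR.simple_lt (ρ k).2) (h3.unique (hρ k).1)
      rw [e1, e1', RootFacts.refl_simple, RootFacts.refl_simple]
      exact ⟨fun h => absurd h (hnp _), fun h => absurd h (hnp _)⟩
    · by_cases e2 : r₁ = D.neg (D.simple k)
      · have e2' : r₂ = D.neg (D.simple (ρ k)) := by
          rw [e2] at h3
          exact sG_root_inj hD h2 (b.hR.neg_lt (b.hR.simple_lt (ρ k).2)) (h3.unique (hρ k).2)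
        rw [e2, e2', b.hR.refl_neg_simple k.2, b.hR.refl_neg_simple (ρ k).2]
        exact ⟨fun _ => b.hR.simple_pos (ρ k).2, fun _ => b.hR.simple_pos k.2⟩
      · have e1' : r₂ ≠ D.simple (ρ k) := by
          intro e
          rw [e] at h3
          exact e1 (sG_root_inj hD h1 (b.hR.simple_lt k.2) (h3.unique_left (hρ k).1))
        have e2' : r₂ ≠ D.neg (D.simple (ρ k)) := by
          intro e
          rw [e] at h3
          exact e2 (sG_root_inj hD h1 (b.hR.neg_lt (b.hR.simple_lt k.2)) (h3.unique_left (hρ k).2))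
        rw [refl_pos_iff b.hR k.2 h1 e1 e2, refl_pos_iff b.hR (ρ k).2 h2 e1' e2']
        exact ih

/-- every root subgroup goes to a root subgroup of the same sign -/
theorem exists_image_root {r : ℕ} (hr : r < D.nroots) : ∃ r' < D.nroots,
    Mp θ (sG (D.rootSubgroup F r)) (sG (D.rootSubgroup F r')) ∧ (D.IsPosRoot r ↔ D.IsPosRoot r') := by
  have b := bundle_of_mem F hD
  obtain ⟨w, j, hw, hj, rfl⟩ := b.hR.exists_word r hr
  have hex : ∃ w' : List (Fin D.rank), w'.map (fun k => k.val) = w := by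
    clear hr
    induction w with
    | nil => exact ⟨[], rfl⟩
    | cons a w ih =>
      obtain ⟨w', e⟩ := ih (fun i hi => hw i (by simp [hi]))
      exact ⟨⟨a, hw a (by simp)⟩ :: w', by simp [e]⟩
  obtain ⟨w', rfl⟩ := hex
  obtain ⟨-, h2, h3, h4⟩ := mp_word_sign hD hρ ⟨j, hj⟩ w'
  have e : wact D (w'.map fun k => k.val) (D.simple j) =
      w'.foldr (fun (i : Fin D.rank) r => D.reflectRoot i r) (D.simple j) := by
    simp only [wact, List.foldr_map]
  rw [e]
  exact ⟨_, h2, h3, h4⟩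

theorem map_pos_le (g : ↥(D.group F)) (hg : (g : GL D.Idx F) ∈ D.posUnipotent F) :
    (θ g : GL D.Idx F) ∈ D.posUnipotent F := by
  have b := bundle_of_mem F hD
  have key : ∀ y ∈ D.posUnipotent F, ∃ hy : y ∈ D.group F, (θ ⟨y, hy⟩ : GL D.Idx F) ∈ D.posUnipotent F := by
    intro y hy
    rw [b.hA.posUnipotent_eq] at hy
    induction hy using Subgroup.closure_induction with
    | mem y hy =>
      obtain ⟨r, t, hr, rfl⟩ := hy
      obtain ⟨r', hr', h1, h2⟩ := exists_image_root hD hρ hr.1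
      refine ⟨b.hA.X_mem_group r t, ?_⟩
      have h3 := mem_sG.1 (h1.mem (g := xG b.hA r t) (mem_sG.2 (b.hA.X_mem_rootSubgroup r t)))
      obtain ⟨t', e⟩ := (b.hA.mem_rootSubgroup_iff _ _).1 h3
      have e' : (θ ⟨b.hA.X r t, b.hA.X_mem_group r t⟩ : GL D.Idx F) = b.hA.X r' t' := e
      rw [e']
      exact b.hA.X_mem_pos (h2.1 hr) t'
    | one => exact ⟨one_mem _, by
        have : (⟨1, one_mem _⟩ : ↥(D.group F)) = 1 := rfl
        rw [this, map_one]; exact one_mem _⟩
    | mul y z _ _ ihy ihz =>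
      obtain ⟨hy, h1⟩ := ihy
      obtain ⟨hz, h2⟩ := ihz
      refine ⟨mul_mem hy hz, ?_⟩
      have : (⟨y * z, mul_mem hy hz⟩ : ↥(D.group F)) = ⟨y, hy⟩ * ⟨z, hz⟩ := rfl
      rw [this, map_mul]
      exact mul_mem h1 h2
    | inv y _ ihy =>
      obtain ⟨hy, h1⟩ := ihy
      refine ⟨inv_mem hy, ?_⟩
      have : (⟨y⁻¹, inv_mem hy⟩ : ↥(D.group F)) = (⟨y, hy⟩ : ↥(D.group F))⁻¹ := rfl
      rw [this, map_inv]
      exact inv_mem h1
  obtain ⟨_, h⟩ := key g hg
  exact h

theorem map_neg_le (g : ↥(D.group F)) (hg : (g : GL D.Idx F) ∈ D.negUnipotent F) :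
    (θ g : GL D.Idx F) ∈ D.negUnipotent F := by
  have b := bundle_of_mem F hD
  have key : ∀ y ∈ D.negUnipotent F, ∃ hy : y ∈ D.group F, (θ ⟨y, hy⟩ : GL D.Idx F) ∈ D.negUnipotent F := by
    intro y hy
    rw [b.hA.negUnipotent_eq] at hy
    induction hy using Subgroup.closure_induction with
    | mem y hy =>
      obtain ⟨r, t, hr, rfl⟩ := hy
      obtain ⟨r', hr', h1, h2⟩ := exists_image_root hD hρ hr.1
      refine ⟨b.hA.X_mem_group r t, ?_⟩
      have h3 := mem_sG.1 (h1.mem (g := xG b.hA r t) (mem_sG.2 (b.hA.X_mem_rootSubgroup r t)))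
      obtain ⟨t', e⟩ := (b.hA.mem_rootSubgroup_iff _ _).1 h3
      have e' : (θ ⟨b.hA.X r t, b.hA.X_mem_group r t⟩ : GL D.Idx F) = b.hA.X r' t' := e
      rw [e']
      refine b.hA.X_mem_neg ?_ t'
      rcases b.hR.pos_or_neg hr' with h4 | h4
      · exact absurd hr (b.hR.not_neg_of_pos (h2.2 h4))
      · exact h4
    | one => exact ⟨one_mem _, by
        have : (⟨1, one_mem _⟩ : ↥(D.group F)) = 1 := rfl
        rw [this, map_one]; exact one_mem _⟩
    | mul y z _ _ ihy ihz =>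
      obtain ⟨hy, h1⟩ := ihy
      obtain ⟨hz, h2⟩ := ihz
      refine ⟨mul_mem hy hz, ?_⟩
      have : (⟨y * z, mul_mem hy hz⟩ : ↥(D.group F)) = ⟨y, hy⟩ * ⟨z, hz⟩ := rfl
      rw [this, map_mul]
      exact mul_mem h1 h2
    | inv y _ ihy =>
      obtain ⟨hy, h1⟩ := ihy
      refine ⟨inv_mem hy, ?_⟩
      have : (⟨y⁻¹, inv_mem hy⟩ : ↥(D.group F)) = (⟨y, hy⟩ : ↥(D.group F))⁻¹ := rfl
      rw [this, map_inv]
      exact inv_mem h1
  obtain ⟨_, h⟩ := key g hg
  exact h

end

/-- **UV**: an automorphism permuting the fundamental root subgroups and their negatives maps `U` onto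
`U` and `V` onto `V`. -/
theorem mp_UV [Finite F] (hD : D ∈ [chevG2, chevB2, chevD4, chevF4, chevE6, chevE7, chevE8])
    {θ : ↥(D.group F) ≃* ↥(D.group F)} {ρ : Equiv.Perm (Fin D.rank)}
    (hρ : ∀ i : Fin D.rank,
      Mp θ (sG (D.rootSubgroup F (D.simple i))) (sG (D.rootSubgroup F (D.simple (ρ i)))) ∧
      Mp θ (sG (D.rootSubgroup F (D.neg (D.simple i)))) (sG (D.rootSubgroup F (D.neg (D.simple (ρ i)))))) :
    Mp θ (sG (D.posUnipotent F)) (sG (D.posUnipotent F)) ∧
      Mp θ (sG (D.negUnipotent F)) (sG (D.negUnipotent F)) := by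
  have hρ' : ∀ i : Fin D.rank,
      Mp θ.symm (sG (D.rootSubgroup F (D.simple i))) (sG (D.rootSubgroup F (D.simple (ρ.symm i)))) ∧
      Mp θ.symm (sG (D.rootSubgroup F (D.neg (D.simple i))))
        (sG (D.rootSubgroup F (D.neg (D.simple (ρ.symm i))))) := by
    intro i
    have h1 := (hρ (ρ.symm i)).1.symm
    have h2 := (hρ (ρ.symm i)).2.symm
    rw [Equiv.apply_symm_apply] at h1 h2
    exact ⟨h1, h2⟩
  constructor
  · intro g
    rw [mem_sG, mem_sG]
    constructor
    · intro h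
      have := map_pos_le hD hρ' _ h
      rwa [MulEquiv.symm_apply_apply] at this
    · exact map_pos_le hD hρ g
  · intro g
    rw [mem_sG, mem_sG]
    constructor
    · intro h
      have := map_neg_le hD hρ' _ h
      rwa [MulEquiv.symm_apply_apply] at this
    · exact map_neg_le hD hρ g

end Cfsg.Agent.Lib.Helper45
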