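import Cfsg.Agent.Lib.Helper45.HighRoot
import Cfsg.Agent.Lib.Helper45.AutOut1
import Cfsg.Agent.Lib.Helper22.AutC
import Cfsg.Agent.Lib.Helper23.ChevAll2

/-!
# The centraliser of a highest root element
-/

set_option autoImplicit false

namespace Cfsg.Agent.Lib.Helper45

open Cfsg.Lie Matrix Cfsg.Agent.Lib.Helper22 Cfsg.Agent.Lib.Helper23

/-- table facts: exactly one fundamental root `p_{j₀}` is not orthogonal to the highest root, and `Jm` contains
the negatives of the others. -/
structure HighData (D : ChevalleyDatum) (Jm : List ℕ) (j₀ : ℕ) : Prop where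
  hj : j₀ < D.rank
  hJ : ∀ i < D.rank, i ≠ j₀ → D.neg (D.simple i) ∈ Jm ∧ D.cartan i (D.nroots - 1) = 0
  hc : D.cartan j₀ (D.nroots - 1) = 1
  hr : D.reflectRoot j₀ (D.nroots - 1) ≠ D.nroots - 1
  hT : ∀ s ∈ Jm, s < D.nroots ∧ s ≠ D.nroots - 1 ∧ s ≠ D.neg (D.nroots - 1) ∧
    D.commTerms (D.nroots - 1) s = []

variable {D : ChevalleyDatum} {F : Type*} [Field F] {Jm : List ℕ} {j₀ : ℕ}

/-- the candidate centraliser -/
def highC (D : ChevalleyDatum) (F : Type*) [Field F] (Jm : List ℕ) : Subgroup (GL D.Idx F) :=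
  D.posUnipotent F ⊔ Subgroup.closure {g : GL D.Idx F | ∃ s ∈ Jm, ∃ c : F, (g : Matrix D.Idx D.Idx F) = D.x F s c}

section
variable (hD : D ∈ [chevG2, chevB2, chevD4, chevF4, chevE6, chevE7, chevE8]) (HD : HighData D Jm j₀)
  (b : Bundle D F)
include hD HD b

theorem highC_le : highC D F Jm ≤ D.group F ⊓ Subgroup.centralizer {b.hA.X (D.nroots - 1) 1} := by
  have hA := b.hA
  apply sup_le
  · intro v hv
    refine Subgroup.mem_inf.2 ⟨hA.pos_le_group hv, ?_⟩
    rw [Subgroup.mem_centralizer_iff]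
    rintro _ rfl
    have := top_central hD hA hv (1 : F)
    exact (mul_inv_eq_iff_eq_mul.1 this).symm
  · rw [Subgroup.closure_le]
    rintro g ⟨s, hs, c, hg⟩
    rw [hA.eq_X_iff] at hg
    subst hg
    refine Subgroup.mem_inf.2 ⟨hA.X_mem_group s c, ?_⟩
    rw [Subgroup.mem_centralizer_iff]
    rintro _ rfl
    obtain ⟨h1, h2, h3, h4⟩ := HD.hT s hs
    apply Units.ext
    simp only [Units.val_mul, hA.coe_X]
    exact X_commute_of_terms hD (top_pos hD).1 h1 h2 h3 h4 1 c

omit hD HD in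
theorem Xpos_mem_highC {r : ℕ} (hr : D.IsPosRoot r) (c : F) : b.hA.X r c ∈ highC D F Jm :=
  Subgroup.mem_sup_left (b.hA.X_mem_pos hr c)

omit hD in
theorem Xneg_mem_highC {i : ℕ} (hi : i < D.rank) (hij : i ≠ j₀) (c : F) :
    b.hA.X (D.neg (D.simple i)) c ∈ highC D F Jm :=
  Subgroup.mem_sup_right (Subgroup.subset_closure ⟨_, (HD.hJ i hi hij).1, c, rfl⟩)

omit hD in
theorem nG_mem_highC {i : ℕ} (hi : i < D.rank) (hij : i ≠ j₀) (c : F) :
    b.hA.nG (D.simple i) c ∈ highC D F Jm :=
  mul_mem (mul_mem (Xpos_mem_highC b (b.hR.simple_pos hi) _) (Xneg_mem_highC HD b hi hij _))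
    (Xpos_mem_highC b (b.hR.simple_pos hi) _)

omit hD in
theorem nword_mem_highC {w : List ℕ} (hw : ∀ i ∈ w, i < D.rank ∧ i ≠ j₀) :
    b.hA.nword w ∈ highC D F Jm := by
  apply Subgroup.list_prod_mem
  intro z hz
  obtain ⟨i, hi, rfl⟩ := List.mem_map.1 hz
  exact nG_mem_highC HD b (hw i hi).1 (hw i hi).2 1

/-- the stabiliser of the highest root in `N` -/
theorem stab_top (k : ℕ) : ∀ (w : List ℕ) (h : GL D.Idx F), w.length = k → (∀ i ∈ w, i < D.rank) →
    h ∈ D.diagonalSubgroup F → wact D w (D.nroots - 1) = D.nroots - 1 →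
    ∃ w' : List ℕ, (∀ i ∈ w', i < D.rank ∧ i ≠ j₀) ∧ ∃ h' ∈ D.diagonalSubgroup F,
      b.hA.nword w * h = b.hA.nword w' * h' := by
  have hA := b.hA
  have hR := b.hR
  have hN := b.hN
  have hr₀ := (top_pos hD).1
  induction k using Nat.strong_induction_on with
  | _ k ih =>
    intro w h hk hw hh hfix
    rcases List.eq_nil_or_concat w with rfl | ⟨u, a, rfl⟩
    · exact ⟨[], by simp, h, hh, rfl⟩
    · rw [List.concat_eq_append] at *
      have hu : ∀ i ∈ u, i < D.rank := fun i hi => hw i (by simp [hi])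
      have ha : a < D.rank := hw a (by simp)
      have hlt : wact D (u ++ [a]) (D.simple a) < D.nroots := hR.wact_lt hw (hR.simple_lt ha)
      rcases hR.pos_or_neg hlt with h1 | h1
      · -- the word is not reduced
        rw [wact_append, wact_cons, wact_nil, RootFacts.refl_simple] at h1
        obtain ⟨u₁, c, v, rfl, h2⟩ := hR.exchange hu (hR.neg_of_pos (hR.simple_pos ha)) h1
        have hu₁ : ∀ i ∈ u₁, i < D.rank := fun i hi => hu i (by simp [hi])
        have hv : ∀ i ∈ v, i < D.rank := fun i hi => hu i (by simp [hi])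
        have hc : c < D.rank := hu c (by simp)
        have h3 : wact D v (D.simple a) = D.simple c := by
          rw [hR.wact_neg hv (hR.simple_lt ha)] at h2
          have := congrArg D.neg h2
          rwa [hR.neg_neg (hR.wact_lt hv (hR.simple_lt ha)), hR.neg_neg (hR.simple_lt hc)] at this
        obtain ⟨ε, hε, h4⟩ := hA.nword_conj_nG hR hN hv (hR.simple_lt ha)
        have h5 := h4 1
        rw [h3, mul_one] at h5
        have h6 : hA.nn c * hA.nG (D.simple c) ε ∈ D.diagonalSubgroup F := by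
          rcases hε with rfl | rfl
          · exact hA.nn_sq_mem hR hc
          · rw [← AddFact.nG_inv, AddFact.nn, mul_inv_cancel]; exact one_mem _
        have h7 : hA.nword (u₁ ++ c :: v ++ [a]) * h = hA.nword (u₁ ++ v) *
            (((hA.nword v)⁻¹ * (hA.nn c * hA.nG (D.simple c) ε) * hA.nword v) * h) := by
          rw [← h5]
          simp only [AddFact.nword_append, AddFact.nword_cons, AddFact.nword_nil, AddFact.nn]
          group
        have h8 : ((hA.nword v)⁻¹ * (hA.nn c * hA.nG (D.simple c) ε) * hA.nword v) * h ∈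
            D.diagonalSubgroup F := mul_mem (hA.nword_inv_conj_diag hR hN hv h6) hh
        have huv : ∀ i ∈ u₁ ++ v, i < D.rank := by
          intro i hi
          rcases List.mem_append.1 hi with hi | hi
          · exact hu₁ i hi
          · exact hv i hi
        have hfix' : wact D (u₁ ++ v) (D.nroots - 1) = D.nroots - 1 := by
          obtain ⟨c₁, hc₁, e₁⟩ := hA.nform_conj hR hN b.hT hw hh hr₀
          obtain ⟨c₂, hc₂, e₂⟩ := hA.nform_conj hR hN b.hT huv h8 hr₀
          have e3 := e₁ 1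
          rw [h7, e₂ 1, hfix] at e3
          exact X_eq_X hD hA (hR.wact_lt huv hr₀) hr₀ (by simpa using hc₂) e3
        have e9 : b.hA.nword (u₁ ++ c :: v ++ [a]) * h = hA.nword (u₁ ++ c :: v ++ [a]) * h := rfl
        rw [e9, h7]
        refine ih (u₁ ++ v).length ?_ (u₁ ++ v) _ rfl huv h8 hfix'
        rw [← hk]; simp
      · -- `a` is orthogonal to the highest root
        set n := hA.nword (u ++ [a]) * h with hn
        obtain ⟨c₁, hc₁, e₁⟩ := hA.nform_conj hR hN b.hT hw hh hr₀
        obtain ⟨c₂, hc₂, e₂⟩ := hA.nform_conj hR hN b.hT hw hh (hR.neg_lt (hR.simple_lt ha))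
        rw [hfix] at e₁
        rw [hR.wact_neg hw (hR.simple_lt ha)] at e₂
        have hcomm : ∀ c : F, hA.X (D.neg (D.simple a)) c * hA.X (D.nroots - 1) 1 =
            hA.X (D.nroots - 1) 1 * hA.X (D.neg (D.simple a)) c := by
          intro c
          have h2 := top_comm hD hA (hR.pos_of_neg h1) (c₂ * c) (c₁ * 1)
          rw [← e₁, ← e₂] at h2
          have h3 : n * (hA.X (D.neg (D.simple a)) c * hA.X (D.nroots - 1) 1) * n⁻¹ =
              n * (hA.X (D.nroots - 1) 1 * hA.X (D.neg (D.simple a)) c) * n⁻¹ := by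
            calc n * (hA.X (D.neg (D.simple a)) c * hA.X (D.nroots - 1) 1) * n⁻¹
                = n * hA.X (D.neg (D.simple a)) c * n⁻¹ * (n * hA.X (D.nroots - 1) 1 * n⁻¹) := by group
              _ = n * hA.X (D.nroots - 1) 1 * n⁻¹ * (n * hA.X (D.neg (D.simple a)) c * n⁻¹) := h2
              _ = _ := by group
          exact mul_left_cancel (mul_right_cancel h3)
        have c1 : Commute (hA.X (D.simple a) 1) (hA.X (D.nroots - 1) 1) :=
          top_comm hD hA (hR.simple_pos ha) 1 1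
        have c2 : Commute (hA.X (D.neg (D.simple a)) (-(1 : F)⁻¹)) (hA.X (D.nroots - 1) 1) := hcomm _
        have c3 : Commute (hA.nn a) (hA.X (D.nroots - 1) 1) := (c1.mul_left c2).mul_left c1
        obtain ⟨ε, ε1, -, ε3⟩ := hA.nn_conj hR hN ha
        have e4 := ε3 _ hr₀ 1
        rw [c3.eq, mul_inv_cancel_right] at e4
        have hrefl : D.reflectRoot a (D.nroots - 1) = D.nroots - 1 :=
          (X_eq_X hD hA hr₀ (hR.refl_lt ha hr₀) one_ne_zero e4).symm
        have haj : a ≠ j₀ := by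
          rintro rfl
          exact HD.hr hrefl
        have hfixu : wact D u (D.nroots - 1) = D.nroots - 1 := by
          rw [wact_append, wact_cons, wact_nil, hrefl] at hfix
          exact hfix
        obtain ⟨w'', hw'', h'', hh'', e5⟩ := ih u.length (by rw [← hk]; simp) u
          (hA.nn a * h * (hA.nn a)⁻¹) rfl hu (hA.nn_conj_diag hR hN ha hh) hfixu
        refine ⟨w'' ++ [a], ?_, (hA.nn a)⁻¹ * h'' * hA.nn a, hA.nn_inv_conj_diag hR hN ha hh'', ?_⟩
        · intro i hi
          rcases List.mem_append.1 hi with hi | hi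
          · exact hw'' i hi
          · simp only [List.mem_cons, List.not_mem_nil, or_false] at hi
            subst hi
            exact ⟨ha, haj⟩
        · have e6 : n = (hA.nword u * (hA.nn a * h * (hA.nn a)⁻¹)) * hA.nn a := by
            rw [hn]
            simp only [AddFact.nword_append, AddFact.nword_cons, AddFact.nword_nil]
            group
          have e7 : hA.nword u * (hA.nn a * h * (hA.nn a)⁻¹) = hA.nword w'' * h'' := e5
          rw [e6, e7]
          show _ = hA.nword (w'' ++ [a]) * _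
          simp only [AddFact.nword_append, AddFact.nword_cons, AddFact.nword_nil]
          group

/-- the action of `∏ h_{p_i}(c_i)` on the highest root subgroup -/
theorem hL_conj (c : ℕ → F) (u : F) : ∀ L : List ℕ, (∀ i ∈ L, i < D.rank ∧ c i ≠ 0) →
    b.hA.W (L.flatMap fun i => D.hWord (D.simple i) (c i)) * b.hA.X (D.nroots - 1) u *
      (b.hA.W (L.flatMap fun i => D.hWord (D.simple i) (c i)))⁻¹ =
      b.hA.X (D.nroots - 1) (c j₀ ^ (L.count j₀) * u) := by
  have hA := b.hA
  intro L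
  induction L with
  | nil => intro _; simp [AddFact.W]
  | cons i L ih =>
    intro hL
    have h1 := ih (fun k hk => hL k (by simp [hk]))
    obtain ⟨hi, hci⟩ := hL i (by simp)
    rw [List.flatMap_cons, AddFact.W_append, AddFact.W_hWord]
    set Wl := b.hA.W (L.flatMap fun i => D.hWord (D.simple i) (c i)) with hWl
    have e : b.hA.hG (D.simple i) (c i) * Wl * b.hA.X (D.nroots - 1) u * (b.hA.hG (D.simple i) (c i) * Wl)⁻¹ =
        b.hA.hG (D.simple i) (c i) * (Wl * b.hA.X (D.nroots - 1) u * Wl⁻¹) * (b.hA.hG (D.simple i) (c i))⁻¹ := by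
      group
    rw [e, h1, (b.hA.hexp_simple (torS_of_mem F hD) hi (c i) hci).2.2 _ (top_pos hD).1]
    beta_reduce
    by_cases hij : i = j₀
    · subst hij
      rw [HD.hc, zpow_one, List.count_cons_self, pow_succ]
      congr 1; ring
    · rw [(HD.hJ i hi hij).2, zpow_zero, one_mul, List.count_cons_of_ne hij]

omit hD in
theorem hL_mem (c : ℕ → F) : ∀ L : List ℕ, (∀ i ∈ L, i < D.rank ∧ (i ≠ j₀ ∨ c i = 1)) →
    b.hA.W (L.flatMap fun i => D.hWord (D.simple i) (c i)) ∈ highC D F Jm := by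
  intro L
  induction L with
  | nil => intro _; simp [AddFact.W]
  | cons i L ih =>
    intro hL
    have h1 := ih (fun k hk => hL k (by simp [hk]))
    obtain ⟨hi, hci⟩ := hL i (by simp)
    rw [List.flatMap_cons, AddFact.W_append, AddFact.W_hWord]
    refine mul_mem ?_ h1
    rcases hci with hij | hc1
    · exact mul_mem (nG_mem_highC HD b hi hij _) (nG_mem_highC HD b hi hij _)
    · rw [hc1, AddFact.hG_one]; exact one_mem _

/-- the centraliser of the highest root element `x_{r₀}(1)` -/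
theorem high_cent (P : BruhatPack D F) :
    D.group F ⊓ Subgroup.centralizer {b.hA.X (D.nroots - 1) 1} = highC D F Jm := by
  have hA := b.hA
  have hr₀ := (top_pos hD).1
  apply le_antisymm _ (highC_le hD HD b)
  intro g hg
  obtain ⟨hgG, hgZ⟩ := Subgroup.mem_inf.1 hg
  set t := b.hA.X (D.nroots - 1) 1 with ht
  set Z := Subgroup.centralizer ({t} : Set (GL D.Idx F)) with hZ
  have hCZ : highC D F Jm ≤ Z := (highC_le hD HD b).trans inf_le_right
  have hconj : ∀ z ∈ Z, z * t * z⁻¹ = t := by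
    intro z hz
    have := Subgroup.mem_centralizer_iff.1 hz t rfl
    rw [← this]; group
  obtain ⟨x, hx, n, hn, u, hu, rfl⟩ := P.ex g hgG
  have huU := Umin_le_pos hA n hu
  have huC : u ∈ highC D F Jm := Subgroup.mem_sup_left huU
  obtain ⟨c₁, hc₁, e₁⟩ := borel_conj_top hD b (inv_mem hx)
  have h1 : n * t * n⁻¹ = b.hA.X (D.nroots - 1) (c₁ * 1) := by
    rw [← e₁ 1]
    have h2 := hconj _ hgZ
    have h3 := hconj _ (hCZ huC)
    calc n * t * n⁻¹ = n * (u * t * u⁻¹) * n⁻¹ := by rw [h3]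
      _ = x⁻¹ * (x * n * u * t * (x * n * u)⁻¹) * x⁻¹⁻¹ := by group
      _ = _ := by rw [h2]
  obtain ⟨w, h, hw, hh, rfl⟩ := hA.mono_nform b.hR b.hN hn
  obtain ⟨c₂, hc₂, e₂⟩ := hA.nform_conj b.hR b.hN b.hT hw hh hr₀
  have hfix : wact D w (D.nroots - 1) = D.nroots - 1 := by
    have e3 : hA.X (wact D w (D.nroots - 1)) (c₂ * 1) = hA.X (D.nroots - 1) (c₁ * 1) := by
      rw [← e₂ 1]; exact h1
    exact X_eq_X hD hA (b.hR.wact_lt hw hr₀) hr₀ (by simpa using hc₂) e3
  obtain ⟨w', hw', h', hh', e4⟩ := stab_top hD HD b _ w h rfl hw hh hfix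
  have e4' : hA.nword w * h = hA.nword w' * h' := e4
  have hw'r : ∀ i ∈ w', i < D.rank := fun i hi => (hw' i hi).1
  obtain ⟨v, hv, h₁, hh₁, rfl⟩ := (hA.mem_borel_iff b.hT).1 hx
  have hvC : v ∈ highC D F Jm := Subgroup.mem_sup_left hv
  have hnC : hA.nword w' ∈ highC D F Jm := nword_mem_highC HD b hw'
  set h₂ := h₁ * (hA.nword w' * h' * (hA.nword w')⁻¹) with hh₂
  have hh₂H : h₂ ∈ D.diagonalSubgroup F := mul_mem hh₁ (hA.nword_conj_diag b.hR b.hN hw'r hh')
  have eg : v * h₁ * (hA.nword w * h) * u = v * h₂ * hA.nword w' * u := by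
    rw [e4', hh₂]; group
  rw [eg] at hgZ ⊢
  have hh₂Z : h₂ ∈ Z := by
    have : h₂ = v⁻¹ * (v * h₂ * hA.nword w' * u) * u⁻¹ * (hA.nword w')⁻¹ := by group
    rw [this]
    exact mul_mem (mul_mem (mul_mem (inv_mem (hCZ hvC)) hgZ) (inv_mem (hCZ huC))) (inv_mem (hCZ hnC))
  obtain ⟨c, hc0, ec⟩ := P.hH h₂ hh₂H
  rw [hA.eq_W_iff] at ec
  have hcj : c j₀ = 1 := by
    have e5 := hL_conj hD HD b c 1 (List.range D.rank)
      (fun i hi => ⟨List.mem_range.1 hi, hc0 i (List.mem_range.1 hi)⟩)
    have e6 : b.hA.W ((List.range D.rank).flatMap fun i => D.hWord (D.simple i) (c i)) = h₂ := ec.symm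
    rw [e6, List.count_eq_one_of_mem List.nodup_range (List.mem_range.2 HD.hj), pow_one, mul_one,
      hconj _ hh₂Z] at e5
    have e7 : hA.X (D.nroots - 1) (c j₀ - 1) = 1 := by
      rw [sub_eq_add_neg, hA.X_add, ← hA.X_inv]
      have : hA.X (D.nroots - 1) (c j₀) = hA.X (D.nroots - 1) 1 := e5.symm
      rw [this, mul_inv_cancel]
    exact sub_eq_zero.1 (hA.X_eq_one b.hTri hr₀ e7)
  have hh₂C : h₂ ∈ highC D F Jm := by
    rw [ec]
    apply hL_mem HD b c
    intro i hi
    refine ⟨List.mem_range.1 hi, ?_⟩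
    by_cases hij : i = j₀
    · right; rw [hij, hcj]
    · left; exact hij
  exact mul_mem (mul_mem (mul_mem hvC hh₂C) hnC) huC

end

end Cfsg.Agent.Lib.Helper45
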