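import Cfsg.Agent.Lib.Helper45.HighCent

/-!
# The centraliser of a root element `x_{r₀}(1)` whose root subgroup is central in `U`
(generalises `HighCent` to e.g. the highest short root in characteristic two)
-/

set_option autoImplicit false

namespace Cfsg.Agent.Lib.Helper45

open Cfsg.Lie Matrix Cfsg.Agent.Lib.Helper22 Cfsg.Agent.Lib.Helper23

/-- `X_{r₀}` is central in `U`, exactly one fundamental root `p_{j₀}` is not orthogonal to `r₀`, and `Jm`
contains the negatives of the others, whose root subgroups centralise `x_{r₀}(1)`. -/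
structure CenData (D : ChevalleyDatum) (F : Type*) [Field F] (hA : AddFact D F) (r₀ : ℕ) (Jm : List ℕ)
    (j₀ : ℕ) : Prop where
  hr₀ : D.IsPosRoot r₀
  hj : j₀ < D.rank
  hJ : ∀ i < D.rank, i ≠ j₀ → D.neg (D.simple i) ∈ Jm ∧ D.cartan i r₀ = 0
  hc : D.cartan j₀ r₀ = 1
  hr : D.reflectRoot j₀ r₀ ≠ r₀
  hU : ∀ r, D.IsPosRoot r → ∀ t u : F, hA.X r t * hA.X r₀ u = hA.X r₀ u * hA.X r t
  hT : ∀ s ∈ Jm, ∀ c : F, hA.X r₀ 1 * hA.X s c = hA.X s c * hA.X r₀ 1

variable {D : ChevalleyDatum} {F : Type*} [Field F] {Jm : List ℕ} {j₀ r₀ : ℕ}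

theorem cen_central (hA : AddFact D F) (hU : ∀ r, D.IsPosRoot r → ∀ t u : F, hA.X r t * hA.X r₀ u = hA.X r₀ u * hA.X r t)
    {v : GL D.Idx F} (hv : v ∈ D.posUnipotent F) (u : F) :
    v * hA.X r₀ u * v⁻¹ = hA.X r₀ u := by
  have hle : D.posUnipotent F ≤ Subgroup.centralizer {hA.X r₀ u} := by
    rw [hA.posUnipotent_eq, Subgroup.closure_le]
    rintro _ ⟨r, t, hr, rfl⟩
    rw [SetLike.mem_coe, Subgroup.mem_centralizer_iff]
    rintro _ rfl
    exact (hU r hr t u).symm
  have := Subgroup.mem_centralizer_iff.1 (hle hv) _ rfl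
  rw [← this]; group

theorem borel_conj_cen (b : Bundle D F) (hr₀ : r₀ < D.nroots)
    (hU : ∀ r, D.IsPosRoot r → ∀ t u : F, b.hA.X r t * b.hA.X r₀ u = b.hA.X r₀ u * b.hA.X r t)
    {x : GL D.Idx F} (hx : x ∈ D.borelSubgroup F) :
    ∃ c : F, c ≠ 0 ∧ ∀ u, x * b.hA.X r₀ u * x⁻¹ = b.hA.X r₀ (c * u) := by
  have hA := b.hA
  obtain ⟨v, hv, h, hh, rfl⟩ := (hA.mem_borel_iff b.hT).1 hx
  obtain ⟨χ, hχ⟩ := hA.diag_isTor b.hT hh
  refine ⟨χ r₀, hχ.1 _, fun u => ?_⟩
  have e : v * h * hA.X r₀ u * (v * h)⁻¹ = v * (h * hA.X r₀ u * h⁻¹) * v⁻¹ := by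
    group
  have e' : b.hA.X r₀ u = hA.X r₀ u := rfl
  rw [e', e, hχ.2.2 _ hr₀, cen_central hA hU hv]

section
variable (hD : D ∈ [chevG2, chevB2, chevD4, chevF4, chevE6, chevE7, chevE8]) (b : Bundle D F)
  (HD : CenData D F b.hA r₀ Jm j₀)
include hD b HD

omit hD in
theorem cenC_le : highC D F Jm ≤ D.group F ⊓ Subgroup.centralizer {b.hA.X r₀ 1} := by
  have hA := b.hA
  apply sup_le
  · intro v hv
    refine Subgroup.mem_inf.2 ⟨hA.pos_le_group hv, ?_⟩
    rw [Subgroup.mem_centralizer_iff]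
    rintro _ rfl
    have := cen_central hA HD.hU hv (1 : F)
    exact (mul_inv_eq_iff_eq_mul.1 this).symm
  · rw [Subgroup.closure_le]
    rintro g ⟨s, hs, c, hg⟩
    rw [hA.eq_X_iff] at hg
    subst hg
    refine Subgroup.mem_inf.2 ⟨hA.X_mem_group s c, ?_⟩
    rw [Subgroup.mem_centralizer_iff]
    rintro _ rfl
    exact HD.hT s hs c

omit hD in
theorem Xneg_mem_cenC {i : ℕ} (hi : i < D.rank) (hij : i ≠ j₀) (c : F) :
    b.hA.X (D.neg (D.simple i)) c ∈ highC D F Jm :=
  Subgroup.mem_sup_right (Subgroup.subset_closure ⟨_, (HD.hJ i hi hij).1, c, rfl⟩)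

omit hD in
theorem nG_mem_cenC {i : ℕ} (hi : i < D.rank) (hij : i ≠ j₀) (c : F) :
    b.hA.nG (D.simple i) c ∈ highC D F Jm :=
  mul_mem (mul_mem (Xpos_mem_highC b (b.hR.simple_pos hi) _) (Xneg_mem_cenC b HD hi hij _))
    (Xpos_mem_highC b (b.hR.simple_pos hi) _)

omit hD in
theorem nword_mem_cenC {w : List ℕ} (hw : ∀ i ∈ w, i < D.rank ∧ i ≠ j₀) :
    b.hA.nword w ∈ highC D F Jm := by
  apply Subgroup.list_prod_mem
  intro z hz
  obtain ⟨i, hi, rfl⟩ := List.mem_map.1 hz
  exact nG_mem_cenC b HD (hw i hi).1 (hw i hi).2 1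

/-- the stabiliser of the highest root in `N` -/
theorem stab_cen (k : ℕ) : ∀ (w : List ℕ) (h : GL D.Idx F), w.length = k → (∀ i ∈ w, i < D.rank) →
    h ∈ D.diagonalSubgroup F → wact D w r₀ = r₀ →
    ∃ w' : List ℕ, (∀ i ∈ w', i < D.rank ∧ i ≠ j₀) ∧ ∃ h' ∈ D.diagonalSubgroup F,
      b.hA.nword w * h = b.hA.nword w' * h' := by
  have hA := b.hA
  have hR := b.hR
  have hN := b.hN
  have hr₀ := HD.hr₀.1
  induction k using Nat.strong_induction_on with
  | _ k ih =>
    intro w h hk hw hh hfix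
    rcases List.eq_nil_or_concat w with rfl | ⟨u, a, rfl⟩
    · exact ⟨[], by simp, h, hh, rfl⟩
    · rw [List.concat_eq_append] at *
      have hu : ∀ i ∈ u, i < D.rank := fun i hi => hw i (by simp [hi])
      have ha : a < D.rank := hw a (by simp)
      have hlt : wact D (u ++ [a]) (D.simple a) < D.nroots := hR.wact_lt hw (hR.simple_lt ha)
      rcases hR.pos_or_neg hlt with h1 | h1
      · -- the word is not reduced
        rw [wact_append, wact_cons, wact_nil, RootFacts.refl_simple] at h1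
        obtain ⟨u₁, c, v, rfl, h2⟩ := hR.exchange hu (hR.neg_of_pos (hR.simple_pos ha)) h1
        have hu₁ : ∀ i ∈ u₁, i < D.rank := fun i hi => hu i (by simp [hi])
        have hv : ∀ i ∈ v, i < D.rank := fun i hi => hu i (by simp [hi])
        have hc : c < D.rank := hu c (by simp)
        have h3 : wact D v (D.simple a) = D.simple c := by
          rw [hR.wact_neg hv (hR.simple_lt ha)] at h2
          have := congrArg D.neg h2
          rwa [hR.neg_neg (hR.wact_lt hv (hR.simple_lt ha)), hR.neg_neg (hR.simple_lt hc)] at this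
        obtain ⟨ε, hε, h4⟩ := hA.nword_conj_nG hR hN hv (hR.simple_lt ha)
        have h5 := h4 1
        rw [h3, mul_one] at h5
        have h6 : hA.nn c * hA.nG (D.simple c) ε ∈ D.diagonalSubgroup F := by
          rcases hε with rfl | rfl
          · exact hA.nn_sq_mem hR hc
          · rw [← AddFact.nG_inv, AddFact.nn, mul_inv_cancel]; exact one_mem _
        have h7 : hA.nword (u₁ ++ c :: v ++ [a]) * h = hA.nword (u₁ ++ v) *
            (((hA.nword v)⁻¹ * (hA.nn c * hA.nG (D.simple c) ε) * hA.nword v) * h) := by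
          rw [← h5]
          simp only [AddFact.nword_append, AddFact.nword_cons, AddFact.nword_nil, AddFact.nn]
          group
        have h8 : ((hA.nword v)⁻¹ * (hA.nn c * hA.nG (D.simple c) ε) * hA.nword v) * h ∈
            D.diagonalSubgroup F := mul_mem (hA.nword_inv_conj_diag hR hN hv h6) hh
        have huv : ∀ i ∈ u₁ ++ v, i < D.rank := by
          intro i hi
          rcases List.mem_append.1 hi with hi | hi
          · exact hu₁ i hi
          · exact hv i hi
        have hfix' : wact D (u₁ ++ v) r₀ = r₀ := by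
          obtain ⟨c₁, hc₁, e₁⟩ := hA.nform_conj hR hN b.hT hw hh hr₀
          obtain ⟨c₂, hc₂, e₂⟩ := hA.nform_conj hR hN b.hT huv h8 hr₀
          have e3 := e₁ 1
          rw [h7, e₂ 1, hfix] at e3
          exact X_eq_X hD hA (hR.wact_lt huv hr₀) hr₀ (by simpa using hc₂) e3
        have e9 : b.hA.nword (u₁ ++ c :: v ++ [a]) * h = hA.nword (u₁ ++ c :: v ++ [a]) * h := rfl
        rw [e9, h7]
        refine ih (u₁ ++ v).length ?_ (u₁ ++ v) _ rfl huv h8 hfix'
        rw [← hk]; simp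
      · -- `a` is orthogonal to the highest root
        set n := hA.nword (u ++ [a]) * h with hn
        obtain ⟨c₁, hc₁, e₁⟩ := hA.nform_conj hR hN b.hT hw hh hr₀
        obtain ⟨c₂, hc₂, e₂⟩ := hA.nform_conj hR hN b.hT hw hh (hR.neg_lt (hR.simple_lt ha))
        rw [hfix] at e₁
        rw [hR.wact_neg hw (hR.simple_lt ha)] at e₂
        have hcomm : ∀ c : F, hA.X (D.neg (D.simple a)) c * hA.X r₀ 1 =
            hA.X r₀ 1 * hA.X (D.neg (D.simple a)) c := by
          intro c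
          have h2 := HD.hU _ (hR.pos_of_neg h1) (c₂ * c) (c₁ * 1)
          rw [← e₁, ← e₂] at h2
          have h3 : n * (hA.X (D.neg (D.simple a)) c * hA.X r₀ 1) * n⁻¹ =
              n * (hA.X r₀ 1 * hA.X (D.neg (D.simple a)) c) * n⁻¹ := by
            calc n * (hA.X (D.neg (D.simple a)) c * hA.X r₀ 1) * n⁻¹
                = n * hA.X (D.neg (D.simple a)) c * n⁻¹ * (n * hA.X r₀ 1 * n⁻¹) := by group
              _ = n * hA.X r₀ 1 * n⁻¹ * (n * hA.X (D.neg (D.simple a)) c * n⁻¹) := h2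
              _ = _ := by group
          exact mul_left_cancel (mul_right_cancel h3)
        have c1 : Commute (hA.X (D.simple a) 1) (hA.X r₀ 1) :=
          HD.hU _ (hR.simple_pos ha) 1 1
        have c2 : Commute (hA.X (D.neg (D.simple a)) (-(1 : F)⁻¹)) (hA.X r₀ 1) := hcomm _
        have c3 : Commute (hA.nn a) (hA.X r₀ 1) := (c1.mul_left c2).mul_left c1
        obtain ⟨ε, ε1, -, ε3⟩ := hA.nn_conj hR hN ha
        have e4 := ε3 _ hr₀ 1
        rw [c3.eq, mul_inv_cancel_right] at e4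
        have hrefl : D.reflectRoot a r₀ = r₀ :=
          (X_eq_X hD hA hr₀ (hR.refl_lt ha hr₀) one_ne_zero e4).symm
        have haj : a ≠ j₀ := by
          rintro rfl
          exact HD.hr hrefl
        have hfixu : wact D u r₀ = r₀ := by
          rw [wact_append, wact_cons, wact_nil, hrefl] at hfix
          exact hfix
        obtain ⟨w'', hw'', h'', hh'', e5⟩ := ih u.length (by rw [← hk]; simp) u
          (hA.nn a * h * (hA.nn a)⁻¹) rfl hu (hA.nn_conj_diag hR hN ha hh) hfixu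
        refine ⟨w'' ++ [a], ?_, (hA.nn a)⁻¹ * h'' * hA.nn a, hA.nn_inv_conj_diag hR hN ha hh'', ?_⟩
        · intro i hi
          rcases List.mem_append.1 hi with hi | hi
          · exact hw'' i hi
          · simp only [List.mem_cons, List.not_mem_nil, or_false] at hi
            subst hi
            exact ⟨ha, haj⟩
        · have e6 : n = (hA.nword u * (hA.nn a * h * (hA.nn a)⁻¹)) * hA.nn a := by
            rw [hn]
            simp only [AddFact.nword_append, AddFact.nword_cons, AddFact.nword_nil]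
            group
          have e7 : hA.nword u * (hA.nn a * h * (hA.nn a)⁻¹) = hA.nword w'' * h'' := e5
          rw [e6, e7]
          show _ = hA.nword (w'' ++ [a]) * _
          simp only [AddFact.nword_append, AddFact.nword_cons, AddFact.nword_nil]
          group

/-- the action of `∏ h_{p_i}(c_i)` on the highest root subgroup -/
theorem hL_conj_cen (c : ℕ → F) (u : F) : ∀ L : List ℕ, (∀ i ∈ L, i < D.rank ∧ c i ≠ 0) →
    b.hA.W (L.flatMap fun i => D.hWord (D.simple i) (c i)) * b.hA.X r₀ u *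
      (b.hA.W (L.flatMap fun i => D.hWord (D.simple i) (c i)))⁻¹ =
      b.hA.X r₀ (c j₀ ^ (L.count j₀) * u) := by
  have hA := b.hA
  intro L
  induction L with
  | nil => intro _; simp [AddFact.W]
  | cons i L ih =>
    intro hL
    have h1 := ih (fun k hk => hL k (by simp [hk]))
    obtain ⟨hi, hci⟩ := hL i (by simp)
    rw [List.flatMap_cons, AddFact.W_append, AddFact.W_hWord]
    set Wl := b.hA.W (L.flatMap fun i => D.hWord (D.simple i) (c i)) with hWl
    have e : b.hA.hG (D.simple i) (c i) * Wl * b.hA.X r₀ u * (b.hA.hG (D.simple i) (c i) * Wl)⁻¹ =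
        b.hA.hG (D.simple i) (c i) * (Wl * b.hA.X r₀ u * Wl⁻¹) * (b.hA.hG (D.simple i) (c i))⁻¹ := by
      group
    rw [e, h1, (b.hA.hexp_simple (torS_of_mem F hD) hi (c i) hci).2.2 _ HD.hr₀.1]
    beta_reduce
    by_cases hij : i = j₀
    · subst hij
      rw [HD.hc, zpow_one, List.count_cons_self, pow_succ]
      congr 1; ring
    · rw [(HD.hJ i hi hij).2, zpow_zero, one_mul, List.count_cons_of_ne hij]

omit hD in
theorem hL_mem_cen (c : ℕ → F) : ∀ L : List ℕ, (∀ i ∈ L, i < D.rank ∧ (i ≠ j₀ ∨ c i = 1)) →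
    b.hA.W (L.flatMap fun i => D.hWord (D.simple i) (c i)) ∈ highC D F Jm := by
  intro L
  induction L with
  | nil => intro _; simp [AddFact.W]
  | cons i L ih =>
    intro hL
    have h1 := ih (fun k hk => hL k (by simp [hk]))
    obtain ⟨hi, hci⟩ := hL i (by simp)
    rw [List.flatMap_cons, AddFact.W_append, AddFact.W_hWord]
    refine mul_mem ?_ h1
    rcases hci with hij | hc1
    · exact mul_mem (nG_mem_cenC b HD hi hij _) (nG_mem_cenC b HD hi hij _)
    · rw [hc1, AddFact.hG_one]; exact one_mem _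

/-- the centraliser of the highest root element `x_{r₀}(1)` -/
theorem cen_eq (P : BruhatPack D F) :
    D.group F ⊓ Subgroup.centralizer {b.hA.X r₀ 1} = highC D F Jm := by
  have hA := b.hA
  have hr₀ := HD.hr₀.1
  apply le_antisymm _ (cenC_le b HD)
  intro g hg
  obtain ⟨hgG, hgZ⟩ := Subgroup.mem_inf.1 hg
  set t := b.hA.X r₀ 1 with ht
  set Z := Subgroup.centralizer ({t} : Set (GL D.Idx F)) with hZ
  have hCZ : highC D F Jm ≤ Z := (cenC_le b HD).trans inf_le_right
  have hconj : ∀ z ∈ Z, z * t * z⁻¹ = t := by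
    intro z hz
    have := Subgroup.mem_centralizer_iff.1 hz t rfl
    rw [← this]; group
  obtain ⟨x, hx, n, hn, u, hu, rfl⟩ := P.ex g hgG
  have huU := Umin_le_pos hA n hu
  have huC : u ∈ highC D F Jm := Subgroup.mem_sup_left huU
  obtain ⟨c₁, hc₁, e₁⟩ := borel_conj_cen b HD.hr₀.1 HD.hU (inv_mem hx)
  have h1 : n * t * n⁻¹ = b.hA.X r₀ (c₁ * 1) := by
    rw [← e₁ 1]
    have h2 := hconj _ hgZ
    have h3 := hconj _ (hCZ huC)
    calc n * t * n⁻¹ = n * (u * t * u⁻¹) * n⁻¹ := by rw [h3]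
      _ = x⁻¹ * (x * n * u * t * (x * n * u)⁻¹) * x⁻¹⁻¹ := by group
      _ = _ := by rw [h2]
  obtain ⟨w, h, hw, hh, rfl⟩ := hA.mono_nform b.hR b.hN hn
  obtain ⟨c₂, hc₂, e₂⟩ := hA.nform_conj b.hR b.hN b.hT hw hh hr₀
  have hfix : wact D w r₀ = r₀ := by
    have e3 : hA.X (wact D w r₀) (c₂ * 1) = hA.X r₀ (c₁ * 1) := by
      rw [← e₂ 1]; exact h1
    exact X_eq_X hD hA (b.hR.wact_lt hw hr₀) hr₀ (by simpa using hc₂) e3
  obtain ⟨w', hw', h', hh', e4⟩ := stab_cen hD b HD _ w h rfl hw hh hfix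
  have e4' : hA.nword w * h = hA.nword w' * h' := e4
  have hw'r : ∀ i ∈ w', i < D.rank := fun i hi => (hw' i hi).1
  obtain ⟨v, hv, h₁, hh₁, rfl⟩ := (hA.mem_borel_iff b.hT).1 hx
  have hvC : v ∈ highC D F Jm := Subgroup.mem_sup_left hv
  have hnC : hA.nword w' ∈ highC D F Jm := nword_mem_cenC b HD hw'
  set h₂ := h₁ * (hA.nword w' * h' * (hA.nword w')⁻¹) with hh₂
  have hh₂H : h₂ ∈ D.diagonalSubgroup F := mul_mem hh₁ (hA.nword_conj_diag b.hR b.hN hw'r hh')
  have eg : v * h₁ * (hA.nword w * h) * u = v * h₂ * hA.nword w' * u := by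
    rw [e4', hh₂]; group
  rw [eg] at hgZ ⊢
  have hh₂Z : h₂ ∈ Z := by
    have : h₂ = v⁻¹ * (v * h₂ * hA.nword w' * u) * u⁻¹ * (hA.nword w')⁻¹ := by group
    rw [this]
    exact mul_mem (mul_mem (mul_mem (inv_mem (hCZ hvC)) hgZ) (inv_mem (hCZ huC))) (inv_mem (hCZ hnC))
  obtain ⟨c, hc0, ec⟩ := P.hH h₂ hh₂H
  rw [hA.eq_W_iff] at ec
  have hcj : c j₀ = 1 := by
    have e5 := hL_conj_cen hD b HD c 1 (List.range D.rank)
      (fun i hi => ⟨List.mem_range.1 hi, hc0 i (List.mem_range.1 hi)⟩)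
    have e6 : b.hA.W ((List.range D.rank).flatMap fun i => D.hWord (D.simple i) (c i)) = h₂ := ec.symm
    rw [e6, List.count_eq_one_of_mem List.nodup_range (List.mem_range.2 HD.hj), pow_one, mul_one,
      hconj _ hh₂Z] at e5
    have e7 : hA.X r₀ (c j₀ - 1) = 1 := by
      rw [sub_eq_add_neg, hA.X_add, ← hA.X_inv]
      have : hA.X r₀ (c j₀) = hA.X r₀ 1 := e5.symm
      rw [this, mul_inv_cancel]
    exact sub_eq_zero.1 (hA.X_eq_one b.hTri hr₀ e7)
  have hh₂C : h₂ ∈ highC D F Jm := by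
    rw [ec]
    apply hL_mem_cen b HD c
    intro i hi
    refine ⟨List.mem_range.1 hi, ?_⟩
    by_cases hij : i = j₀
    · right; rw [hij, hcj]
    · left; exact hij
  exact mul_mem (mul_mem (mul_mem hvC hh₂C) hnC) huC

end

/-- root elements commute when all the coefficients of the commutator formula vanish in `F` -/
theorem X_commute_of_coeff (hD : D ∈ [chevG2, chevB2, chevD4, chevF4, chevE6, chevE7, chevE8])
    (hA : AddFact D F) {r s : ℕ} (hr : r < D.nroots) (hs : s < D.nroots) (h1 : s ≠ r) (h2 : s ≠ D.neg r)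
    (h3 : ∀ c ∈ D.commTerms r s, ((c.2.1 : ℤ) : F) = 0) (t u : F) :
    hA.X r t * hA.X s u = hA.X s u * hA.X r t := by
  have := Cfsg.Agent.S1025.result (F := F) D hD r s hr hs h1 h2 t u
  have hw : D.wordMat F (D.commWord F r s t u) = 1 := by
    unfold ChevalleyDatum.commWord ChevalleyDatum.wordMat
    rw [List.map_map]
    apply List.prod_eq_one
    intro z hz
    obtain ⟨c, hc, rfl⟩ := List.mem_map.1 hz
    simp only [Function.comp_apply, h3 c hc, zero_mul]
    rw [← hA.coe_X, hA.X_zero]; rfl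
  rw [hw, mul_one] at this
  apply Units.ext
  simp only [Units.val_mul, hA.coe_X]
  exact this.symm

theorem cenData_of_high (hD : D ∈ [chevG2, chevB2, chevD4, chevF4, chevE6, chevE7, chevE8])
    (hA : AddFact D F) (HD : HighData D Jm j₀) : CenData D F hA (D.nroots - 1) Jm j₀ where
  hr₀ := top_pos hD
  hj := HD.hj
  hJ := HD.hJ
  hc := HD.hc
  hr := HD.hr
  hU := fun _ hr t u => top_comm hD hA hr t u
  hT := fun s hs c => by
    obtain ⟨h1, h2, h3, h4⟩ := HD.hT s hs
    exact X_commute_of_coeff hD hA (top_pos hD).1 h1 h2 h3 (by rw [h4]; simp) 1 c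

/-- `highC` for a list of three roots -/
theorem highC_three (a₁ a₂ a₃ : ℕ) : highC D F [a₁, a₂, a₃] =
    D.posUnipotent F ⊔ D.rootSubgroup F a₁ ⊔ D.rootSubgroup F a₂ ⊔ D.rootSubgroup F a₃ := by
  unfold highC ChevalleyDatum.rootSubgroup
  rw [sup_assoc, sup_assoc, ← Subgroup.closure_union, ← Subgroup.closure_union]
  congr 2
  ext g
  simp only [List.mem_cons, List.not_mem_nil, or_false, Set.mem_ofPred_eq, Set.mem_union]
  constructor
  · rintro ⟨s, rfl | rfl | rfl, c, h⟩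
    · exact Or.inl ⟨c, h⟩
    · exact Or.inr (Or.inl ⟨c, h⟩)
    · exact Or.inr (Or.inr ⟨c, h⟩)
  · rintro (⟨c, h⟩ | ⟨c, h⟩ | ⟨c, h⟩)
    · exact ⟨_, Or.inl rfl, c, h⟩
    · exact ⟨_, Or.inr (Or.inl rfl), c, h⟩
    · exact ⟨_, Or.inr (Or.inr rfl), c, h⟩

end Cfsg.Agent.Lib.Helper45
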