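import Cfsg.Agent.Lib.Helper45.HighTab
import Cfsg.Agent.Lib.Helper22.BruhatAll
import Cfsg.Agent.S1027

/-!
# The root subgroup of the highest root
-/

set_option autoImplicit false

namespace Cfsg.Agent.Lib.Helper45

open Cfsg.Lie Matrix Cfsg.Agent.Lib.Helper22 Cfsg.Agent.Lib.Helper23

variable {D : ChevalleyDatum} {F : Type*} [Field F]

theorem top_pos (hD : D ∈ [chevG2, chevB2, chevD4, chevF4, chevE6, chevE7, chevE8]) :
    D.IsPosRoot (D.nroots - 1) := by
  simp only [List.mem_cons, List.not_mem_nil, or_false] at hD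
  rcases hD with rfl | rfl | rfl | rfl | rfl | rfl | rfl <;> decide +kernel

/-- positive root elements commute with the elements of the highest root subgroup -/
theorem top_comm (hD : D ∈ [chevG2, chevB2, chevD4, chevF4, chevE6, chevE7, chevE8]) (hA : AddFact D F)
    {r : ℕ} (hr : D.IsPosRoot r) (t u : F) :
    hA.X r t * hA.X (D.nroots - 1) u = hA.X (D.nroots - 1) u * hA.X r t := by
  by_cases h : r = D.nroots - 1
  · rw [h, ← hA.X_add, ← hA.X_add, add_comm]
  · obtain ⟨w, hw, e⟩ := (uComm_of_mem F hD).comm r (D.nroots - 1) hr (top_pos hD) h t u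
    have hw0 : w = [] := by
      rw [List.eq_nil_iff_forall_not_mem]
      intro p hp
      obtain ⟨h1, -, h3⟩ := hw p hp
      have := h1.1
      omega
    rw [hw0] at e
    apply Units.ext
    simp only [Units.val_mul, hA.coe_X]
    rw [e]
    simp [ChevalleyDatum.wordMat]

theorem top_central (hD : D ∈ [chevG2, chevB2, chevD4, chevF4, chevE6, chevE7, chevE8]) (hA : AddFact D F)
    {v : GL D.Idx F} (hv : v ∈ D.posUnipotent F) (u : F) :
    v * hA.X (D.nroots - 1) u * v⁻¹ = hA.X (D.nroots - 1) u := by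
  have hle : D.posUnipotent F ≤ Subgroup.centralizer {hA.X (D.nroots - 1) u} := by
    rw [hA.posUnipotent_eq, Subgroup.closure_le]
    rintro _ ⟨r, t, hr, rfl⟩
    rw [SetLike.mem_coe, Subgroup.mem_centralizer_iff]
    rintro _ rfl
    exact (top_comm hD hA hr t u).symm
  have := Subgroup.mem_centralizer_iff.1 (hle hv) _ rfl
  rw [← this]; group

theorem borel_conj_top (hD : D ∈ [chevG2, chevB2, chevD4, chevF4, chevE6, chevE7, chevE8])
    (b : Bundle D F) {x : GL D.Idx F} (hx : x ∈ D.borelSubgroup F) :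
    ∃ c : F, c ≠ 0 ∧ ∀ u, x * b.hA.X (D.nroots - 1) u * x⁻¹ = b.hA.X (D.nroots - 1) (c * u) := by
  have hA := b.hA
  obtain ⟨v, hv, h, hh, rfl⟩ := (hA.mem_borel_iff b.hT).1 hx
  obtain ⟨χ, hχ⟩ := hA.diag_isTor b.hT hh
  refine ⟨χ (D.nroots - 1), hχ.1 _, fun u => ?_⟩
  have e : v * h * hA.X (D.nroots - 1) u * (v * h)⁻¹ = v * (h * hA.X (D.nroots - 1) u * h⁻¹) * v⁻¹ := by
    group
  have e' : b.hA.X (D.nroots - 1) u = hA.X (D.nroots - 1) u := rfl
  rw [e', e, hχ.2.2 _ (top_pos hD).1, top_central hD hA hv]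

/-- conjugation maps root subgroups to root subgroups -/
theorem map_rootSubgroup (hA : AddFact D F) {m : GL D.Idx F} {r s : ℕ} {c : F} (hc : c ≠ 0)
    (h : ∀ t, m * hA.X r t * m⁻¹ = hA.X s (c * t)) :
    (D.rootSubgroup F r).map (MulAut.conj m).toMonoidHom = D.rootSubgroup F s := by
  ext y
  constructor
  · rintro ⟨x, hx, rfl⟩
    obtain ⟨τ, rfl⟩ := (hA.mem_rootSubgroup_iff r x).1 hx
    show m * hA.X r τ * m⁻¹ ∈ _
    rw [h]
    exact hA.X_mem_rootSubgroup s _
  · intro hy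
    obtain ⟨τ, rfl⟩ := (hA.mem_rootSubgroup_iff s y).1 hy
    refine ⟨hA.X r (c⁻¹ * τ), hA.X_mem_rootSubgroup r _, ?_⟩
    show m * hA.X r (c⁻¹ * τ) * m⁻¹ = _
    rw [h, mul_inv_cancel_left₀ hc]

theorem map_conj_conj {A : Type*} [Group A] (H : Subgroup A) (x y : A) :
    (H.map (MulAut.conj y).toMonoidHom).map (MulAut.conj x).toMonoidHom =
      H.map (MulAut.conj (x * y)).toMonoidHom := by
  rw [Subgroup.map_map]
  congr 1
  ext z
  simp [mul_assoc]

theorem map_conj_one {A : Type*} [Group A] (H : Subgroup A) :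
    H.map (MulAut.conj (1 : A)).toMonoidHom = H := by
  ext z
  simp

theorem isPGroup_pos [Fintype F] (p : ℕ) [Fact p.Prime] [CharP F p]
    (hD : D ∈ [chevG2, chevB2, chevD4, chevF4, chevE6, chevE7, chevE8]) :
    IsPGroup p ↥(D.posUnipotent F) := by
  obtain ⟨k, -, hk⟩ := FiniteField.card F p
  apply IsPGroup.of_card (n := (k : ℕ) * (D.nroots / 2))
  rw [pow_mul, ← hk]
  exact Cfsg.Agent.S1027.result D hD

/-- two conjugates of the highest root subgroup generate a `p`-group or a conjugate of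
`⟨X_{r₀}, X_{-r₀}⟩`. -/
theorem top_pair [Fintype F] (p : ℕ) [Fact p.Prime] [CharP F p]
    (hD : D ∈ [chevG2, chevB2, chevD4, chevF4, chevE6, chevE7, chevE8])
    (g : GL D.Idx F) (hg : g ∈ D.group F) :
    IsPGroup p ↥(D.rootSubgroup F (D.nroots - 1) ⊔
      (D.rootSubgroup F (D.nroots - 1)).map (MulAut.conj g).toMonoidHom) ∨
    ∃ h ∈ D.group F, (D.rootSubgroup F (D.nroots - 1) ⊔
      (D.rootSubgroup F (D.nroots - 1)).map (MulAut.conj g).toMonoidHom).map (MulAut.conj h).toMonoidHom =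
        D.rootSubgroup F (D.nroots - 1) ⊔ D.rootSubgroup F 0 := by
  have b := bundle_of_mem F hD
  have P := bruhatPack_of_mem F hD
  have hA := b.hA
  obtain ⟨x, hx, n, hn, u, hu, rfl⟩ := P.ex g hg
  have huB : u ∈ D.borelSubgroup F := AddFact.pos_le_borel (Umin_le_pos hA n hu)
  obtain ⟨c₁, hc₁, e₁⟩ := borel_conj_top hD b huB
  obtain ⟨c₂, hc₂, e₂⟩ := borel_conj_top hD b hx
  obtain ⟨π, hπ, hact⟩ := mono_act hA b.hR b.hN b.hT hn
  obtain ⟨c₃, hc₃, e₃⟩ := hact _ (top_pos hD).1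
  set r₀ := D.nroots - 1 with hr₀
  set s := π r₀ with hs
  have hslt : s < D.nroots := hπ _ (top_pos hD).1
  have m₁ := map_rootSubgroup hA hc₁ e₁
  have m₂ := map_rootSubgroup hA hc₂ e₂
  have m₃ := map_rootSubgroup hA hc₃ e₃
  have key : D.rootSubgroup F r₀ ⊔ (D.rootSubgroup F r₀).map (MulAut.conj (x * n * u)).toMonoidHom =
      (D.rootSubgroup F r₀ ⊔ D.rootSubgroup F s).map (MulAut.conj x).toMonoidHom := by
    rw [Subgroup.map_sup, m₂, ← map_conj_conj, m₁, ← map_conj_conj, m₃]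
  rw [key]
  by_cases hs0 : s = 0
  · right
    refine ⟨x⁻¹, inv_mem (hA.borel_le_group hx), ?_⟩
    rw [map_conj_conj, inv_mul_cancel, map_conj_one, hs0]
  · left
    obtain ⟨w, hw, hp1, hp2⟩ := bothPos_of_mem hD s hslt hs0
    obtain ⟨ε₁, hε₁, f₁, -⟩ := hA.nword_conj b.hR b.hN hw (top_pos hD).1
    obtain ⟨ε₂, hε₂, f₂, -⟩ := hA.nword_conj b.hR b.hN hw hslt
    have hne : ∀ ε : F, (ε = 1 ∨ ε = -1) → ε ≠ 0 := by
      rintro ε (rfl | rfl) <;> simp
    have k₁ := map_rootSubgroup hA (hne _ hε₁) f₁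
    have k₂ := map_rootSubgroup hA (hne _ hε₂) f₂
    have hle : (D.rootSubgroup F r₀ ⊔ D.rootSubgroup F s).map (MulAut.conj (hA.nword w)).toMonoidHom ≤
        D.posUnipotent F := by
      rw [Subgroup.map_sup, k₁, k₂]
      apply sup_le
      · intro y hy
        obtain ⟨τ, rfl⟩ := (hA.mem_rootSubgroup_iff _ y).1 hy
        exact hA.X_mem_pos hp1 _
      · intro y hy
        obtain ⟨τ, rfl⟩ := (hA.mem_rootSubgroup_iff _ y).1 hy
        exact hA.X_mem_pos hp2 _
    have h1 := (isPGroup_pos p hD (F := F)).to_le hle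
    have h2 := h1.map (MulAut.conj (x * (hA.nword w)⁻¹)).toMonoidHom
    rw [map_conj_conj, inv_mul_cancel_right] at h2
    exact h2

end Cfsg.Agent.Lib.Helper45
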