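import Cfsg.Agent.Lib.Helper23.ChevAll

/-!
# Every root other than the lowest one lies in a common positive system with the highest root
-/

set_option autoImplicit false
set_option maxRecDepth 1000000
set_option maxHeartbeats 0

namespace Cfsg.Agent.Lib.Helper45

open Cfsg.Lie Cfsg.Agent.Lib.Helper22 Cfsg.Agent.Lib.Helper23

/-- for every root `s` other than the lowest one some Weyl word makes the highest root and `s` positive -/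
def BothPos (D : ChevalleyDatum) : Prop :=
  ∀ s < D.nroots, s ≠ 0 → ∃ w : List ℕ, (∀ i ∈ w, i < D.rank) ∧
    D.IsPosRoot (wact D w (D.nroots - 1)) ∧ D.IsPosRoot (wact D w s)

theorem bothPos_of_fast {T : Tb} {NT SI : ℕ} {D : ChevalleyDatum} (V : T.Valid D)
    (Fa : NFacts T NT SI D) (Fr : FastRoot T NT SI D) (cert : List (List ℕ))
    (h : ∀ s < T.n, s ≠ 0 → (∀ i ∈ cert.getD s [], i < T.l) ∧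
      T.n ≤ 2 * wactT T.n NT (cert.getD s []) (T.n - 1) ∧ T.n ≤ 2 * wactT T.n NT (cert.getD s []) s) :
    BothPos D := by
  intro s hs hs0
  have hs' : s < T.n := V.hn ▸ hs
  obtain ⟨h1, h2, h3⟩ := h s hs' hs0
  refine ⟨cert.getD s [], fun i hi => V.hl ▸ h1 i hi, ?_, ?_⟩
  · have hlt : T.n - 1 < T.n := by omega
    obtain ⟨e1, e2⟩ := wactT_lt_and_eq Fa h1 hlt
    have e3 : wact D (cert.getD s []) (T.n - 1) = wactT T.n NT (cert.getD s []) (T.n - 1) := e2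
    rw [← V.hn, e3, (Fr.half _ e1).1]
    exact h2
  · obtain ⟨e1, e2⟩ := wactT_lt_and_eq Fa h1 hs'
    have e3 : wact D (cert.getD s []) s = wactT T.n NT (cert.getD s []) s := e2
    rw [e3, (Fr.half _ e1).1]
    exact h3

theorem bothPosG2 : BothPos chevG2 :=
  bothPos_of_fast tbG2_valid ntG2_facts ntG2_fast
    [[], [1, 0], [0, 1, 0], [0, 1], [0], [1], [], [], [], [], [], []]
    (by decide +kernel)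

theorem bothPosB2 : BothPos chevB2 :=
  bothPos_of_fast tbB2_valid ntB2_facts ntB2_fast
    [[], [0, 1], [0], [1], [], [], [], []]
    (by decide +kernel)

theorem bothPosD4 : BothPos chevD4 :=
  bothPos_of_fast tbD4_valid ntD4_facts ntD4_fast
    [[], [3, 1, 2, 0], [2, 1, 0], [3, 1, 0], [1, 0], [0], [3, 1, 2], [2, 1], [3, 1], [1], [2], [3], [], [], [], [], [], [], [], [], [], [], [], []]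
    (by decide +kernel)

theorem bothPosF4 : BothPos chevF4 :=
  bothPos_of_fast tbF4_valid ntF4_facts ntF4_fast
    [[], [3, 2, 1, 2, 0, 1, 2], [3, 2, 1, 2, 0, 1], [1, 2, 3, 0, 1, 2, 1, 0], [3, 2, 1, 2, 0], [3, 2, 1, 0], [2, 1, 0], [1, 2, 3, 0, 1, 2, 1], [1, 2, 3, 0, 1, 2], [1, 2, 3, 0, 1], [1, 2, 0, 1], [1, 2, 3, 0], [1, 2, 0], [1, 0], [0], [3, 2, 1, 2], [3, 2, 1], [2, 1], [1, 2, 3], [1, 2], [1], [3, 2], [2], [3], [], [], [], [], [], [], [], [], [], [], [], [], [], [], [], [], [], [], [], [], [], [], [], []]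
    (by decide +kernel)

theorem bothPosE6 : BothPos chevE6 :=
  bothPos_of_fast tbE6_valid ntE6_facts ntE6_fast
    [[], [5, 4, 3, 2, 1, 3, 4, 0, 2, 3], [5, 4, 3, 2, 1, 3, 4, 0, 2], [5, 4, 3, 2, 1, 3, 0, 2], [4, 3, 2, 1, 3, 0, 2], [5, 4, 3, 2, 1, 3, 4, 0], [5, 4, 3, 2, 1, 3, 0], [4, 3, 2, 1, 3, 0], [5, 4, 3, 2, 1, 0], [4, 3, 2, 1, 0], [3, 2, 1, 0], [5, 4, 3, 2, 0], [4, 3, 2, 0], [3, 2, 0], [2, 0], [0], [5, 4, 3, 2, 1, 3, 4], [5, 4, 3, 2, 1, 3], [4, 3, 2, 1, 3], [5, 4, 3, 2, 1], [4, 3, 2, 1], [3, 2, 1], [5, 4, 3, 1], [4, 3, 1], [3, 1], [1], [5, 4, 3, 2], [4, 3, 2], [3, 2], [2], [5, 4, 3], [4, 3], [3], [5, 4], [4], [5], [], [], [], [], [], [], [], [], [], [], [], [], [], [], [], [], [], [], [], [], [], [], [], [], [], [], [], [], [], [], [], [], [], [], [],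 []]
    (by decide +kernel)

theorem bothPosE7 : BothPos chevE7 :=
  bothPos_of_fast tbE7_valid ntE7_facts ntE7_fast
    [[], [6, 5, 4, 3, 2, 1, 3, 4, 5, 0, 2, 3, 4, 1, 3, 2], [6, 5, 4, 3, 2, 1, 3, 4, 5, 0, 2, 3, 4, 1, 3], [6, 5, 4, 3, 2, 1, 3, 4, 5, 0, 2, 3, 4, 1], [6, 5, 4, 3, 2, 1, 3, 4, 5, 0, 2, 3, 1], [6, 5, 4, 3, 2, 1, 3, 4, 0, 2, 3, 1], [5, 4, 3, 2, 1, 3, 4, 0, 2, 3, 1], [6, 5, 4, 3, 2, 1, 3, 4, 5, 0, 2, 3, 4], [6, 5, 4, 3, 2, 1, 3, 4, 5, 0, 2, 3], [6, 5, 4, 3, 2, 1, 3, 4, 0, 2, 3], [5, 4, 3, 2, 1, 3, 4, 0, 2, 3], [6, 5, 4, 3, 2, 1, 3, 4, 5, 0, 2], [6, 5, 4, 3, 2, 1, 3, 4, 0, 2], [5, 4, 3, 2, 1, 3, 4, 0, 2], [6, 5, 4, 3, 2, 1, 3, 0, 2], [5, 4, 3, 2, 1, 3, 0, 2], [4, 3, 2, 1, 3, 0, 2], [6, 5, 4, 3, 2, 1, 3, 4, 5, 0], [6, 5, 4, 3, 2, 1, 3, 4, 0], [5, 4,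 3, 2, 1, 3, 4, 0], [6, 5, 4, 3, 2, 1, 3, 0], [5, 4, 3, 2, 1, 3, 0], [4, 3, 2, 1, 3, 0], [6, 5, 4, 3, 2, 1, 0], [5, 4, 3, 2, 1, 0], [4, 3, 2, 1, 0], [3, 2, 1, 0], [6, 5, 4, 3, 2, 0], [5, 4, 3, 2, 0], [4, 3, 2, 0], [3, 2, 0], [2, 0], [0], [6, 5, 4, 3, 2, 1, 3, 4, 5], [6, 5, 4, 3, 2, 1, 3, 4], [5, 4, 3, 2, 1, 3, 4], [6, 5, 4, 3, 2, 1, 3], [5, 4, 3, 2, 1, 3], [4, 3, 2, 1, 3], [6, 5, 4, 3, 2, 1], [5, 4, 3, 2, 1], [4, 3, 2, 1], [3, 2, 1], [6, 5, 4, 3, 1], [5, 4, 3, 1], [4, 3, 1], [3, 1], [1], [6, 5, 4, 3, 2], [5, 4, 3, 2], [4, 3, 2], [3, 2], [2], [6, 5, 4, 3], [5, 4, 3], [4, 3], [3], [6, 5, 4], [5, 4], [4], [6, 5], [5], [6], [], [], [], [], [], [], [], [], [], [], [], [], [], [], [], [], [], [], [], [], [], [], [], [], [], [], [], [], [], [], [], [], [], [], [],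 [], [], [], [], [], [], [], [], [], [], [], [], [], [], [], [], [], [], [], [], [], [], [], [], [], [], [], []]
    (by decide +kernel)

theorem bothPosE8 : BothPos chevE8 :=
  bothPos_of_fast tbE8_valid ntE8_facts ntE8_fast
    [[], [7, 6, 5, 4, 3, 2, 1, 3, 4, 5, 6, 0, 2, 3, 4, 5, 1, 3, 4, 2, 3, 0, 2, 1, 3, 4, 5, 6], [7, 6, 5, 4, 3, 2, 1, 3, 4, 5, 6, 0, 2, 3, 4, 5, 1, 3, 4, 2, 3, 0, 2, 1, 3, 4, 5], [7, 6, 5, 4, 3, 2, 1, 3, 4, 5, 6, 0, 2, 3, 4, 5, 1, 3, 4, 2, 3, 0, 2, 1, 3, 4], [7, 6, 5, 4, 3, 2, 1, 3, 4, 5, 6, 0, 2, 3, 4, 5, 1, 3, 4, 2, 3, 0, 2, 1, 3], [7, 6, 5, 4, 3, 2, 1, 3, 4, 5, 6, 0, 2, 3, 4, 5, 1, 3, 4, 2, 3, 0, 2, 1], [7, 6, 5, 4, 3, 2, 1, 3, 4, 5, 6, 0, 2, 3, 4, 5, 1, 3, 4, 2, 3, 1, 0], [7, 6, 5, 4, 3, 2, 1, 3, 4, 5, 6, 0, 2, 3, 4, 5, 1, 3, 4, 2, 3,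 0, 2], [7, 6, 5, 4, 3, 2, 1, 3, 4, 5, 6, 0, 2, 3, 4, 5, 1, 3, 4, 2, 3, 0], [7, 6, 5, 4, 3, 2, 1, 3, 4, 5, 6, 0, 2, 3, 4, 5, 1, 3, 4, 2, 0], [7, 6, 5, 4, 3, 2, 1, 3, 4, 5, 6, 0, 2, 3, 4, 5, 1, 3, 2, 0], [7, 6, 5, 4, 3, 2, 1, 3, 4, 5, 6, 0, 2, 3, 4, 1, 3, 2, 0], [7, 6, 5, 4, 3, 2, 1, 3, 4, 5, 0, 2, 3, 4, 1, 3, 2, 0], [6, 5, 4, 3, 2, 1, 3, 4, 5, 0, 2, 3, 4, 1, 3, 2, 0], [7, 6, 5, 4, 3, 2, 1, 3, 4, 5, 6, 0, 2, 3, 4, 5, 1, 3, 4, 2, 3, 1], [7, 6, 5, 4, 3, 2, 1, 3, 4, 5, 6, 0, 2, 3, 4, 5, 1, 3, 4, 2, 3], [7, 6, 5, 4, 3, 2, 1, 3, 4, 5, 6, 0, 2, 3, 4, 5, 1, 3, 4, 2], [7, 6, 5, 4, 3, 2, 1, 3, 4, 5, 6, 0, 2, 3, 4, 5, 1, 3, 2], [7, 6, 5, 4, 3, 2, 1, 3, 4, 5, 6, 0, 2, 3, 4, 1, 3, 2], [7, 6, 5, 4, 3, 2, 1, 3, 4, 5, 0, 2, 3, 4, 1, 3, 2], [6, 5, 4, 3, 2, 1, 3, 4, 5, 0, 2,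 3, 4, 1, 3, 2], [7, 6, 5, 4, 3, 2, 1, 3, 4, 5, 6, 0, 2, 3, 4, 5, 1, 3, 4], [7, 6, 5, 4, 3, 2, 1, 3, 4, 5, 6, 0, 2, 3, 4, 5, 1, 3], [7, 6, 5, 4, 3, 2, 1, 3, 4, 5, 6, 0, 2, 3, 4, 1, 3], [7, 6, 5, 4, 3, 2, 1, 3, 4, 5, 0, 2, 3, 4, 1, 3], [6, 5, 4, 3, 2, 1, 3, 4, 5, 0, 2, 3, 4, 1, 3], [7, 6, 5, 4, 3, 2, 1, 3, 4, 5, 6, 0, 2, 3, 4, 5, 1], [7, 6, 5, 4, 3, 2, 1, 3, 4, 5, 6, 0, 2, 3, 4, 1], [7, 6, 5, 4, 3, 2, 1, 3, 4, 5, 0, 2, 3, 4, 1], [6, 5, 4, 3, 2, 1, 3, 4, 5, 0, 2, 3, 4, 1], [7, 6, 5, 4, 3, 2, 1, 3, 4, 5, 6, 0, 2, 3, 1], [7, 6, 5, 4, 3, 2, 1, 3, 4, 5, 0, 2, 3, 1], [6, 5, 4, 3, 2, 1, 3, 4, 5, 0, 2, 3, 1], [7, 6, 5, 4, 3, 2, 1, 3, 4, 0, 2, 3, 1], [6, 5, 4, 3, 2, 1, 3, 4, 0, 2, 3, 1], [5, 4, 3, 2, 1, 3, 4, 0, 2, 3, 1], [7, 6, 5, 4, 3, 2, 1, 3, 4, 5, 6, 0, 2, 3, 4,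 5], [7, 6, 5, 4, 3, 2, 1, 3, 4, 5, 6, 0, 2, 3, 4], [7, 6, 5, 4, 3, 2, 1, 3, 4, 5, 0, 2, 3, 4], [6, 5, 4, 3, 2, 1, 3, 4, 5, 0, 2, 3, 4], [7, 6, 5, 4, 3, 2, 1, 3, 4, 5, 6, 0, 2, 3], [7, 6, 5, 4, 3, 2, 1, 3, 4, 5, 0, 2, 3], [6, 5, 4, 3, 2, 1, 3, 4, 5, 0, 2, 3], [7, 6, 5, 4, 3, 2, 1, 3, 4, 0, 2, 3], [6, 5, 4, 3, 2, 1, 3, 4, 0, 2, 3], [5, 4, 3, 2, 1, 3, 4, 0, 2, 3], [7, 6, 5, 4, 3, 2, 1, 3, 4, 5, 6, 0, 2], [7, 6, 5, 4, 3, 2, 1, 3, 4, 5, 0, 2], [6, 5, 4, 3, 2, 1, 3, 4, 5, 0, 2], [7, 6, 5, 4, 3, 2, 1, 3, 4, 0, 2], [6, 5, 4, 3, 2, 1, 3, 4, 0, 2], [5, 4, 3, 2, 1, 3, 4, 0, 2], [7, 6, 5, 4, 3, 2, 1, 3, 0, 2], [6, 5, 4, 3, 2, 1, 3, 0, 2], [5, 4, 3, 2, 1, 3, 0, 2], [4, 3, 2, 1, 3, 0, 2], [7, 6, 5, 4, 3, 2, 1, 3, 4, 5, 6, 0], [7, 6, 5, 4, 3, 2, 1, 3, 4, 5, 0], [6, 5, 4,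 3, 2, 1, 3, 4, 5, 0], [7, 6, 5, 4, 3, 2, 1, 3, 4, 0], [6, 5, 4, 3, 2, 1, 3, 4, 0], [5, 4, 3, 2, 1, 3, 4, 0], [7, 6, 5, 4, 3, 2, 1, 3, 0], [6, 5, 4, 3, 2, 1, 3, 0], [5, 4, 3, 2, 1, 3, 0], [4, 3, 2, 1, 3, 0], [7, 6, 5, 4, 3, 2, 1, 0], [6, 5, 4, 3, 2, 1, 0], [5, 4, 3, 2, 1, 0], [4, 3, 2, 1, 0], [3, 2, 1, 0], [7, 6, 5, 4, 3, 2, 0], [6, 5, 4, 3, 2, 0], [5, 4, 3, 2, 0], [4, 3, 2, 0], [3, 2, 0], [2, 0], [0], [7, 6, 5, 4, 3, 2, 1, 3, 4, 5, 6], [7, 6, 5, 4, 3, 2, 1, 3, 4, 5], [6, 5, 4, 3, 2, 1, 3, 4, 5], [7, 6, 5, 4, 3, 2, 1, 3, 4], [6, 5, 4, 3, 2, 1, 3, 4], [5, 4, 3, 2, 1, 3, 4], [7, 6, 5, 4, 3, 2, 1, 3], [6, 5, 4, 3, 2, 1, 3], [5, 4, 3, 2, 1, 3], [4, 3, 2, 1, 3], [7, 6, 5, 4, 3, 2, 1], [6, 5, 4, 3, 2, 1], [5, 4, 3, 2, 1], [4, 3, 2, 1], [3, 2, 1], [7, 6, 5, 4, 3, 1],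 [6, 5, 4, 3, 1], [5, 4, 3, 1], [4, 3, 1], [3, 1], [1], [7, 6, 5, 4, 3, 2], [6, 5, 4, 3, 2], [5, 4, 3, 2], [4, 3, 2], [3, 2], [2], [7, 6, 5, 4, 3], [6, 5, 4, 3], [5, 4, 3], [4, 3], [3], [7, 6, 5, 4], [6, 5, 4], [5, 4], [4], [7, 6, 5], [6, 5], [5], [7, 6], [6], [7], [], [], [], [], [], [], [], [], [], [], [], [], [], [], [], [], [], [], [], [], [], [], [], [], [], [], [], [], [], [], [], [], [], [], [], [], [], [], [], [], [], [], [], [], [], [], [], [], [], [], [], [], [], [], [], [], [], [], [], [], [], [], [], [], [], [], [], [], [], [], [], [], [], [], [], [], [], [], [], [], [], [], [], [], [], [], [], [], [], [], [], [], [], [], [], [], [], [], [], [], [], [], [], [], [], [], [], [], [], [], [], [], [], [], [], [], [], [], [], []]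
    (by decide +kernel)

theorem bothPos_of_mem {D : ChevalleyDatum}
    (hD : D ∈ [chevG2, chevB2, chevD4, chevF4, chevE6, chevE7, chevE8]) : BothPos D := by
  simp only [List.mem_cons, List.not_mem_nil, or_false] at hD
  rcases hD with rfl | rfl | rfl | rfl | rfl | rfl | rfl
  · exact bothPosG2
  · exact bothPosB2
  · exact bothPosD4
  · exact bothPosF4
  · exact bothPosE6
  · exact bothPosE7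
  · exact bothPosE8

end Cfsg.Agent.Lib.Helper45
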