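import Cfsg.Agent.Lib.Helper45.StW0
import Cfsg.Agent.Lib.Lead.Mil.FIN
import Cfsg.Agent.Lib.Helper57.WAPC
import Cfsg.Agent.S2395

/-!
# From lifts of the cover to the triviality of the multiplier of the Steinberg group
-/

set_option autoImplicit false

namespace Cfsg.Agent.Lib.Helper45.StW

open Cfsg Cfsg.Lie Matrix Cfsg.Agent.Lib.Helper22 Cfsg.Agent.Lib.Helper23 Cfsg.Agent.Lib.Helper45
  Cfsg.Agent.Lib.Helper23.StP Cfsg.Agent.Lib.Helper45.StV

universe u

variable {D : ChevalleyDatum} {K : Type u} [Field K]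

/-- [FINST] -/
theorem finite_st [Finite K] (hD : D ∈ [chevG2, chevB2, chevD4, chevF4, chevE6, chevE7, chevE8]) :
    Finite (D.SteinbergGroup K) := by
  have hA := addFact_of_mem K hD
  have T := stTab_of_mem hD
  let S := sysGroup hD hA
  have h3 := sysGroup_R3 hD hA
  -- the kernel is finite
  have hker : Finite S.θ.ker := by
    let f : (Fin D.rank → K) → D.SteinbergGroup K :=
      fun c => S.hW D.rank (fun i => if h : i < D.rank then c ⟨i, h⟩ else 1)
    have hsub : (S.θ.ker : Set (D.SteinbergGroup K)) ⊆ Set.range f := by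
      intro z hz
      have hz' : z ∈ S.π.ker := by
        rw [MonoidHom.mem_ker, ← S.coe_θ, MonoidHom.mem_ker.1 hz]; rfl
      obtain ⟨c, -, rfl⟩ := StSys.R3.exists_hW hD T h3 (S.ker_le_Hb hD T hz')
      refine ⟨fun i => c i, S.hW_congr fun i hi => ?_⟩
      rw [dif_pos hi]
    exact (Set.finite_range f).subset hsub
  apply Nat.finite_of_card_ne_zero
  rw [← Subgroup.card_mul_index S.θ.ker, Subgroup.index_ker]
  exact mul_ne_zero Finite.card_pos.ne' Finite.card_pos.ne'

/-- [ASM] -/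
theorem st_mult_of_lift [Finite K] (hD : D ∈ [chevG2, chevB2, chevD4, chevF4, chevE6, chevE7, chevE8])
    (hK : D ∈ [chevB2, chevG2] → ∃ x : K, x ≠ 0 ∧ x ≠ 1) (hA : AddFact D K)
    (H : ∀ (E : Type u) [Group E] (ρ : E →* GL D.Idx K), ρ.ker ≤ Subgroup.center E →
      (∀ g ∈ D.group K, ∃ e, ρ e = g) →
      ∃ τ : D.SteinbergCover K →* E, ∀ x, ρ (τ x) = (sysCover hD hA).π x) :
    HasCyclicSchurMultiplier (D.SteinbergGroup K) 1 := by
  have T := stTab_of_mem hD
  haveI := finite_st (K := K) hD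
  obtain ⟨e, he⟩ := cover_equiv (K := K) hD
  let S := sysGroup hD hA
  let Sc := sysCover hD hA
  have hperfC : commutator (D.SteinbergCover K) = ⊤ := Cfsg.Agent.S2395.result D hD hK
  have hperf : commutator (D.SteinbergGroup K) = ⊤ := by
    apply wa_perfect_of_stem e.symm.toMonoidHom e.symm.surjective _ hperfC
    intro x hx
    have : e.symm x = 1 := hx
    rw [(MulEquiv.map_eq_one_iff e.symm).1 this]
    exact one_mem _
  apply Cfsg.Agent.Lib.Helper9.hasTrivialMultiplier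
  intro Γ _ _ σ hσ
  obtain ⟨hs, hc, hk⟩ := hσ
  let ρ : Γ →* GL D.Idx K := S.π.comp σ
  have cen : ρ.ker ≤ Subgroup.center Γ := perfect_central σ hs hc hk hperf S.π (S.ker_le_center hD T)
  have lift : ∀ g ∈ D.group K, ∃ x, ρ x = g := by
    intro g hg
    obtain ⟨y, hy⟩ := S.θ_surjective ⟨g, hg⟩
    obtain ⟨x, rfl⟩ := hs y
    refine ⟨x, ?_⟩
    show S.π (σ x) = g
    rw [← S.coe_θ, hy]
  obtain ⟨τ, hτ⟩ := H Γ ρ cen lift
  have hπ : Sc.π = S.π.comp e.toMonoidHom := by
    apply PresentedGroup.ext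
    rintro ⟨⟨r, hr⟩, t⟩
    rw [of_eq_X hD hA hr]
    show Sc.π (Sc.X r t) = S.π (e (Sc.X r t))
    rw [Sc.hπ, sysCover_X, he, ← sysGroup_X hD hA, S.hπ]
  have hsec : σ.comp (τ.comp e.symm.toMonoidHom) = MonoidHom.id _ := by
    apply perfect_unique hperf S.π (S.ker_le_center hD T)
    apply MonoidHom.ext
    intro y
    show S.π (σ (τ (e.symm y))) = S.π y
    have h1 : S.π (σ (τ (e.symm y))) = Sc.π (e.symm y) := hτ _
    rw [h1, hπ]
    show S.π (e (e.symm y)) = S.π y
    rw [MulEquiv.apply_symm_apply]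
  exact Cfsg.Agent.Lib.Lead.Mil.stem_trivial_of_section σ ⟨hs, hc, hk⟩ _ hsec

end Cfsg.Agent.Lib.Helper45.StW
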