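import Cfsg.Agent.Lib.Helper22.BruhatAll
import Cfsg.Agent.Lib.Helper22.FieldFix2
import Cfsg.Agent.Lib.Helper23.ChevCore

set_option autoImplicit false

namespace Cfsg.Agent.Lib.Helper45
open Cfsg.Lie Matrix Cfsg.Agent.Lib.Helper23 Cfsg.Agent.Lib.Helper22

variable {D : ChevalleyDatum} {F : Type*} [Field F]

/-- an element of `G` conjugating every `x_r(1)`, `r` positive, into `B` lies in `B`. -/
theorem mem_borel_of_conj_one (b : Bundle D F) (P : BruhatPack D F) {g : GL D.Idx F} (hg : g ∈ D.group F)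
    (hc : ∀ r, D.IsPosRoot r → g * b.hA.X r 1 * g⁻¹ ∈ D.borelSubgroup F) : g ∈ D.borelSubgroup F := by
  have hA := b.hA
  obtain ⟨b₁, hb₁, n, hn, u, hu, rfl⟩ := P.ex g hg
  have huU := Umin_le_pos hA n hu
  by_cases hnH : n ∈ D.diagonalSubgroup F
  · exact mul_mem (mul_mem hb₁ (AddFact.diag_le_borel hnH)) (AddFact.pos_le_borel huU)
  · exfalso
    obtain ⟨w, h, hw, hh, rfl⟩ := hA.mono_nform b.hR b.hN hn
    have h1 : ¬ ∀ r, D.IsPosRoot r → ∀ t, (hA.nword w * h) * hA.X r t * (hA.nword w * h)⁻¹ ∈ D.borelSubgroup F :=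
      fun hall => hnH (hA.mem_diag_of_conj_pos b.hR b.hN b.hT b.hTri _ w h rfl hw hh hall)
    push Not at h1
    obtain ⟨r, hr, t, hrt⟩ := h1
    obtain ⟨c, hc0, hconj⟩ := hA.nform_conj b.hR b.hN b.hT hw hh hr.1
    rw [hconj] at hrt
    have hneg : D.IsNegRoot (wact D w r) := by
      rcases b.hR.pos_or_neg (b.hR.wact_lt hw hr.1) with h2 | h2
      · exact absurd (AddFact.pos_le_borel (hA.X_mem_pos h2 _)) hrt
      · exact h2
    set n := hA.nword w * h with hndef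
    have hx : hA.X r 1 ∈ Umin D F n := by
      apply Subgroup.subset_closure
      refine ⟨r, 1, hr, ?_, rfl⟩
      rintro z ⟨y, hy, rfl⟩
      obtain ⟨τ, rfl⟩ := (hA.mem_rootSubgroup_iff r y).1 hy
      show n * hA.X r τ * n⁻¹ ∈ D.negUnipotent F
      rw [hconj]
      exact hA.X_mem_neg hneg _
    have hy : u * hA.X r 1 * u⁻¹ ∈ Umin D F n := mul_mem (mul_mem hu hx) (inv_mem hu)
    have h2 := conj_Umin_le_neg hA n hy
    have h3 : n * (u * hA.X r 1 * u⁻¹) * n⁻¹ ∈ D.borelSubgroup F := by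
      have h4 : n * (u * hA.X r 1 * u⁻¹) * n⁻¹ = b₁⁻¹ * (b₁ * n * u * hA.X r 1 * (b₁ * n * u)⁻¹) * b₁ := by group
      rw [h4]
      exact mul_mem (mul_mem (inv_mem hb₁) (hc r hr)) hb₁
    have h5 : n * (u * hA.X r 1 * u⁻¹) * n⁻¹ ∈ D.borelSubgroup F ⊓ D.negUnipotent F := ⟨h3, h2⟩
    rw [b.hTri.BV, Subgroup.mem_bot] at h5
    have h6 : hA.X r 1 = 1 := by
      have : hA.X r 1 = u⁻¹ * (n⁻¹ * (n * (u * hA.X r 1 * u⁻¹) * n⁻¹) * n) * u := by group
      rw [this, h5]; group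
    exact one_ne_zero (hA.X_eq_one b.hTri hr.1 h6)

/-- an element of `G` commuting with all `x_r(1)` is trivial. -/
theorem eq_one_of_comm_one (b : Bundle D F) (P : BruhatPack D F) {g : GL D.Idx F} (hg : g ∈ D.group F)
    (hc : ∀ r < D.nroots, g * b.hA.X r 1 * g⁻¹ = b.hA.X r 1) : g = 1 := by
  have hA := b.hA
  have hc' : ∀ r < D.nroots, ∀ ε : F, (ε = 1 ∨ ε = -1) → g * hA.X r ε * g⁻¹ = hA.X r ε := by
    intro r hr ε hε
    rcases hε with rfl | rfl
    · exact hc r hr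
    · rw [← hA.X_inv]
      have : g * (hA.X r 1)⁻¹ * g⁻¹ = (g * hA.X r 1 * g⁻¹)⁻¹ := by group
      rw [this, hc r hr]
  have h1 : g ∈ D.borelSubgroup F := by
    apply mem_borel_of_conj_one b P hg
    intro r hr
    rw [hc r hr.1]
    exact AddFact.pos_le_borel (hA.X_mem_pos hr 1)
  obtain ⟨w, hw, hneg⟩ := b.hL
  set n₀ := hA.nword w with hn₀
  have hn₀N : n₀ ∈ D.monomialSubgroup F := hA.nword_mem_mono b.hR hw
  have h2 : n₀⁻¹ * g * n₀ ∈ D.borelSubgroup F := by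
    apply mem_borel_of_conj_one b P
      (mul_mem (mul_mem (inv_mem (hA.mono_le_group hn₀N)) hg) (hA.mono_le_group hn₀N))
    intro r hr
    obtain ⟨ε, hε, h3, _⟩ := hA.nword_conj b.hR b.hN hw hr.1
    have h4 : n₀⁻¹ * g * n₀ * hA.X r 1 * (n₀⁻¹ * g * n₀)⁻¹ =
        n₀⁻¹ * (g * (n₀ * hA.X r 1 * n₀⁻¹) * g⁻¹) * n₀ := by group
    have h5 : b.hA.X r 1 = hA.X r 1 := rfl
    rw [h5, h4, h3, mul_one, hc' _ (b.hR.wact_lt hw hr.1) ε hε]
    have h6 := h3 1
    rw [mul_one] at h6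
    rw [← h6]
    have : n₀⁻¹ * (n₀ * hA.X r 1 * n₀⁻¹) * n₀ = hA.X r 1 := by group
    rw [this]
    exact AddFact.pos_le_borel (hA.X_mem_pos hr 1)
  have hUV : ∀ u ∈ D.posUnipotent F, n₀ * u * n₀⁻¹ ∈ D.negUnipotent F := by
    have hle : D.posUnipotent F ≤ (D.negUnipotent F).comap (MulAut.conj n₀).toMonoidHom := by
      rw [hA.posUnipotent_eq, Subgroup.closure_le]
      rintro _ ⟨r, t, hr, rfl⟩
      obtain ⟨ε, _, h3, _⟩ := hA.nword_conj b.hR b.hN hw hr.1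
      show n₀ * hA.X r t * n₀⁻¹ ∈ D.negUnipotent F
      rw [h3]
      exact hA.X_mem_neg (hneg r hr.1 hr) _
    intro u hu
    exact hle hu
  have h3 : g ∈ D.diagonalSubgroup F := by
    obtain ⟨u, hu, h, hh, e⟩ := (hA.mem_borel_iff b.hT).1 h2
    have h4 : g = (n₀ * u * n₀⁻¹) * (n₀ * h * n₀⁻¹) := by
      have : g = n₀ * (n₀⁻¹ * g * n₀) * n₀⁻¹ := by group
      rw [this, e]; group
    have h6 : g ∈ D.borelSubgroup F ⊓ (D.negUnipotent F ⊔ D.diagonalSubgroup F) := by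
      refine ⟨h1, ?_⟩
      rw [h4]
      exact mul_mem (Subgroup.mem_sup_left (hUV u hu))
        (Subgroup.mem_sup_right (hA.mono_conj_diag b.hR b.hN hn₀N hh))
    rwa [b.hTri.BVH] at h6
  obtain ⟨χ, hχ⟩ := hA.diag_isTor b.hT h3
  have hχ1 : ∀ s < D.nroots, χ s = 1 := by
    intro s hs
    have h4 := hχ.2.2 s hs 1
    rw [mul_one] at h4
    have h5 : hA.X s (χ s - 1) = 1 := by
      rw [sub_eq_add_neg, hA.X_add, ← hA.X_inv, ← h4]
      have : g * hA.X s 1 * g⁻¹ = hA.X s 1 := hc s hs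
      rw [this]; group
    exact sub_eq_zero.1 (hA.X_eq_one b.hTri hs h5)
  apply Units.ext
  rw [hχ.2.1, dg_eq_one hχ1]; rfl

/-- `σ` preserves the group. -/
theorem glMap_mem_group (hA : AddFact D F) (σ : F →+* F) {g : GL D.Idx F} (hg : g ∈ D.group F) :
    glMap D σ g ∈ D.group F := by
  have h := map_group hA hA σ
  have h2 : glMap D σ g ∈ (D.group F).map (glMap D σ) := ⟨g, hg, rfl⟩
  rw [h] at h2
  have hle : Subgroup.closure {g : GL D.Idx F | ∃ (r : ℕ) (t : F), r < D.nroots ∧ g = hA.X r (σ t)} ≤ D.group F := by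
    rw [Subgroup.closure_le]
    rintro x ⟨r, t, _, rfl⟩
    exact hA.X_mem_group r _
  exact hle h2

/-- a `σ`-fixed element of the group is `l₁ h l₂` with `l₁, l₂` generated by root elements over the fixed
field and `h ∈ H` fixed by `σ`. -/
theorem fixed_decomp (P : BruhatPack D F) (σ : F →+* F)
    {g : GL D.Idx F} (hg : g ∈ D.group F) (hfix : glMap D σ g = g) :
    ∃ l₁ ∈ G0 P.hA σ, ∃ h ∈ D.diagonalSubgroup F, ∃ l₂ ∈ G0 P.hA σ, glMap D σ h = h ∧ g = l₁ * h * l₂ := by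
  have hA := P.hA
  obtain ⟨b, hb, n, hn, u, hu, rfl⟩ := P.ex g hg
  obtain ⟨w, h', hw, hh', rfl⟩ := hA.mono_nform P.hR P.hN hn
  set m := hA.nword w with hm
  have hmN : m ∈ D.monomialSubgroup F := hA.nword_mem_mono P.hR hw
  have hu' : u ∈ Umin D F m := Umin_mul_diag P hh' hu
  have hc : m * h' * m⁻¹ ∈ D.diagonalSubgroup F := hA.nword_conj_diag P.hR P.hN hw hh'
  set b2 := b * (m * h' * m⁻¹) with hb2
  have hb2B : b2 ∈ D.borelSubgroup F := mul_mem hb (AddFact.diag_le_borel hc)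
  have e : b * (m * h') * u = b2 * m * u := by rw [hb2]; group
  rw [e] at hfix ⊢
  have hmW : m = hA.W (w.flatMap fun i => D.nWord (D.simple i) 1) := nword_eq_W hA w
  have hmfix0 : ∀ p ∈ (w.flatMap fun i => D.nWord (D.simple i) (1 : F)), σ p.2 = p.2 := by
    intro p hp
    obtain ⟨i, _, hi⟩ := List.mem_flatMap.1 hp
    exact nWord_fixed σ _ (map_one σ) p hi
  have hmfix : glMap D σ m = m := by
    rw [hmW, glMap_W hA hA]
    congr 1
    conv_rhs => rw [← List.map_id (w.flatMap fun i => D.nWord (D.simple i) (1 : F))]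
    apply List.map_congr_left
    intro p hp
    rw [hmfix0 p hp]; rfl
  have hUU : D.posUnipotent F ≤ (D.posUnipotent F).comap (glMap D σ) := by
    conv_lhs => rw [hA.posUnipotent_eq]
    rw [Subgroup.closure_le]
    rintro x ⟨r, t, hr, rfl⟩
    rw [SetLike.mem_coe, Subgroup.mem_comap, glMap_X hA hA, hA.posUnipotent_eq]
    exact Subgroup.subset_closure ⟨r, _, hr, rfl⟩
  have hHH : D.diagonalSubgroup F ≤ (D.diagonalSubgroup F).comap (glMap D σ) := by
    conv_lhs => rw [hA.diagonalSubgroup_eq]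
    rw [Subgroup.closure_le]
    rintro x ⟨r, t, hr, ht, rfl⟩
    rw [SetLike.mem_coe, Subgroup.mem_comap, ← hA.W_hWord, glMap_W hA hA, hWord_map, hA.W_hWord]
    exact hA.hG_mem_diag hr (by simpa using ht)
  have hBB : D.borelSubgroup F ≤ (D.borelSubgroup F).comap (glMap D σ) := by
    apply sup_le
    · exact hUU.trans (Subgroup.comap_mono AddFact.pos_le_borel)
    · exact hHH.trans (Subgroup.comap_mono AddFact.diag_le_borel)
  have hMM : Umin D F m ≤ (Umin D F m).comap (glMap D σ) := by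
    conv_lhs => unfold Umin
    rw [Subgroup.closure_le]
    rintro x ⟨r, t, hr, hle, hx⟩
    rw [hA.eq_X_iff] at hx
    subst hx
    rw [SetLike.mem_coe, Subgroup.mem_comap, glMap_X hA hA]
    exact Subgroup.subset_closure ⟨r, _, hr, hle, rfl⟩
  rw [map_mul, map_mul, hmfix] at hfix
  obtain ⟨hbfix, hufix⟩ := (P.uniq _ _ m m _ _ (hBB hb2B) hb2B hmN hmN (hMM hu') hu' hfix).2 rfl
  have keyU : ∀ v ∈ D.posUnipotent F, glMap D σ v = v → v ∈ G0 hA σ := by
    intro v hv hvfix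
    obtain ⟨t, rfl⟩ := exists_factor hA P.hC (posRoots_nodup D) (mem_posRoots D) hv
    rw [glMap_W hA hA, wL_map] at hvfix
    have := factor_unique hA P.hC P.hS (posRoots_nodup D) (fun a ha => (mem_posRoots D a).1 ha) hvfix
    apply W_mem_G0
    intro p hp
    obtain ⟨a, ha, rfl⟩ := List.mem_map.1 hp
    exact this a ha
  have hm0 : m ∈ G0 hA σ := by rw [hmW]; exact W_mem_G0 hA σ hmfix0
  have hu0 : u ∈ G0 hA σ := keyU u (Umin_le_pos hA m hu') hufix
  obtain ⟨u1, hu1, h, hh, eb⟩ := (hA.mem_borel_iff P.hT).1 hb2B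
  rw [eb, map_mul] at hbfix
  have h1 : u1⁻¹ * glMap D σ u1 = h * (glMap D σ h)⁻¹ := by
    have : glMap D σ u1 = u1 * h * (glMap D σ h)⁻¹ := by rw [← hbfix]; group
    rw [this]; group
  have h2 : u1⁻¹ * glMap D σ u1 ∈ D.posUnipotent F ⊓ D.diagonalSubgroup F :=
    Subgroup.mem_inf.2 ⟨mul_mem (inv_mem hu1) (hUU hu1), by rw [h1]; exact mul_mem hh (inv_mem (hHH hh))⟩
  rw [P.UH, Subgroup.mem_bot] at h2
  have hu1fix : glMap D σ u1 = u1 := (inv_mul_eq_one.1 h2).symm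
  have hhfix : glMap D σ h = h := by
    rw [h2] at h1
    exact (mul_inv_eq_one.1 h1.symm).symm
  have hu10 : u1 ∈ G0 hA σ := keyU u1 hu1 hu1fix
  refine ⟨u1, hu10, h, hh, m * u, mul_mem hm0 hu0, hhfix, ?_⟩
  rw [eb]; group

/-- a `σ`-fixed element of `H` normalises the group over the fixed field. -/
theorem diag_conj_G0 (b : Bundle D F) (σ : F →+* F) {h : GL D.Idx F} (hh : h ∈ D.diagonalSubgroup F)
    (hfix : glMap D σ h = h) {l : GL D.Idx F} (hl : l ∈ G0 b.hA σ) : h * l * h⁻¹ ∈ G0 b.hA σ := by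
  have hA := b.hA
  obtain ⟨χ, hχ⟩ := hA.diag_isTor b.hT hh
  have hle : G0 hA σ ≤ (G0 hA σ).comap (MulAut.conj h).toMonoidHom := by
    conv_lhs => unfold G0
    rw [Subgroup.closure_le]
    rintro x ⟨r, t, hr, ht, rfl⟩
    show h * hA.X r t * h⁻¹ ∈ G0 hA σ
    rw [hχ.2.2 r hr]
    apply X_mem_G0
    have h1 := congrArg (glMap D σ) (hχ.2.2 r hr 1)
    rw [map_mul, map_mul, map_inv, hfix, glMap_X hA hA, glMap_X hA hA, map_one, hχ.2.2 r hr, mul_one] at h1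
    have h2 : hA.X r (χ r - σ (χ r)) = 1 := by
      rw [sub_eq_add_neg, hA.X_add, ← hA.X_inv, ← h1]; group
    have h3 := sub_eq_zero.1 (hA.X_eq_one b.hTri hr h2)
    rw [map_mul, ht, ← h3]
  exact hle hl

/-- every `σ`-fixed element of the group normalises every group of `σ`-fixed elements that contains the
root elements over the fixed field. -/
theorem fixed_conj_mem (b : Bundle D F) (P : BruhatPack D F) (σ : F →+* F) (K : Subgroup (GL D.Idx F))
    (hKG : K ≤ D.group F) (hLK : G0 b.hA σ ≤ K) (hK : ∀ x ∈ K, glMap D σ x = x)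
    {g : GL D.Idx F} (hg : g ∈ D.group F) (hfix : glMap D σ g = g) {x : GL D.Idx F} (hx : x ∈ K) :
    g * x * g⁻¹ ∈ K := by
  have hA := b.hA
  obtain ⟨l₁, hl₁, h, hh, l₂, hl₂, hhfix, rfl⟩ := fixed_decomp P σ hg hfix
  have key : ∀ y ∈ K, h * y * h⁻¹ ∈ K := by
    intro y hy
    obtain ⟨m₁, hm₁, h₂, hh₂, m₂, hm₂, _, e⟩ := fixed_decomp P σ (hKG hy) (hK y hy)
    have hcomm := hA.diag_comm b.hT hh hh₂
    have h1 : h * y * h⁻¹ = (h * m₁ * h⁻¹) * m₁⁻¹ * y * m₂⁻¹ * (h * m₂ * h⁻¹) := by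
      have h2 : h * h₂ * h⁻¹ = h₂ := by rw [hcomm]; group
      have h3 : h * y * h⁻¹ = (h * m₁ * h⁻¹) * (h * h₂ * h⁻¹) * (h * m₂ * h⁻¹) := by rw [e]; group
      rw [h3, h2, e]; group
    rw [h1]
    exact mul_mem (mul_mem (mul_mem (mul_mem (hLK (diag_conj_G0 b σ hh hhfix hm₁)) (inv_mem (hLK hm₁))) hy)
      (inv_mem (hLK hm₂))) (hLK (diag_conj_G0 b σ hh hhfix hm₂))
  have h1 : l₁ * h * l₂ * x * (l₁ * h * l₂)⁻¹ = l₁ * (h * (l₂ * x * l₂⁻¹) * h⁻¹) * l₁⁻¹ := by group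
  rw [h1]
  exact mul_mem (mul_mem (hLK hl₁) (key _ (mul_mem (mul_mem (hLK hl₂) hx) (inv_mem (hLK hl₂)))))
    (inv_mem (hLK hl₁))

/-- centraliser and normaliser of a subfield subgroup. -/
theorem subfield_cent_norm (b : Bundle D F) (P : BruhatPack D F) (σ : F →+* F) (K : Subgroup (GL D.Idx F))
    (hKG : K ≤ D.group F) (hLK : G0 b.hA σ ≤ K) (hK : ∀ x ∈ K, glMap D σ x = x) :
    D.group F ⊓ Subgroup.centralizer (K : Set (GL D.Idx F)) = ⊥ ∧
    ∀ g : GL D.Idx F, g ∈ D.group F →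
      (g ∈ Subgroup.normalizer (K : Set (GL D.Idx F)) ↔ glMap D σ g = g) := by
  have hA := b.hA
  have hcent : ∀ g ∈ D.group F, (∀ x ∈ K, g * x * g⁻¹ = x) → g = 1 := by
    intro g hg hc
    apply eq_one_of_comm_one b P hg
    intro r _
    exact hc _ (hLK (X_mem_G0 hA σ r (map_one σ)))
  refine ⟨?_, fun g hg => ⟨fun hn => ?_, fun hfix => ?_⟩⟩
  · rw [eq_bot_iff]
    rintro g ⟨hg, hc⟩
    rw [Subgroup.mem_bot]
    apply hcent g hg
    intro x hx
    have := Subgroup.mem_centralizer_iff.1 hc x hx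
    rw [← this]; group
  · have h1 : g⁻¹ * glMap D σ g = 1 := by
      apply hcent _ (mul_mem (inv_mem hg) (glMap_mem_group hA σ hg))
      intro x hx
      have h2 : g * x * g⁻¹ ∈ K := (Subgroup.mem_normalizer_iff.1 hn x).1 hx
      have h3 := hK _ h2
      rw [map_mul, map_mul, map_inv, hK x hx] at h3
      have h4 : g⁻¹ * glMap D σ g * x * (g⁻¹ * glMap D σ g)⁻¹ =
          g⁻¹ * (glMap D σ g * x * (glMap D σ g)⁻¹) * g := by group
      rw [h4, h3]; group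
    exact (inv_mul_eq_one.1 h1).symm
  · rw [Subgroup.mem_normalizer_iff]
    intro x
    refine ⟨fun hx => fixed_conj_mem b P σ K hKG hLK hK hg hfix hx, fun hx => ?_⟩
    have h1 := fixed_conj_mem b P σ K hKG hLK hK (inv_mem hg) (by rw [map_inv, hfix]) hx
    have h2 : g⁻¹ * (g * x * g⁻¹) * g⁻¹⁻¹ = x := by group
    rwa [h2] at h1

end Cfsg.Agent.Lib.Helper45
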